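import Mathlib
import Cfsg.Agent.Lib.Helper32.D8Stmt

/-!
# S3716 piece LOCaa (local pair sum of the `N`-class of `a` with itself), with a small toolkit
for normal-form computations in `N` on top of `D8Stmt.NF`:
`nf`, `nf_eq`, `nf_mul`, `nf_uniq`, `mem_N`, `val1`, `val2`, `valP1`, `valP2`, `om`.
-/

set_option autoImplicit false

namespace Cfsg.Agent.Lib.Helper58.D8LOCaa

open Cfsg
open Cfsg.Agent.Lib.Helper32

universe u

variable {G : Type u} [Group G] {T N : Subgroup G} {x y a b w : G}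

/-- The normal form `x^i y^j a^k b^l w^m`. -/
def nf (x y a b w : G) (i j k l m : ℕ) : G := x ^ i * y ^ j * a ^ k * b ^ l * w ^ m

theorem nf_eq (cfg : D8Stmt.Cfg T N x y a b w) {i j k l m i' j' k' l' m' : ℕ}
    (h1 : i % 3 = i' % 3) (h2 : j % 3 = j' % 3) (h3 : k % 2 = k' % 2) (h4 : l % 2 = l' % 2)
    (h5 : m % 2 = m' % 2) :
    nf x y a b w i j k l m = nf x y a b w i' j' k' l' m' := by
  have e1 : x ^ i = x ^ i' := by
    rw [pow_eq_pow_mod i cfg.x3, pow_eq_pow_mod i' cfg.x3, h1]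
  have e2 : y ^ j = y ^ j' := by
    rw [pow_eq_pow_mod j cfg.y3, pow_eq_pow_mod j' cfg.y3, h2]
  have e3 : a ^ k = a ^ k' := by
    rw [pow_eq_pow_mod k cfg.a2, pow_eq_pow_mod k' cfg.a2, h3]
  have e4 : b ^ l = b ^ l' := by
    rw [pow_eq_pow_mod l cfg.b2, pow_eq_pow_mod l' cfg.b2, h4]
  have e5 : w ^ m = w ^ m' := by
    rw [pow_eq_pow_mod m cfg.w2, pow_eq_pow_mod m' cfg.w2, h5]
  unfold nf
  rw [e1, e2, e3, e4, e5]

theorem x_mem : x ∈ Subgroup.centralizer ({x} : Set G) := by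
  rw [Subgroup.mem_centralizer_iff]
  intro h hh
  rw [Set.mem_singleton_iff.1 hh]

section
variable [Finite G]

theorem nf_uniq (hNF : D8Stmt.NF.{u}) (cfg : D8Stmt.Cfg T N x y a b w)
    {i j k l m i' j' k' l' m' : ℕ}
    (h : nf x y a b w i j k l m = nf x y a b w i' j' k' l' m') :
    i % 3 = i' % 3 ∧ j % 3 = j' % 3 ∧ k % 2 = k' % 2 ∧ l % 2 = l' % 2 ∧ m % 2 = m' % 2 :=
  (hNF cfg).2.2.1 i j k l m i' j' k' l' m' h

theorem nf_mul (hNF : D8Stmt.NF.{u}) (cfg : D8Stmt.Cfg T N x y a b w)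
    (i j k l m i' j' k' l' m' : ℕ) :
    nf x y a b w i j k l m * nf x y a b w i' j' k' l' m' =
      if m % 2 = 0 then
        nf x y a b w (i + (if k % 2 = 0 then i' else 2 * i'))
          (j + (if l % 2 = 0 then j' else 2 * j')) (k + k') (l + l') (m + m')
      else
        nf x y a b w (i + (if k % 2 = 0 then j' else 2 * j'))
          (j + (if l % 2 = 0 then i' else 2 * i')) (k + l') (l + k') (m + m') :=
  (hNF cfg).2.2.2.1 i j k l m i' j' k' l' m'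

theorem nf_mul_w (hNF : D8Stmt.NF.{u}) (cfg : D8Stmt.Cfg T N x y a b w)
    (i j k l m i' j' k' l' m' : ℕ) :
    ∃ i'' j'' k'' l'' : ℕ, nf x y a b w i j k l m * nf x y a b w i' j' k' l' m' =
      nf x y a b w i'' j'' k'' l'' (m + m') := by
  rw [nf_mul hNF cfg]
  by_cases hm : m % 2 = 0
  · rw [if_pos hm]
    exact ⟨_, _, _, _, rfl⟩
  · rw [if_neg hm]
    exact ⟨_, _, _, _, rfl⟩

/-- Product rule when the first factor has no `w`. -/
theorem nf_mul0 (hNF : D8Stmt.NF.{u}) (cfg : D8Stmt.Cfg T N x y a b w)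
    (i j k l i' j' k' l' m' : ℕ) :
    nf x y a b w i j k l 0 * nf x y a b w i' j' k' l' m' =
      nf x y a b w (i + (if k % 2 = 0 then i' else 2 * i'))
        (j + (if l % 2 = 0 then j' else 2 * j')) (k + k') (l + l') (0 + m') :=
  (nf_mul hNF cfg i j k l 0 i' j' k' l' m').trans (if_pos rfl)

theorem mem_N (hNF : D8Stmt.NF.{u}) (cfg : D8Stmt.Cfg T N x y a b w) (g : G) :
    g ∈ N ↔ ∃ i j k l m : ℕ, g = nf x y a b w i j k l m :=
  (hNF cfg).2.1 g

theorem zero_val (hNF : D8Stmt.NF.{u}) (cfg : D8Stmt.Cfg T N x y a b w)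
    (φ : Subgroup.centralizer ({x} : Set G) → ℂ) (i j k l m : ℕ)
    (h : k % 2 = 1 ∨ m % 2 = 1) :
    extendByZero (Subgroup.centralizer ({x} : Set G)) φ (nf x y a b w i j k l m) = 0 := by
  obtain ⟨-, -, huniq, -, hC, -, -⟩ := hNF cfg
  unfold extendByZero
  rw [Function.extend_apply']
  · rfl
  · rintro ⟨⟨g, hg⟩, hge⟩
    have hge' : g = nf x y a b w i j k l m := hge
    obtain ⟨i', j', l', e⟩ := (hC g).1 hg
    have e' : x ^ i * y ^ j * a ^ k * b ^ l * w ^ m = x ^ i' * y ^ j' * a ^ 0 * b ^ l' * w ^ 0 := by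
      have : g = x ^ i * y ^ j * a ^ k * b ^ l * w ^ m := hge'
      rw [← this, e]
      simp
    obtain ⟨-, -, h3, -, h5⟩ := huniq _ _ _ _ _ _ _ _ _ _ e'
    omega

theorem val1_aux (hNF : D8Stmt.NF.{u}) (cfg : D8Stmt.Cfg T N x y a b w)
    (f g : Subgroup.centralizer ({x} : Set G) →* ℂˣ) (hO : D8Stmt.Om2 x y b f g)
    (i j l : ℕ) :
    extendByZero (Subgroup.centralizer ({x} : Set G)) (D8Stmt.ph1 x f) (x ^ i * y ^ j * b ^ l) =
      1 - ((f ⟨x, x_mem⟩ : ℂˣ) : ℂ) ^ i := by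
  obtain ⟨-, -, -, -, hC, hfg, -⟩ := hNF cfg
  have hm : x ^ i * y ^ j * b ^ l ∈ Subgroup.centralizer ({x} : Set G) :=
    (hC _).2 ⟨i, j, l, rfl⟩
  have h1 : extendByZero (Subgroup.centralizer ({x} : Set G)) (D8Stmt.ph1 x f)
      (x ^ i * y ^ j * b ^ l) = D8Stmt.ph1 x f ⟨_, hm⟩ := by
    unfold extendByZero
    exact Subtype.val_injective.extend_apply _ _ ⟨_, hm⟩
  rw [h1]
  unfold D8Stmt.ph1
  rw [(hfg f g hO i j l hm x_mem).1]
  simp

theorem val2_aux (hNF : D8Stmt.NF.{u}) (cfg : D8Stmt.Cfg T N x y a b w)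
    (f g : Subgroup.centralizer ({x} : Set G) →* ℂˣ) (hO : D8Stmt.Om2 x y b f g)
    (i j l : ℕ) :
    extendByZero (Subgroup.centralizer ({x} : Set G)) (D8Stmt.ph2 x f g)
      (x ^ i * y ^ j * b ^ l) =
      (-1) ^ l * (1 - ((f ⟨x, x_mem⟩ : ℂˣ) : ℂ) ^ i) := by
  obtain ⟨-, -, -, -, hC, hfg, -⟩ := hNF cfg
  have hm : x ^ i * y ^ j * b ^ l ∈ Subgroup.centralizer ({x} : Set G) :=
    (hC _).2 ⟨i, j, l, rfl⟩
  have h1 : extendByZero (Subgroup.centralizer ({x} : Set G)) (D8Stmt.ph2 x f g)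
      (x ^ i * y ^ j * b ^ l) = D8Stmt.ph2 x f g ⟨_, hm⟩ := by
    unfold extendByZero
    exact Subtype.val_injective.extend_apply _ _ ⟨_, hm⟩
  rw [h1]
  unfold D8Stmt.ph2
  rw [(hfg f g hO i j l hm x_mem).1, (hfg f g hO i j l hm x_mem).2]
  simp only [Units.val_pow_eq_pow_val]
  ring

/-- Value of the extension of `ph1` on a normal form. -/
theorem val1 (hNF : D8Stmt.NF.{u}) (cfg : D8Stmt.Cfg T N x y a b w)
    (f g : Subgroup.centralizer ({x} : Set G) →* ℂˣ) (hO : D8Stmt.Om2 x y b f g)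
    (i j k l m : ℕ) :
    extendByZero (Subgroup.centralizer ({x} : Set G)) (D8Stmt.ph1 x f)
      (nf x y a b w i j k l m) =
      if k % 2 = 0 ∧ m % 2 = 0 then 1 - ((f ⟨x, x_mem⟩ : ℂˣ) : ℂ) ^ i else 0 := by
  by_cases h : k % 2 = 0 ∧ m % 2 = 0
  · rw [if_pos h, nf_eq cfg (i' := i) (j' := j) (k' := 0) (l' := l) (m' := 0) rfl rfl h.1 rfl h.2]
    have : nf x y a b w i j 0 l 0 = x ^ i * y ^ j * b ^ l := by simp [nf]
    rw [this]
    exact val1_aux hNF cfg f g hO i j l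
  · rw [if_neg h]
    apply zero_val hNF cfg
    omega

/-- Value of the extension of `ph2` on a normal form. -/
theorem val2 (hNF : D8Stmt.NF.{u}) (cfg : D8Stmt.Cfg T N x y a b w)
    (f g : Subgroup.centralizer ({x} : Set G) →* ℂˣ) (hO : D8Stmt.Om2 x y b f g)
    (i j k l m : ℕ) :
    extendByZero (Subgroup.centralizer ({x} : Set G)) (D8Stmt.ph2 x f g)
      (nf x y a b w i j k l m) =
      if k % 2 = 0 ∧ m % 2 = 0 then (-1) ^ l * (1 - ((f ⟨x, x_mem⟩ : ℂˣ) : ℂ) ^ i) else 0 := by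
  by_cases h : k % 2 = 0 ∧ m % 2 = 0
  · rw [if_pos h, nf_eq cfg (i' := i) (j' := j) (k' := 0) (l' := l) (m' := 0) rfl rfl h.1 rfl h.2]
    have : nf x y a b w i j 0 l 0 = x ^ i * y ^ j * b ^ l := by simp [nf]
    rw [this]
    exact val2_aux hNF cfg f g hO i j l
  · rw [if_neg h]
    apply zero_val hNF cfg
    omega

/-- Value of the extension of `ph1` on a product of normal forms. -/
theorem valP1 (hNF : D8Stmt.NF.{u}) (cfg : D8Stmt.Cfg T N x y a b w)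
    (f g : Subgroup.centralizer ({x} : Set G) →* ℂˣ) (hO : D8Stmt.Om2 x y b f g)
    (i j k l m i' j' k' l' m' : ℕ) :
    extendByZero (Subgroup.centralizer ({x} : Set G)) (D8Stmt.ph1 x f)
      (nf x y a b w i j k l m * nf x y a b w i' j' k' l' m') =
      if m % 2 = 0 then
        (if (k + k') % 2 = 0 ∧ (m + m') % 2 = 0 then
          1 - ((f ⟨x, x_mem⟩ : ℂˣ) : ℂ) ^ (i + (if k % 2 = 0 then i' else 2 * i')) else 0)
      else
        (if (k + l') % 2 = 0 ∧ (m + m') % 2 = 0 then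
          1 - ((f ⟨x, x_mem⟩ : ℂˣ) : ℂ) ^ (i + (if k % 2 = 0 then j' else 2 * j')) else 0) := by
  rw [nf_mul hNF cfg]
  by_cases hm : m % 2 = 0
  · rw [if_pos hm, if_pos hm, val1 hNF cfg f g hO]
  · rw [if_neg hm, if_neg hm, val1 hNF cfg f g hO]

/-- Value of the extension of `ph2` on a product of normal forms. -/
theorem valP2 (hNF : D8Stmt.NF.{u}) (cfg : D8Stmt.Cfg T N x y a b w)
    (f g : Subgroup.centralizer ({x} : Set G) →* ℂˣ) (hO : D8Stmt.Om2 x y b f g)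
    (i j k l m i' j' k' l' m' : ℕ) :
    extendByZero (Subgroup.centralizer ({x} : Set G)) (D8Stmt.ph2 x f g)
      (nf x y a b w i j k l m * nf x y a b w i' j' k' l' m') =
      if m % 2 = 0 then
        (if (k + k') % 2 = 0 ∧ (m + m') % 2 = 0 then
          (-1) ^ (l + l') *
            (1 - ((f ⟨x, x_mem⟩ : ℂˣ) : ℂ) ^ (i + (if k % 2 = 0 then i' else 2 * i'))) else 0)
      else
        (if (k + l') % 2 = 0 ∧ (m + m') % 2 = 0 then
          (-1) ^ (l + k') *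
            (1 - ((f ⟨x, x_mem⟩ : ℂˣ) : ℂ) ^ (i + (if k % 2 = 0 then j' else 2 * j'))) else 0) := by
  rw [nf_mul hNF cfg]
  by_cases hm : m % 2 = 0
  · rw [if_pos hm, if_pos hm, val2 hNF cfg f g hO]
  · rw [if_neg hm, if_neg hm, val2 hNF cfg f g hO]

end

/-- `f x` is a primitive cube root of unity. -/
theorem om (cfg : D8Stmt.Cfg T N x y a b w)
    (f g : Subgroup.centralizer ({x} : Set G) →* ℂˣ) (hO : D8Stmt.Om2 x y b f g) :
    ((f ⟨x, x_mem⟩ : ℂˣ) : ℂ) ^ 2 + ((f ⟨x, x_mem⟩ : ℂˣ) : ℂ) + 1 = 0 := by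
  have hx3 : (⟨x, x_mem⟩ : Subgroup.centralizer ({x} : Set G)) ^ 3 = 1 :=
    Subtype.ext (by simp [cfg.x3])
  have h3 : (f ⟨x, x_mem⟩) ^ 3 = 1 := by rw [← map_pow, hx3, map_one]
  set c : ℂ := ((f ⟨x, x_mem⟩ : ℂˣ) : ℂ) with hcdef
  have hc3 : c ^ 3 = 1 := by
    have := congrArg Units.val h3
    simpa using this
  have hc1 : c ≠ 1 := fun h => hO.fx x_mem (Units.ext h)
  have h0 : (c - 1) * (c ^ 2 + c + 1) = 0 := by
    have : (c - 1) * (c ^ 2 + c + 1) = c ^ 3 - 1 := by ring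
    rw [this, hc3, sub_self]
  rcases mul_eq_zero.1 h0 with h | h
  · exact absurd (sub_eq_zero.1 h) hc1
  · exact h

/-! ## The `N`-class of `a` -/

section
variable [Finite G]

/-- Conjugates of `a = nf 0 0 1 0 0` in normal form. -/
theorem conj_a (hNF : D8Stmt.NF.{u}) (cfg : D8Stmt.Cfg T N x y a b w) (i j k l m : ℕ) :
    nf x y a b w i j k l m * nf x y a b w 0 0 1 0 0 * (nf x y a b w i j k l m)⁻¹ =
      if m % 2 = 0 then nf x y a b w (2 * i) 0 1 0 0 else nf x y a b w 0 (2 * j) 0 1 0 := by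
  rw [mul_inv_eq_iff_eq_mul]
  by_cases hm : m % 2 = 0
  · rw [if_pos hm, nf_mul0 hNF cfg, nf_mul hNF cfg, if_pos hm]
    apply nf_eq cfg <;> (try split_ifs) <;> first | omega | contradiction
  · rw [if_neg hm, nf_mul0 hNF cfg, nf_mul hNF cfg, if_neg hm]
    apply nf_eq cfg <;> (try split_ifs) <;> first | omega | contradiction

end

theorem a_eq_nf : a = nf x y a b w 0 0 1 0 0 := by simp [nf]

/-- The enumeration of the `N`-class of `a`. -/
def Ea (x y a b w : G) : Fin 3 ⊕ Fin 3 → G :=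
  Sum.elim (fun i => nf x y a b w (i : ℕ) 0 1 0 0) (fun j => nf x y a b w 0 (j : ℕ) 0 1 0)

theorem Ea_inj [Finite G] (hNF : D8Stmt.NF.{u}) (cfg : D8Stmt.Cfg T N x y a b w) :
    Function.Injective (Ea x y a b w) := by
  rintro (i | i) (j | j) h
  · have := (nf_uniq hNF cfg h).1
    congr 1
    apply Fin.ext
    omega
  · have := (nf_uniq hNF cfg h).2.2.1
    omega
  · have := (nf_uniq hNF cfg h).2.2.1
    omega
  · have := (nf_uniq hNF cfg h).2.1
    congr 1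
    apply Fin.ext
    omega

theorem ncl_a [Fintype G] [DecidableEq G] (hNF : D8Stmt.NF.{u})
    (cfg : D8Stmt.Cfg T N x y a b w) :
    D8Stmt.ncl N a = Finset.univ.image (Ea x y a b w) := by
  ext v
  simp only [D8Stmt.ncl, Finset.mem_filter, Finset.mem_univ, true_and, Finset.mem_image]
  constructor
  · rintro ⟨n, hn, rfl⟩
    obtain ⟨i, j, k, l, m, rfl⟩ := (mem_N hNF cfg n).1 hn
    have hc := conj_a hNF cfg i j k l m
    rw [← a_eq_nf] at hc
    rw [hc]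
    by_cases hm : m % 2 = 0
    · rw [if_pos hm]
      refine ⟨Sum.inl ⟨2 * i % 3, Nat.mod_lt _ (by norm_num)⟩, ?_⟩
      apply nf_eq cfg <;> simp
    · rw [if_neg hm]
      refine ⟨Sum.inr ⟨2 * j % 3, Nat.mod_lt _ (by norm_num)⟩, ?_⟩
      apply nf_eq cfg <;> simp
  · rintro ⟨(i | j), rfl⟩
    · refine ⟨nf x y a b w (2 * i) 0 0 0 0, (mem_N hNF cfg _).2 ⟨_, _, _, _, _, rfl⟩, ?_⟩
      have hc := conj_a hNF cfg (2 * i) 0 0 0 0
      rw [← a_eq_nf, if_pos (by norm_num)] at hc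
      rw [hc]
      apply nf_eq cfg <;> first | rfl | omega
    · refine ⟨nf x y a b w 0 (2 * j) 0 0 1, (mem_N hNF cfg _).2 ⟨_, _, _, _, _, rfl⟩, ?_⟩
      have hc := conj_a hNF cfg 0 (2 * j) 0 0 1
      rw [← a_eq_nf, if_neg (by norm_num)] at hc
      rw [hc]
      apply nf_eq cfg <;> first | rfl | omega

theorem main (hNF : D8Stmt.NF.{u}) : D8Stmt.LOCaa.{u} := by
  intro G _ _ T N x y a b w cfg f g hO
  classical
  have hω := om cfg f g hO
  have hinj := Ea_inj hNF cfg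
  constructor
  · unfold D8Stmt.lsum
    rw [ncl_a hNF cfg, Finset.sum_image (fun p _ q _ h => hinj h)]
    simp only [Finset.sum_image (fun p _ q _ h => hinj h)]
    simp only [Fintype.sum_sum_type, Ea, Sum.elim_inl, Sum.elim_inr, valP1 hNF cfg f g hO]
    simp [Fin.sum_univ_three]
    linear_combination (-(1 + ((f ⟨x, x_mem⟩ : ℂˣ) : ℂ) ^ 2 + ((f ⟨x, x_mem⟩ : ℂˣ) : ℂ) ^ 4)) * hω
  · unfold D8Stmt.lsum
    rw [ncl_a hNF cfg, Finset.sum_image (fun p _ q _ h => hinj h)]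
    simp only [Finset.sum_image (fun p _ q _ h => hinj h)]
    simp only [Fintype.sum_sum_type, Ea, Sum.elim_inl, Sum.elim_inr, valP2 hNF cfg f g hO]
    simp [Fin.sum_univ_three]
    linear_combination (-(1 + ((f ⟨x, x_mem⟩ : ℂˣ) : ℂ) ^ 2 + ((f ⟨x, x_mem⟩ : ℂˣ) : ℂ) ^ 4)) * hω

end Cfsg.Agent.Lib.Helper58.D8LOCaa
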