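import Mathlib

/-!
A permutation of `F_p^d` (p odd) that agrees with an affine map on every triple of points is
itself affine.
-/

set_option autoImplicit false

namespace Cfsg.Agent.Lib.Helper58.Affine3

theorem two_ne_zero_zmod {p : ℕ} [Fact p.Prime] (hp : p ≠ 2) : (2 : ZMod p) ≠ 0 := by
  intro h
  have h' : ((2 : ℕ) : ZMod p) = 0 := by exact_mod_cast h
  rw [ZMod.natCast_eq_zero_iff] at h'
  exact hp ((Nat.prime_dvd_prime_iff_eq (Fact.out) Nat.prime_two).mp h')

theorem affine_of_triples {p : ℕ} [Fact p.Prime] (hp : p ≠ 2) {d : ℕ}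
    (σ : Equiv.Perm (Fin d → ZMod p))
    (h : ∀ t : Fin 3 → (Fin d → ZMod p),
      ∃ (A : (Fin d → ZMod p) ≃ₗ[ZMod p] (Fin d → ZMod p)) (b : Fin d → ZMod p),
        ∀ i, σ (t i) = A (t i) + b) :
    ∃ (A : (Fin d → ZMod p) ≃ₗ[ZMod p] (Fin d → ZMod p)) (b : Fin d → ZMod p),
      ∀ x, σ x = A x + b := by
  have h2 : (2 : ZMod p) ≠ 0 := two_ne_zero_zmod hp
  obtain ⟨c, hc⟩ : ∃ c : ZMod p, 2 * c = 1 := ⟨2⁻¹, mul_inv_cancel₀ h2⟩
  have hline : ∀ (x y : Fin d → ZMod p) (c : ZMod p),
      σ (x + c • (y - x)) = σ x + c • (σ y - σ x) := by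
    intro x y c
    obtain ⟨A, b, hA⟩ := h ![x, y, x + c • (y - x)]
    have h0 : σ x = A x + b := hA 0
    have h1 : σ y = A y + b := hA 1
    have h2 : σ (x + c • (y - x)) = A (x + c • (y - x)) + b := hA 2
    rw [h2, h0, h1, map_add, map_smul, map_sub]
    module
  have hf_smul : ∀ (c : ZMod p) (x : Fin d → ZMod p), σ (c • x) - σ 0 = c • (σ x - σ 0) := by
    intro c x
    have := hline 0 x c
    simp only [zero_add, sub_zero] at this
    rw [this]; abel
  have hf_mid : ∀ x y : Fin d → ZMod p,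
      σ (c • (x + y)) - σ 0 = c • ((σ x - σ 0) + (σ y - σ 0)) := by
    intro x y
    have h1 := hline x y c
    have e1 : x + c • (y - x) = c • (x + y) := by
      match_scalars <;> first | ring1 | linear_combination -hc | linear_combination hc
    rw [e1] at h1
    rw [h1]
    match_scalars <;> first | ring1 | linear_combination -hc | linear_combination hc
  have hf_add : ∀ x y : Fin d → ZMod p,
      σ (x + y) - σ 0 = (σ x - σ 0) + (σ y - σ 0) := by
    intro x y
    have e1 : x + y = (2 : ZMod p) • (c • (x + y)) := by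
      rw [smul_smul, hc, one_smul]
    rw [e1, hf_smul, hf_mid, smul_smul, hc, one_smul]
  let F : (Fin d → ZMod p) →ₗ[ZMod p] (Fin d → ZMod p) :=
    { toFun := fun x => σ x - σ 0
      map_add' := hf_add
      map_smul' := fun c x => by simpa using hf_smul c x }
  have hinj : Function.Injective F := by
    intro x y hxy
    have : σ x - σ 0 = σ y - σ 0 := hxy
    exact σ.injective (sub_left_injective this)
  refine ⟨LinearEquiv.ofInjectiveEndo F hinj, σ 0, fun x => ?_⟩
  rw [LinearEquiv.coe_ofInjectiveEndo]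
  show σ x = σ x - σ 0 + σ 0
  abel

end Cfsg.Agent.Lib.Helper58.Affine3
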