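import Mathlib
import Cfsg.Agent.Lib.Helper44.BCStmt

/-!
# S2362, piece INVOLNEG: an involution commuting with an irreducible `T` is `-1`.
-/

set_option autoImplicit false

namespace Cfsg.Agent.Lib.Helper58.BCINVOLNEG

open Matrix Polynomial

universe u

theorem main (hIK : Cfsg.Agent.Lib.Helper44.BCStmt.IrrKill.{u}) :
    Cfsg.Agent.Lib.Helper44.BCStmt.InvolNeg.{u} := by
  intro F _ κ _ _ T Z hT hcomm hZ hne
  by_contra hcon
  have h0 : Z + 1 ≠ 0 := fun h => hcon (eq_neg_of_add_eq_zero_left h)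
  -- a vector not killed by `Z + 1`
  have h1 : ∃ w : κ → F, (Z + 1) *ᵥ w ≠ 0 := by
    by_contra hall
    push Not at hall
    apply h0
    ext i j
    have := congrFun (hall (Pi.single j 1)) i
    rw [Matrix.mulVec_single_one] at this
    exact this
  obtain ⟨w, hw⟩ := h1
  have h2 : (Z - 1) * (Z + 1) = 0 := by
    rw [sub_mul, mul_add, mul_add, hZ, one_mul, mul_one, mul_one]
    abel
  have h3 : (Z - 1) *ᵥ ((Z + 1) *ᵥ w) = 0 := by
    rw [Matrix.mulVec_mulVec, h2, Matrix.zero_mulVec]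
  have h5 : (Z - 1) * T = T * (Z - 1) := by
    rw [sub_mul, mul_sub, hcomm, one_mul, mul_one]
  have h6 := hIK F κ T (Z - 1) hT h5 ⟨_, hw, h3⟩
  exact hne (sub_eq_zero.1 h6)

end Cfsg.Agent.Lib.Helper58.BCINVOLNEG
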