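import Mathlib
import Cfsg.Agent.Lib.Helper44.BCStmt

/-!
# S2362, piece UNIPTRIV: a matrix of order `p` commuting with an irreducible `T` is trivial.
-/

set_option autoImplicit false
set_option linter.style.haveILetI false

namespace Cfsg.Agent.Lib.Helper58.BCUNIPTRIV

open Matrix Polynomial

universe u

/-- an irreducible characteristic polynomial forces a nonempty index type -/
theorem nonempty_of_irreducible {F : Type u} [Field F] {κ : Type} [Fintype κ] [DecidableEq κ]
    (T : Matrix κ κ F) (hT : Irreducible T.charpoly) : Nonempty κ := by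
  by_contra hne
  rw [not_nonempty_iff] at hne
  have h1 : T.charpoly = 1 := by
    unfold Matrix.charpoly
    exact Matrix.det_isEmpty
  rw [h1] at hT
  exact hT.not_isUnit isUnit_one

theorem main (hIK : Cfsg.Agent.Lib.Helper44.BCStmt.IrrKill.{u}) :
    Cfsg.Agent.Lib.Helper44.BCStmt.UnipTriv.{u} := by
  intro F _ p _ _ κ _ _ T U hT hcomm hU
  haveI : Nonempty κ := nonempty_of_irreducible T hT
  have hc : Commute U (1 : Matrix κ κ F) := Commute.one_right U
  have h1 : (U - 1) ^ p = 0 := by
    rw [sub_pow_char_of_commute p hc, hU, one_pow, sub_self]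
  have h2 : (U - 1).det = 0 := by
    have h3 : (U - 1).det ^ p = 0 := by
      rw [← Matrix.det_pow, h1, Matrix.det_zero]
    exact pow_eq_zero_iff (Fact.out : p.Prime).ne_zero |>.1 h3
  have h4 : ∃ v : κ → F, v ≠ 0 ∧ (U - 1) *ᵥ v = 0 := Matrix.exists_mulVec_eq_zero_iff.2 h2
  have h5 : (U - 1) * T = T * (U - 1) := by
    rw [sub_mul, mul_sub, hcomm, one_mul, mul_one]
  have h6 := hIK F κ T (U - 1) hT h5 h4
  exact sub_eq_zero.1 h6

end Cfsg.Agent.Lib.Helper58.BCUNIPTRIV
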