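import Mathlib
import Cfsg.Agent.Lib.Helper20.C320Stmt

/-!
Piece TRANS of S1903: minimal non-`p`-nilpotency is invariant under isomorphism.
-/

set_option autoImplicit false
set_option linter.style.haveILetI false

namespace Cfsg.Agent.Lib.Helper58.C320TRANS

open Cfsg.Agent.Lib.Helper4.UniStmt Cfsg.Agent.Lib.Helper20.C320Stmt

universe u v

/-- Having a normal `p`-complement is invariant under isomorphism. -/
theorem hnpc_of_equiv (p : ℕ) {G : Type u} {H : Type v} [Group G] [Group H] [Finite G] [Finite H]
    (e : G ≃* H) (h : Cfsg.HasNormalPComplement p G) : Cfsg.HasNormalPComplement p H := by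
  obtain ⟨P, N, hN, hc⟩ := h
  have hinj : Function.Injective e.symm.toMonoidHom := e.symm.injective
  have hle : (P : Subgroup G) ≤ e.symm.toMonoidHom.range := by
    intro x _
    exact ⟨e x, e.symm_apply_apply x⟩
  have hPeq : ((P.comapOfInjective e.symm.toMonoidHom hinj hle : Sylow p H) : Subgroup H) =
      (P : Subgroup G).map e.toMonoidHom := by
    rw [Sylow.coe_comapOfInjective]
    ext x
    constructor
    · intro hx
      exact ⟨e.symm x, hx, e.apply_symm_apply x⟩
    · rintro ⟨y, hy, rfl⟩
      show e.symm (e y) ∈ (P : Subgroup G)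
      rw [e.symm_apply_apply]; exact hy
  refine ⟨P.comapOfInjective e.symm.toMonoidHom hinj hle, N.map e.toMonoidHom,
    hN.map e.toMonoidHom e.surjective, ?_⟩
  rw [hPeq]
  rw [Subgroup.isComplement'_iff_card_mul_and_disjoint] at hc ⊢
  obtain ⟨hcard, hdisj⟩ := hc
  refine ⟨?_, ?_⟩
  · rw [Subgroup.card_map_of_injective e.injective, Subgroup.card_map_of_injective e.injective,
      hcard]
    exact Nat.card_congr e.toEquiv
  · rw [disjoint_iff, ← Subgroup.map_inf_eq _ _ _ e.injective, disjoint_iff.mp hdisj,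
      Subgroup.map_bot]

theorem main : Trans.{u, v} := by
  intro p G H _ _ _ _ ⟨e⟩ hM
  refine ⟨fun h => hM.1 (hnpc_of_equiv p e.symm h), fun K hK => ?_⟩
  have hK' : K.map e.symm.toMonoidHom ≠ ⊤ := by
    intro htop
    apply hK
    rw [eq_top_iff]
    intro x _
    have hx : e.symm x ∈ K.map e.symm.toMonoidHom := by rw [htop]; exact Subgroup.mem_top _
    obtain ⟨k, hk, hkx⟩ := hx
    have : k = x := e.symm.injective hkx
    rw [← this]; exact hk
  have h1 := hM.2 _ hK'
  exact hnpc_of_equiv p (e.symm.subgroupMap K).symm h1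

end Cfsg.Agent.Lib.Helper58.C320TRANS
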