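import Mathlib
import Cfsg.Agent.Lib.Helper88.CEStmt

/-!
# S5127, piece PPART: an element `α` of `Aut_E(P)` of order prime to `p`, `P` an `E`-centric
subgroup, extends to an element of `Aut_F(P C₀)` of order prime to `p` moving `C₀ = C_S(T)` by
elements of `T`.

A good extension `ψ₀` of `α` (`GoodAll`, landed as `Cfsg.Agent.Lib.Helper88.FCGA.main`) moves
every `c ∈ C₀` by an element of `C_T(P) ≤ P`, hence maps `P C₀` onto itself; a power
`ψ₀ ^ k` with `k ≡ 1 (mod m)`, `k` divisible by the `p`-part of the order of `ψ₀`, does the job.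
-/

set_option autoImplicit false
set_option linter.style.haveILetI false

namespace Cfsg.Agent.Lib.Helper58.CEPPART

open Cfsg Cfsg.FusionSystem Cfsg.Agent.Lib.Helper88.FCStmt Cfsg.Agent.Lib.Helper88.CEStmt
  Cfsg.Agent.Lib.Helper88.WNStmt Cfsg.Agent.H85

universe u

theorem main (hGA : GoodAll.{u}) : PPart.{u} := by
  intro Ω _ S _ p _ hS F hF T E hE P hP α hα m hm hαm
  classical
  have hp : p.Prime := Fact.out
  have hE' := hE
  obtain ⟨⟨-, -, -, hTcl, -, -⟩, -⟩ := hE'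
  have hTS : T ≤ S := hTcl.1
  have hPT : P ≤ T := hP.1
  have hPS : P ≤ S := hPT.trans hTS
  have hCS : centralizerIn S T ≤ S := inf_le_left
  have hKS : P ⊔ centralizerIn S T ≤ S := sup_le hPS hCS
  haveI : Finite ↥(P ⊔ centralizerIn S T) :=
    Finite.of_injective (Subgroup.inclusion hKS) (Subgroup.inclusion_injective hKS)
  have hφ : P.subtype.comp α.toMonoidHom ∈ E.Hom P := (mem_autGroup_iff E hPT α).1 hα
  obtain ⟨ψ₀, hψ₀, hψ₀P, hψ₀C⟩ := hGA p hS F hF E hE P hP _ hφ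
  have hψ₀P' : ∀ x : P, ψ₀ (Subgroup.inclusion le_sup_left x) = ((α x : P) : Ω) := hψ₀P
  have hcent : centralizerIn T P ≤ P := hP.2 P (isConj_refl E hPT)
  -- the displacement of an element of `C₀` lies in `P`
  have hz : ∀ c : ↥(P ⊔ centralizerIn S T), (c : Ω) ∈ centralizerIn S T →
      (c : Ω)⁻¹ * ψ₀ c ∈ P := by
    intro c hc
    apply hcent
    refine Subgroup.mem_inf.2 ⟨hψ₀C c hc, ?_⟩
    rw [Subgroup.mem_centralizer_iff]
    intro u hu
    have hcu : ∀ v ∈ P, v * (c : Ω) = (c : Ω) * v := by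
      intro v hv
      exact (Subgroup.mem_centralizer_iff.1 (Subgroup.mem_inf.1 hc).2) v (hPT hv)
    obtain ⟨u', hu'⟩ : ∃ u' : P, ((α u' : P) : Ω) = u :=
      ⟨α.symm ⟨u, hu⟩, by rw [MulEquiv.apply_symm_apply]⟩
    have h1 : ψ₀ (Subgroup.inclusion le_sup_left u') * ψ₀ c =
        ψ₀ c * ψ₀ (Subgroup.inclusion le_sup_left u') := by
      rw [← map_mul, ← map_mul]
      congr 1
      apply Subtype.ext
      show (u' : Ω) * (c : Ω) = (c : Ω) * (u' : Ω)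
      exact hcu _ u'.2
    rw [hψ₀P', hu'] at h1
    have h3 : u * (c : Ω)⁻¹ = (c : Ω)⁻¹ * u :=
      (Commute.inv_right (show Commute u (c : Ω) from hcu u hu)).eq
    calc u * ((c : Ω)⁻¹ * ψ₀ c) = (u * (c : Ω)⁻¹) * ψ₀ c := (mul_assoc _ _ _).symm
      _ = ((c : Ω)⁻¹ * u) * ψ₀ c := by rw [h3]
      _ = (c : Ω)⁻¹ * (u * ψ₀ c) := mul_assoc _ _ _
      _ = (c : Ω)⁻¹ * (ψ₀ c * u) := by rw [h1]
      _ = (c : Ω)⁻¹ * ψ₀ c * u := (mul_assoc _ _ _).symm
  -- `ψ₀` maps `P C₀` into itself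
  have himg : ∀ y : ↥(P ⊔ centralizerIn S T), ψ₀ y ∈ P ⊔ centralizerIn S T := by
    have hle : P ⊔ centralizerIn S T ≤
        (Subgroup.comap ψ₀ (P ⊔ centralizerIn S T)).map (P ⊔ centralizerIn S T).subtype := by
      apply sup_le
      · intro u hu
        refine ⟨Subgroup.inclusion le_sup_left ⟨u, hu⟩, ?_, rfl⟩
        show ψ₀ (Subgroup.inclusion le_sup_left ⟨u, hu⟩) ∈ P ⊔ centralizerIn S T
        rw [hψ₀P']
        exact (le_sup_left : P ≤ P ⊔ centralizerIn S T) (α ⟨u, hu⟩).2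
      · intro c hc
        have hcK : c ∈ P ⊔ centralizerIn S T :=
          (le_sup_right : centralizerIn S T ≤ P ⊔ centralizerIn S T) hc
        refine ⟨⟨c, hcK⟩, ?_, rfl⟩
        show ψ₀ ⟨c, hcK⟩ ∈ P ⊔ centralizerIn S T
        have h1 := hz ⟨c, hcK⟩ hc
        have h2 : ψ₀ ⟨c, hcK⟩ = c * (c⁻¹ * ψ₀ ⟨c, hcK⟩) := by group
        rw [h2]
        exact Subgroup.mul_mem _ hcK
          ((le_sup_left : P ≤ P ⊔ centralizerIn S T) h1)
    intro y
    obtain ⟨y', hy', hyy'⟩ := hle y.2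
    have : y' = y := Subtype.ext hyy'
    rw [← this]
    exact hy'
  -- the automorphism
  have hinj : Function.Injective ψ₀ := F.injective_of_mem hψ₀
  have hψc_inj : Function.Injective (ψ₀.codRestrict (P ⊔ centralizerIn S T) himg) := by
    intro a b hab
    apply hinj
    exact congrArg Subtype.val hab
  have hψc_bij : Function.Bijective (ψ₀.codRestrict (P ⊔ centralizerIn S T) himg) :=
    ⟨hψc_inj, Finite.injective_iff_surjective.1 hψc_inj⟩
  obtain ⟨ψ₁, hψ₁⟩ : ∃ ψ₁ : MulAut ↥(P ⊔ centralizerIn S T),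
      ∀ y, ((ψ₁ y : ↥(P ⊔ centralizerIn S T)) : Ω) = ψ₀ y :=
    ⟨MulEquiv.ofBijective (ψ₀.codRestrict (P ⊔ centralizerIn S T) himg) hψc_bij, fun y => rfl⟩
  have hψ₁F : ψ₁ ∈ F.autGroup (P ⊔ centralizerIn S T) :=
    (mem_autGroup_iff F hKS ψ₁).2 (hom_congr F hψ₀ (fun y => hψ₁ y))
  have hψ₁P : ∀ u : P, ψ₁ (Subgroup.inclusion le_sup_left u) =
      Subgroup.inclusion le_sup_left (α u) := by
    intro u
    apply Subtype.ext
    rw [hψ₁, hψ₀P']
    rfl
  have hψ₁C : ∀ c : ↥(P ⊔ centralizerIn S T), (c : Ω) ∈ centralizerIn S T →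
      (c : Ω)⁻¹ * ((ψ₁ c : ↥(P ⊔ centralizerIn S T)) : Ω) ∈ P := by
    intro c hc
    rw [hψ₁]
    exact hz c hc
  -- powers
  have hpowP : ∀ (k : ℕ) (u : P), (ψ₁ ^ k) (Subgroup.inclusion le_sup_left u) =
      Subgroup.inclusion le_sup_left ((α ^ k) u) := by
    intro k
    induction k with
    | zero => intro u; rfl
    | succ k ih =>
      intro u
      rw [pow_succ', pow_succ', MulAut.mul_apply, MulAut.mul_apply, ih, hψ₁P]
  have hpowC : ∀ (k : ℕ) (c : ↥(P ⊔ centralizerIn S T)), (c : Ω) ∈ centralizerIn S T →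
      (c : Ω)⁻¹ * (((ψ₁ ^ k) c : ↥(P ⊔ centralizerIn S T)) : Ω) ∈ P := by
    intro k
    induction k with
    | zero =>
      intro c hc
      have : (c : Ω)⁻¹ * (((ψ₁ ^ 0) c : ↥(P ⊔ centralizerIn S T)) : Ω) = 1 := by
        rw [pow_zero, MulAut.one_apply, inv_mul_cancel]
      rw [this]
      exact P.one_mem
    | succ k ih =>
      intro c hc
      have hw := ih c hc
      have e1 : (ψ₁ ^ k) c = c * Subgroup.inclusion le_sup_left
          (⟨(c : Ω)⁻¹ * (((ψ₁ ^ k) c : ↥(P ⊔ centralizerIn S T)) : Ω), hw⟩ : P) := by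
        apply Subtype.ext
        rw [Subgroup.coe_mul]
        show _ = (c : Ω) * ((c : Ω)⁻¹ * _)
        rw [mul_inv_cancel_left]
      rw [pow_succ', MulAut.mul_apply, e1, map_mul, hψ₁P, Subgroup.coe_mul, ← mul_assoc]
      exact P.mul_mem (hψ₁C c hc) (α ⟨_, hw⟩).2
  -- the exponent
  have hm0 : 0 < m := Nat.pos_of_ne_zero (by
    rintro rfl
    rw [Nat.coprime_zero_left] at hm
    exact hp.ne_one hm)
  haveI : Finite (MulAut ↥(P ⊔ centralizerIn S T)) :=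
    Finite.of_injective (fun a : MulAut ↥(P ⊔ centralizerIn S T) =>
      (a : ↥(P ⊔ centralizerIn S T) → ↥(P ⊔ centralizerIn S T))) DFunLike.coe_injective
  have hN0 : 0 < orderOf ψ₁ := orderOf_pos ψ₁
  obtain ⟨a, ha⟩ : ∃ a : ℕ, a = (orderOf ψ₁).factorization p := ⟨_, rfl⟩
  obtain ⟨m₁, hm₁⟩ : ∃ m₁ : ℕ, m₁ = orderOf ψ₁ / p ^ a := ⟨_, rfl⟩
  have hNeq : p ^ a * m₁ = orderOf ψ₁ := by
    rw [hm₁, ha]
    exact Nat.ordProj_mul_ordCompl_eq_self (orderOf ψ₁) p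
  have hm₁p : m₁.Coprime p := by
    rw [hm₁, ha]
    exact (Nat.coprime_ordCompl hp hN0.ne').symm
  obtain ⟨k, hk⟩ : ∃ k : ℕ, k = (p ^ a) ^ Nat.totient m := ⟨_, rfl⟩
  have hk1 : k ≡ 1 [MOD m] := by
    rw [hk]
    exact Nat.ModEq.pow_totient (Nat.Coprime.pow_left a hm.symm)
  have hpa : p ^ a ∣ k := by
    rw [hk]
    exact dvd_pow_self _ (Nat.totient_pos.2 hm0).ne'
  have hk0 : 1 ≤ k := by
    rw [hk]
    exact Nat.one_le_iff_ne_zero.2 (pow_ne_zero _ (pow_ne_zero _ hp.ne_zero))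
  have hαk : α ^ k = α := by
    obtain ⟨j, hj⟩ := (Nat.modEq_iff_dvd' hk0).1 hk1.symm
    have hkj : k = 1 + m * j := by omega
    rw [hkj, pow_add, pow_one, pow_mul, hαm, one_pow, mul_one]
  refine ⟨ψ₁ ^ k, Subgroup.pow_mem _ hψ₁F k, m₁, hm₁p, ?_, ?_, ?_⟩
  · rw [← pow_mul]
    apply orderOf_dvd_iff_pow_eq_one.1
    rw [← hNeq]
    exact Nat.mul_dvd_mul_right hpa m₁
  · intro u
    rw [hpowP, hαk]
    rfl
  · intro c hc
    exact hPT (hpowC k c hc)

end Cfsg.Agent.Lib.Helper58.CEPPART
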