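import Mathlib
import Cfsg.Prelude.Def_Solvable
import Cfsg.Agent.Lib.Helper58.Kazarin
import Cfsg.Agent.Lib.Helper21.FStar
import Cfsg.Agent.Lib.Helper78.Fitting

/-!
The Camina–Camina theorem: if the conjugacy class of `x` has `p`-power size then commutators of
conjugates of `x` lie in `O_p(G)`.  Deduced from Kazarin's theorem and the Fitting subgroup.
-/

set_option autoImplicit false

namespace Cfsg.Agent.Lib.Helper58.CaminaCamina

open Subgroup Cfsg
open Cfsg.Agent.Lib.Helper58
open Cfsg.Agent.Lib.Helper78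
open Cfsg.Agent.Lib.Helper21

universe u

/-- A normal subgroup of order prime to `p` centralizes an element whose class has `p`-power
size. -/
theorem normal_le_centralizer {G : Type u} [Group G] [Finite G] (x : G) (p a : ℕ)
    (hxc : (centralizer ({x} : Set G)).index = p ^ a) (A : Subgroup G) [A.Normal]
    (hA : (Nat.card A).Coprime (p ^ a)) : A ≤ centralizer ({x} : Set G) := by
  have h1 : (centralizer ({x} : Set G)).relIndex A ∣ p ^ a :=
    hxc ▸ Cfsg.Agent.Lib.Helper67.ClassSize.relIndex_dvd_index_of_normal_right A _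
  have h2 : (centralizer ({x} : Set G)).relIndex A ∣ Nat.card A := relIndex_dvd_card _ _
  exact relIndex_eq_one.1 (Nat.eq_one_of_dvd_coprimes hA h2 h1)

/-- The quotient by the `p`-core has trivial `p`-core. -/
theorem pCore_quotient_eq_bot {G : Type u} [Group G] [Finite G] (p : ℕ) [Fact p.Prime]
    (P : Subgroup G) [P.Normal] (hP : P = pCore p G) : pCore p (G ⧸ P) = ⊥ := by
  have hNbn : (pCore p (G ⧸ P)).Normal := Fitting.pCore_normal p
  have hNbp : IsPGroup p (pCore p (G ⧸ P)) := Fitting.pCore_isPGroup p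
  have hPp : IsPGroup p P := by rw [hP]; exact Fitting.pCore_isPGroup p
  have hNn : ((pCore p (G ⧸ P)).comap (QuotientGroup.mk' P)).Normal := hNbn.comap _
  have hNp : IsPGroup p ((pCore p (G ⧸ P)).comap (QuotientGroup.mk' P)) := by
    rintro ⟨g, hg⟩
    obtain ⟨k, hk⟩ := hNbp ⟨QuotientGroup.mk' P g, hg⟩
    have hk' : (QuotientGroup.mk' P g) ^ p ^ k = 1 := congrArg Subtype.val hk
    rw [← map_pow] at hk'
    have hmem : g ^ p ^ k ∈ P := (QuotientGroup.eq_one_iff _).mp hk'
    obtain ⟨j, hj⟩ := hPp ⟨g ^ p ^ k, hmem⟩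
    have hj' : (g ^ p ^ k) ^ p ^ j = 1 := congrArg Subtype.val hj
    refine ⟨k + j, Subtype.ext ?_⟩
    show g ^ p ^ (k + j) = 1
    rw [pow_add, pow_mul]; exact hj'
  have hle := Fitting.le_pCore hNn hNp
  rw [← hP] at hle
  rw [Subgroup.eq_bot_iff_forall]
  intro xb hxb
  obtain ⟨g, rfl⟩ := QuotientGroup.mk'_surjective P xb
  exact (QuotientGroup.eq_one_iff _).mpr (hle hxb)

/-- If `O_p(G) = 1` and the class of `x` has `p`-power size, then the normal closure of `x` is
abelian. -/
theorem commute_of_pCore_eq_bot {G : Type u} [Group G] [Finite G] (p : ℕ) [hp : Fact p.Prime]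
    (hO : pCore p G = ⊥) (x : G) (a : ℕ) (hxc : (centralizer ({x} : Set G)).index = p ^ a) :
    ∀ y ∈ normalClosure ({x} : Set G), ∀ z ∈ normalClosure ({x} : Set G), y * z = z * y := by
  have hsolv := Kazarin.solvable_of_index p hp.out _ x a rfl hxc
  haveI hFn : (fittingSubgroup G).Normal := Fitting.fitting_normal
  have hF : fittingSubgroup G ≤ centralizer ({x} : Set G) := by
    rw [Fitting.fitting_eq_iSup_pCore]
    apply iSup_le
    intro q
    haveI : Fact (q : ℕ).Prime := ⟨q.2⟩
    haveI := Fitting.pCore_normal (G := G) (q : ℕ)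
    by_cases hq : (q : ℕ) = p
    · rw [hq, hO]; exact bot_le
    · apply normal_le_centralizer x p a hxc
      obtain ⟨k, hk⟩ := IsPGroup.iff_card.1 (Fitting.pCore_isPGroup (G := G) (q : ℕ))
      rw [hk]
      exact Nat.Coprime.pow _ _ ((Nat.coprime_primes q.2 hp.out).2 hq)
  have hx : x ∈ centralizer ((fittingSubgroup G : Subgroup G) : Set G) := by
    rw [mem_centralizer_iff]
    intro f hf
    exact mem_centralizer_singleton_iff.1 (hF hf)
  have hN : normalClosure ({x} : Set G) ≤ centralizer ((fittingSubgroup G : Subgroup G) : Set G) :=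
    normalClosure_le_normal (Set.singleton_subset_iff.2 hx)
  have hnorm : centralizer ((fittingSubgroup G : Subgroup G) : Set G) ≤
      normalizer ((normalClosure ({x} : Set G) : Subgroup G) : Set G) := by
    rw [normalizer_eq_top]; exact le_top
  have hcen := FStar.solvable_le_center_fitting (normalClosure ({x} : Set G)) hN hnorm hsolv
  intro y hy z hz
  obtain ⟨y', hy', rfl⟩ := hcen hy
  obtain ⟨z', -, rfl⟩ := hcen hz
  have h1 := mem_center_iff.1 hy' z'
  have h2 := congrArg (Subtype.val : fittingSubgroup G → G) h1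
  simpa using h2.symm

/-- **Camina–Camina.** If the conjugacy class of `x` has `p`-power size then the commutator of
any two conjugates of `x` lies in `O_p(G)`. -/
theorem comm_mem_pCore {G : Type u} [Group G] [Finite G] (p : ℕ) [hp : Fact p.Prime] (x : G)
    (a : ℕ) (hxc : (centralizer ({x} : Set G)).index = p ^ a) (g h : G) :
    (g * x * g⁻¹) * (h * x * h⁻¹) * (g * x * g⁻¹)⁻¹ * (h * x * h⁻¹)⁻¹ ∈ pCore p G := by
  obtain ⟨P, hP⟩ : ∃ P : Subgroup G, P = pCore p G := ⟨_, rfl⟩
  rw [← hP]
  haveI hPn : P.Normal := by rw [hP]; exact Fitting.pCore_normal p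
  have hO : pCore p (G ⧸ P) = ⊥ := pCore_quotient_eq_bot p P hP
  have hdvd := Cfsg.Agent.Lib.Helper67.ClassSize.index_centralizer_quotient_dvd P x
  rw [hxc] at hdvd
  obtain ⟨b, -, hb⟩ := (Nat.dvd_prime_pow hp.out).1 hdvd
  have hcomm := commute_of_pCore_eq_bot p hO (x : G ⧸ P) b hb
  have hconj : ∀ c : G, ((c * x * c⁻¹ : G) : G ⧸ P) ∈
      normalClosure ({(x : G ⧸ P)} : Set (G ⧸ P)) := by
    intro c
    rw [QuotientGroup.mk_mul, QuotientGroup.mk_mul, QuotientGroup.mk_inv]
    exact normalClosure_normal.conj_mem _ (subset_normalClosure (Set.mem_singleton _)) _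
  have h1 := hcomm _ (hconj g) _ (hconj h)
  rw [← QuotientGroup.eq_one_iff]
  rw [QuotientGroup.mk_mul, QuotientGroup.mk_mul, QuotientGroup.mk_mul, QuotientGroup.mk_inv,
    QuotientGroup.mk_inv, h1]
  group

end Cfsg.Agent.Lib.Helper58.CaminaCamina
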