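import Mathlib
import Cfsg.Prelude.Def_Transfer

/-!
# A group-theoretic core for extremely primitive groups (helper58)

`core`: a finite nonabelian simple group `T` admits no group `H` of permutations of `T`, each of
which is an automorphism or an anti-automorphism, containing all inner automorphisms and such
that the stabilizer of every nonidentity element is a maximal subgroup of `H` -- modulo a
Thompson-type normal `p`-complement criterion `crit` for `T` (odd `p`).
-/

set_option autoImplicit false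
set_option linter.unusedSectionVars false

namespace Cfsg.Agent.Lib.Helper58.EPCore

open Subgroup

section basic

variable {T : Type*} [Group T] {H : Type*} [Group H]

/-- Point stabilizer for a permutation representation. -/
def stab (φ : H →* Equiv.Perm T) (x : T) : Subgroup H :=
  (MulAction.stabilizer (Equiv.Perm T) x).comap φ

theorem mem_stab {φ : H →* Equiv.Perm T} {x : T} {h : H} : h ∈ stab φ x ↔ φ h x = x := Iff.rfl

/-- Each `φ h` agrees with an automorphism, or with an automorphism followed by inversion. -/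
def AA (φ : H →* Equiv.Perm T) : Prop :=
  ∀ h : H, ∃ ψ : T ≃* T, (∀ a, φ h a = ψ a) ∨ (∀ a, φ h a = (ψ a)⁻¹)

theorem aa_of_mul_or_anti (φ : H →* Equiv.Perm T)
    (h1 : ∀ h : H, (∀ a b : T, φ h (a * b) = φ h a * φ h b) ∨
      (∀ a b : T, φ h (a * b) = φ h b * φ h a)) : AA φ := by
  intro h
  rcases h1 h with hm | hm
  · exact ⟨MulEquiv.mk' (φ h) hm, Or.inl fun a => rfl⟩
  · refine ⟨MulEquiv.mk' ((φ h).trans (Equiv.inv T)) ?_, Or.inr fun a => ?_⟩
    · intro a b
      simp [hm]
    · show φ h a = ((φ h a)⁻¹)⁻¹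
      rw [inv_inv]

theorem apply_inv_apply (φ : H →* Equiv.Perm T) (h : H) (a : T) : φ h⁻¹ (φ h a) = a := by
  rw [← Equiv.Perm.mul_apply, ← map_mul, inv_mul_cancel, map_one, Equiv.Perm.one_apply]

theorem apply_apply_inv (φ : H →* Equiv.Perm T) (h : H) (a : T) : φ h (φ h⁻¹ a) = a := by
  rw [← Equiv.Perm.mul_apply, ← map_mul, mul_inv_cancel, map_one, Equiv.Perm.one_apply]

variable {φ : H →* Equiv.Perm T}

theorem map_one' (hA : AA φ) (h : H) : φ h 1 = 1 := by
  obtain ⟨ψ, hψ | hψ⟩ := hA h <;> simp [hψ]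

theorem map_inv' (hA : AA φ) (h : H) (a : T) : φ h a⁻¹ = (φ h a)⁻¹ := by
  obtain ⟨ψ, hψ | hψ⟩ := hA h <;> simp [hψ]

theorem map_pow' (hA : AA φ) (h : H) (a : T) (n : ℕ) : φ h (a ^ n) = (φ h a) ^ n := by
  obtain ⟨ψ, hψ | hψ⟩ := hA h <;> simp [hψ]

theorem map_commute (hA : AA φ) (h : H) {a b : T} (hab : Commute a b) :
    Commute (φ h a) (φ h b) := by
  obtain ⟨ψ, hψ | hψ⟩ := hA h
  · rw [hψ, hψ]; exact hab.map ψ
  · rw [hψ, hψ]; exact (hab.map ψ).inv_inv

theorem map_mul_of_commute (hA : AA φ) (h : H) {a b : T} (hab : Commute a b) :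
    φ h (a * b) = φ h a * φ h b := by
  obtain ⟨ψ, hψ | hψ⟩ := hA h
  · simp [hψ]
  · rw [hψ, hψ, hψ, map_mul, mul_inv_rev]
    exact ((hab.map ψ).inv_inv).eq.symm

theorem map_eq_one_iff (hA : AA φ) (h : H) (a : T) : φ h a = 1 ↔ a = 1 := by
  constructor
  · intro ha
    apply (φ h).injective
    rw [ha, map_one' hA]
  · rintro rfl
    exact map_one' hA h

/-- Setwise stabilizer of a set. -/
def setStab (φ : H →* Equiv.Perm T) (S : Set T) : Subgroup H where
  carrier := {h | ∀ a, a ∈ S ↔ φ h a ∈ S}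
  one_mem' := by intro a; simp
  mul_mem' := by
    intro h k hh hk a
    rw [map_mul, Equiv.Perm.mul_apply]
    exact (hk a).trans (hh _)
  inv_mem' := by
    intro h hh a
    have := hh (φ h⁻¹ a)
    rw [apply_apply_inv] at this
    exact this.symm

theorem mem_setStab {S : Set T} {h : H} : h ∈ setStab φ S ↔ ∀ a, a ∈ S ↔ φ h a ∈ S := Iff.rfl

end basic


section general

theorem exists_normalizing {G : Type*} [Group G] [Finite G] {p : ℕ} [Fact p.Prime]
    {Q S : Subgroup G} (hQ : IsPGroup p Q) (hlt : S < Q) :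
    ∃ g ∈ Q, g ∉ S ∧ g ∈ normalizer (S : Set G) := by
  have : Group.IsNilpotent Q := hQ.isNilpotent
  have hnc := Group.normalizerCondition_of_isNilpotent (G := Q)
  have h1 : S.subgroupOf Q < ⊤ := by
    rw [lt_top_iff_ne_top]
    intro h
    rw [Subgroup.subgroupOf_eq_top] at h
    exact (not_le_of_gt hlt) h
  have h2 := hnc _ h1
  obtain ⟨g, hgN, hgS⟩ := SetLike.exists_of_lt h2
  refine ⟨g, g.2, fun h => hgS (Subgroup.mem_subgroupOf.mpr h), ?_⟩
  rw [Subgroup.mem_normalizer_iff] at hgN ⊢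
  intro a
  constructor
  · intro ha
    have haQ : a ∈ Q := hlt.le ha
    have := (hgN ⟨a, haQ⟩).mp (Subgroup.mem_subgroupOf.mpr ha)
    exact Subgroup.mem_subgroupOf.mp this
  · intro ha
    have haQ : a ∈ Q := by
      have h3 : (g : G) * a * (g : G)⁻¹ ∈ Q := hlt.le ha
      have := Q.mul_mem (Q.mul_mem (Q.inv_mem g.2) h3) g.2
      simpa [mul_assoc] using this
    have := (hgN ⟨a, haQ⟩).mpr (Subgroup.mem_subgroupOf.mpr ha)
    exact Subgroup.mem_subgroupOf.mp this

/-- The centralizer of an element, with `Commute` membership. -/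
def cent {T : Type*} [Group T] (x : T) : Subgroup T where
  carrier := {m | Commute m x}
  one_mem' := Commute.one_left x
  mul_mem' := fun ha hb => Commute.mul_left ha hb
  inv_mem' := fun ha => Commute.inv_left ha

theorem mem_cent {T : Type*} [Group T] {x m : T} : m ∈ cent x ↔ Commute m x := Iff.rfl

/-- `p`-elements of the centralizer of `x`, when that centralizer is commutative. -/
def pPart {T : Type*} [Group T] (x : T) (p : ℕ)
    (hall : ∀ a b : T, Commute a x → Commute b x → Commute a b) : Subgroup T where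
  carrier := {m | Commute m x ∧ ∃ k : ℕ, m ^ (p ^ k) = 1}
  one_mem' := ⟨Commute.one_left x, 0, one_pow _⟩
  mul_mem' := by
    rintro a b ⟨ha, k, hk⟩ ⟨hb, l, hl⟩
    refine ⟨ha.mul_left hb, k + l, ?_⟩
    rw [(hall a b ha hb).mul_pow, pow_add, pow_mul, hk, one_pow, mul_comm (p ^ k), pow_mul, hl,
      one_pow, one_mul]
  inv_mem' := by
    rintro a ⟨ha, k, hk⟩
    exact ⟨ha.inv_left, k, by rw [inv_pow, hk, inv_one]⟩

theorem center_eq_bot {T : Type*} [Group T] [IsSimpleGroup T] (hna : ∃ a b : T, a * b ≠ b * a) :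
    Subgroup.center T = ⊥ := by
  rcases (inferInstance : (Subgroup.center T).Normal).eq_bot_or_eq_top with h | h
  · exact h
  · exfalso
    obtain ⟨a, b, hab⟩ := hna
    apply hab
    have : a ∈ Subgroup.center T := by rw [h]; trivial
    exact (Subgroup.mem_center_iff.mp this b).symm

end general

section core

variable {T : Type*} [Group T] [Finite T] [IsSimpleGroup T] {H : Type*} [Group H]
  {φ : H →* Equiv.Perm T}

/-- The hypotheses of the core lemma. -/
structure Hyp (φ : H →* Equiv.Perm T) : Prop where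
  aa : AA φ
  inner : ∀ t : T, ∃ h : H, ∀ a, φ h a = t * a * t⁻¹
  coatom : ∀ x : T, x ≠ 1 → IsCoatom (stab φ x)
  nonab : ∃ a b : T, a * b ≠ b * a

theorem stab_eq_of_le (hy : Hyp φ) {x y : T} (hx : x ≠ 1) (hyne : y ≠ 1)
    (hle : stab φ x ≤ stab φ y) : stab φ y = stab φ x := by
  rcases (hy.coatom x hx).le_iff.mp hle with h | h
  · exact absurd h (hy.coatom y hyne).1
  · exact h

theorem stab_pow (hy : Hyp φ) {x : T} (hx : x ≠ 1) (k : ℕ) (hk : x ^ k ≠ 1) :
    stab φ (x ^ k) = stab φ x := by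
  apply stab_eq_of_le hy hx hk
  intro h hh
  rw [mem_stab] at hh ⊢
  rw [map_pow' hy.aa, hh]

theorem normalizer_le (hy : Hyp φ) {x : T} (hx : x ≠ 1) (S : Subgroup T)
    (hS : ∀ h ∈ stab φ x, ∀ a ∈ S, φ h a ∈ S) (hS1 : S ≠ ⊥) (hS2 : S ≠ ⊤) :
    ∀ t ∈ normalizer (S : Set T), Commute t x := by
  have hle : stab φ x ≤ setStab φ (S : Set T) := by
    intro h hh a
    refine ⟨hS h hh a, fun ha => ?_⟩
    have := hS h⁻¹ (inv_mem hh) _ ha
    rwa [apply_inv_apply] at this
  rcases (hy.coatom x hx).le_iff.mp hle with htop | heq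
  · exfalso
    have hn : S.Normal := by
      constructor
      intro n hn g
      obtain ⟨h, hh⟩ := hy.inner g
      have hmem : h ∈ setStab φ (S : Set T) := by rw [htop]; trivial
      have := (hmem n).mp hn
      rwa [hh] at this
    rcases hn.eq_bot_or_eq_top with h | h
    · exact hS1 h
    · exact hS2 h
  · intro t ht
    obtain ⟨h, hh⟩ := hy.inner t
    have hmem : h ∈ setStab φ (S : Set T) := by
      intro a
      rw [hh]
      exact Subgroup.mem_normalizer_iff.mp ht a
    rw [heq, mem_stab, hh] at hmem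
    exact mul_inv_eq_iff_eq_mul.mp hmem

theorem commute_of_fixed (hy : Hyp φ) {x f t : T} (hf : ∀ h ∈ stab φ x, φ h f = f)
    (ht : Commute t x) : Commute t f := by
  obtain ⟨h, hh⟩ := hy.inner t
  have hmem : h ∈ stab φ x := by
    rw [mem_stab, hh]
    exact mul_inv_eq_iff_eq_mul.mpr ht.eq
  have := hf h hmem
  rw [hh] at this
  exact mul_inv_eq_iff_eq_mul.mp this

/-- The fixed points of the stabilizer of `x`. -/
def F (hy : Hyp φ) (x : T) : Subgroup T where
  carrier := {f | ∀ h ∈ stab φ x, φ h f = f}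
  one_mem' := fun h _ => map_one' hy.aa h
  mul_mem' := by
    intro a b ha hb h hh
    have hbx : Commute b x := (commute_of_fixed hy hb (Commute.refl x)).symm
    have hab : Commute b a := commute_of_fixed hy ha hbx
    rw [map_mul_of_commute hy.aa h hab.symm, ha h hh, hb h hh]
  inv_mem' := by
    intro a ha h hh
    rw [map_inv' hy.aa, ha h hh]

theorem mem_F (hy : Hyp φ) {x f : T} : f ∈ F hy x ↔ ∀ h ∈ stab φ x, φ h f = f := Iff.rfl

theorem self_mem_F (hy : Hyp φ) (x : T) : x ∈ F hy x := fun _ hh => hh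

theorem commute_of_mem_F (hy : Hyp φ) {x f t : T} (hf : f ∈ F hy x) (ht : Commute t x) :
    Commute t f := commute_of_fixed hy hf ht

theorem stab_of_mem_F (hy : Hyp φ) {x f : T} (hx : x ≠ 1) (hf : f ∈ F hy x) (hf1 : f ≠ 1) :
    stab φ f = stab φ x :=
  stab_eq_of_le hy hx hf1 (fun h hh => hf h hh)

theorem mem_F_of_stab_eq (hy : Hyp φ) {x y : T} (h : stab φ y = stab φ x) : y ∈ F hy x :=
  fun k hk => by rw [← h] at hk; exact hk

theorem prime_eq (hy : Hyp φ) {x : T} (hx : x ≠ 1) {p : ℕ} (hp : p.Prime) (hpx : p ∣ orderOf x)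
    {y : T} (hyx : Commute y x) (hyF : y ∉ F hy x) {q : ℕ} (hq : q.Prime)
    (hqy : q ∣ orderOf y) : q = p := by
  by_contra hne
  have hox : orderOf x ≠ 0 := (orderOf_pos x).ne'
  have hoy : orderOf y ≠ 0 := (orderOf_pos y).ne'
  obtain ⟨x', hx'⟩ : ∃ x', x' = x ^ (orderOf x / p) := ⟨_, rfl⟩
  obtain ⟨y', hy'⟩ : ∃ y', y' = y ^ (orderOf y / q) := ⟨_, rfl⟩
  have hox' : orderOf x' = p := by rw [hx']; exact orderOf_pow_orderOf_div hox hpx
  have hoy' : orderOf y' = q := by rw [hy']; exact orderOf_pow_orderOf_div hoy hqy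
  have hx'1 : x' ≠ 1 := by
    intro h
    rw [h, orderOf_one] at hox'
    exact hp.one_lt.ne hox'
  have hy'1 : y' ≠ 1 := by
    intro h
    rw [h, orderOf_one] at hoy'
    exact hq.one_lt.ne hoy'
  have hy1 : y ≠ 1 := by
    rintro rfl
    exact hyF (one_mem _)
  have hx'F : x' ∈ F hy x := by rw [hx']; exact pow_mem (self_mem_F hy x) _
  have hsy : stab φ y' = stab φ y := by
    rw [hy']
    exact stab_pow hy hy1 _ (by rw [← hy']; exact hy'1)
  have hy'F : y' ∉ F hy x := by
    intro hmem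
    have h1 := stab_of_mem_F hy hx hmem hy'1
    exact hyF (mem_F_of_stab_eq hy (hsy.symm.trans h1))
  have hy'x : Commute y' x := by rw [hy']; exact hyx.pow_left _
  have hc : Commute y' x' := commute_of_mem_F hy hx'F hy'x
  have hwq : (x' * y') ^ q = x' ^ q := by
    rw [hc.symm.mul_pow, ← hoy', pow_orderOf_eq_one, mul_one]
  have hwp : (x' * y') ^ p = y' ^ p := by
    rw [hc.symm.mul_pow, ← hox', pow_orderOf_eq_one, one_mul]
  have hxq : x' ^ q ≠ 1 := by
    intro h
    have := orderOf_dvd_of_pow_eq_one h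
    rw [hox'] at this
    exact hne ((Nat.prime_dvd_prime_iff_eq hp hq).mp this).symm
  have hyp : y' ^ p ≠ 1 := by
    intro h
    have := orderOf_dvd_of_pow_eq_one h
    rw [hoy'] at this
    exact hne ((Nat.prime_dvd_prime_iff_eq hq hp).mp this)
  have hw1 : x' * y' ≠ 1 := by
    intro h
    rw [h, one_pow] at hwq
    exact hxq hwq.symm
  have e1 : stab φ (x' * y') = stab φ x := by
    have a1 := stab_pow hy hw1 q (by rw [hwq]; exact hxq)
    rw [hwq] at a1
    have a2 := stab_of_mem_F hy hx (pow_mem hx'F q) hxq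
    exact a1.symm.trans a2
  have e2 : stab φ (x' * y') = stab φ y' := by
    have a1 := stab_pow hy hw1 p (by rw [hwp]; exact hyp)
    rw [hwp] at a1
    have a2 := stab_pow hy hy'1 p hyp
    exact a1.symm.trans a2
  exact hy'F (mem_F_of_stab_eq hy (e2.symm.trans e1))

theorem isPGroup_centralizer (hy : Hyp φ) {x : T} (hx : x ≠ 1) {p : ℕ} (hp : p.Prime)
    (hpx : p ∣ orderOf x) {y₀ : T} (hy₀x : Commute y₀ x) (hy₀F : y₀ ∉ F hy x) :
    ∀ g : T, Commute g x → ∃ k : ℕ, g ^ (p ^ k) = 1 := by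
  have key : ∀ g : T, Commute g x → g ∉ F hy x → ∃ k : ℕ, g ^ (p ^ k) = 1 := by
    intro g hgx hgF
    have h := Nat.eq_prime_pow_of_unique_prime_dvd (orderOf_pos g).ne'
      (fun {d} hd hdvd => prime_eq hy hx hp hpx hgx hgF hd hdvd)
    exact ⟨_, by rw [← h]; exact pow_orderOf_eq_one g⟩
  intro g hgx
  by_cases hgF : g ∈ F hy x
  · have h1 : g * y₀ ∉ F hy x := by
      intro h
      apply hy₀F
      have := mul_mem (inv_mem hgF) h
      rwa [inv_mul_cancel_left] at this
    obtain ⟨k, hk⟩ := key (g * y₀) (hgx.mul_left hy₀x) h1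
    obtain ⟨l, hl⟩ := key y₀ hy₀x hy₀F
    have hc : Commute g y₀ := (commute_of_mem_F hy hgF hy₀x).symm
    refine ⟨k + l, ?_⟩
    have h2 : (g * y₀) ^ (p ^ (k + l)) = 1 := by rw [pow_add, pow_mul, hk, one_pow]
    have h3 : y₀ ^ (p ^ (k + l)) = 1 := by rw [pow_add, mul_comm, pow_mul, hl, one_pow]
    rw [hc.mul_pow, h3, mul_one] at h2
    exact h2
  · exact key g hgx hgF

theorem exists_not_mem_F (hy : Hyp φ) {x : T} (hx : x ≠ 1) :
    ∃ y : T, Commute y x ∧ y ∉ F hy x := by
  by_contra hcon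
  push Not at hcon
  have hall : ∀ a b : T, Commute a x → Commute b x → Commute a b :=
    fun a b ha hb => commute_of_mem_F hy (hcon b hb) ha
  obtain ⟨p, hp, hpx⟩ := Nat.exists_prime_and_dvd
    (show orderOf x ≠ 1 from fun h => hx (orderOf_eq_one_iff.mp h))
  have : Fact p.Prime := ⟨hp⟩
  have hcen := center_eq_bot hy.nonab
  obtain ⟨S, hSdef⟩ : ∃ S : Subgroup T, S = pPart x p hall := ⟨_, rfl⟩
  have hSmem : ∀ m : T, m ∈ S ↔ Commute m x ∧ ∃ k : ℕ, m ^ (p ^ k) = 1 := by
    intro m
    rw [hSdef]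
    rfl
  have hSst : ∀ h ∈ stab φ x, ∀ a ∈ S, φ h a ∈ S := by
    intro h hh a ha
    rw [hSmem] at ha ⊢
    obtain ⟨ha1, k, hk⟩ := ha
    refine ⟨?_, k, ?_⟩
    · have := map_commute hy.aa h ha1
      rwa [mem_stab.mp hh] at this
    · rw [← map_pow' hy.aa, hk, map_one' hy.aa]
  have hox : orderOf x ≠ 0 := (orderOf_pos x).ne'
  obtain ⟨x', hx'⟩ : ∃ x', x' = x ^ (orderOf x / p) := ⟨_, rfl⟩
  have hox' : orderOf x' = p := by rw [hx']; exact orderOf_pow_orderOf_div hox hpx
  have hx'1 : x' ≠ 1 := by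
    intro h
    rw [h, orderOf_one] at hox'
    exact hp.one_lt.ne hox'
  have hx'S : x' ∈ S := by
    rw [hSmem]
    refine ⟨?_, 1, ?_⟩
    · rw [hx']; exact (Commute.refl x).pow_left _
    · rw [pow_one, ← hox', pow_orderOf_eq_one]
  have hS1 : S ≠ ⊥ := by
    intro h
    rw [h, Subgroup.mem_bot] at hx'S
    exact hx'1 hx'S
  have hS2 : S ≠ ⊤ := by
    intro h
    apply hx
    have hxc : x ∈ Subgroup.center T := by
      rw [Subgroup.mem_center_iff]
      intro g
      have : g ∈ S := by rw [h]; trivial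
      exact ((hSmem g).mp this).1.eq
    rw [hcen, Subgroup.mem_bot] at hxc
    exact hxc
  have hN := normalizer_le hy hx S hSst hS1 hS2
  have hSp : IsPGroup p S := by
    rintro ⟨g, hg⟩
    obtain ⟨k, hk⟩ := ((hSmem g).mp hg).2
    exact ⟨k, Subtype.ext hk⟩
  obtain ⟨Q, hQ⟩ := hSp.exists_le_sylow
  have hSQ : S = Q := by
    by_contra hne
    have hlt : S < Q := lt_of_le_of_ne hQ hne
    obtain ⟨g, hgQ, hgS, hgN⟩ := exists_normalizing Q.2 hlt
    have hgx := hN g hgN
    obtain ⟨k, hk⟩ := Q.2 ⟨g, hgQ⟩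
    apply hgS
    rw [hSmem]
    exact ⟨hgx, k, by simpa using congrArg Subtype.val hk⟩
  have hNC : normalizer ((Q : Subgroup T) : Set T) ≤ centralizer ((Q : Subgroup T) : Set T) := by
    intro t ht
    rw [← hSQ] at ht ⊢
    have htx := hN t ht
    rw [Subgroup.mem_centralizer_iff]
    intro m hm
    exact (hall m t ((hSmem m).mp hm).1 htx).eq
  have hc := MonoidHom.ker_transferSylow_isComplement' Q hNC
  have hcard := hc.card_mul_card
  rcases (MonoidHom.normal_ker (MonoidHom.transferSylow Q hNC)).eq_bot_or_eq_top with h | h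
  · rw [h, Subgroup.card_bot, one_mul] at hcard
    have := (Subgroup.card_eq_iff_eq_top _).mp hcard
    exact hS2 (hSQ.trans this)
  · rw [h, Subgroup.card_top] at hcard
    have h1 : Nat.card (Q : Subgroup T) = 1 := by
      have hpos : 0 < Nat.card T := Nat.card_pos
      exact Nat.eq_of_mul_eq_mul_left hpos (by rw [hcard, mul_one])
    exact hS1 (hSQ.trans (Subgroup.eq_bot_of_card_eq _ h1))

/-- **Core lemma.** -/
theorem core (hy : Hyp φ)
    (crit : ∀ (p : ℕ) [Fact p.Prime], p ≠ 2 → ∀ P : Sylow p T,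
      (∀ S : Subgroup T, S ≠ ⊥ → S ≤ P →
        (∀ ψ : T ≃* T, (∀ a ∈ (P : Subgroup T), ψ a ∈ (P : Subgroup T)) → ∀ a ∈ S, ψ a ∈ S) →
        normalizer (S : Set T) ≤ P) →
      centralizer (((P : Subgroup T) ⊓ centralizer ((P : Subgroup T) : Set T) : Subgroup T) : Set T)
        ≤ P →
      Cfsg.HasNormalPComplement p T) : False := by
  have hcen := center_eq_bot hy.nonab
  have hnotp : ∀ (p : ℕ) [Fact p.Prime], ¬ IsPGroup p T := by
    intro p _ hpg
    have := hpg.center_nontrivial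
    rw [hcen] at this
    exact (Subgroup.nontrivial_iff_ne_bot _).mp this rfl
  have h2 : ∃ p : ℕ, p.Prime ∧ p ≠ 2 ∧ p ∣ Nat.card T := by
    by_contra hcon
    push Not at hcon
    have h := Nat.eq_prime_pow_of_unique_prime_dvd (n := Nat.card T) (p := 2) Nat.card_pos.ne'
      (fun {d} hd hdvd => by
        by_contra h
        exact hcon d hd h hdvd)
    have : Fact (Nat.Prime 2) := ⟨Nat.prime_two⟩
    exact hnotp 2 (IsPGroup.of_card h)
  obtain ⟨p, hp, hp2, hpT⟩ := h2
  have : Fact p.Prime := ⟨hp⟩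
  obtain ⟨x, hox⟩ := exists_prime_orderOf_dvd_card' p hpT
  have hx : x ≠ 1 := by
    intro h
    rw [h, orderOf_one] at hox
    exact hp.one_lt.ne hox
  have hpx : p ∣ orderOf x := by rw [hox]
  obtain ⟨y₀, hy₀x, hy₀F⟩ := exists_not_mem_F hy hx
  have hPG := isPGroup_centralizer hy hx hp hpx hy₀x hy₀F
  have hMst : ∀ h ∈ stab φ x, ∀ a ∈ cent x, φ h a ∈ cent x := by
    intro h hh a ha
    rw [mem_cent] at ha ⊢
    have := map_commute hy.aa h ha
    rwa [mem_stab.mp hh] at this
  have hM1 : cent x ≠ ⊥ := by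
    intro h
    have : x ∈ cent x := Commute.refl x
    rw [h, Subgroup.mem_bot] at this
    exact hx this
  have hM2 : cent x ≠ ⊤ := by
    intro h
    apply hx
    have hxc : x ∈ Subgroup.center T := by
      rw [Subgroup.mem_center_iff]
      intro g
      have : g ∈ cent x := by rw [h]; trivial
      exact (mem_cent.mp this).eq
    rw [hcen, Subgroup.mem_bot] at hxc
    exact hxc
  have hNM := normalizer_le hy hx (cent x) hMst hM1 hM2
  have hMp : IsPGroup p (cent x) := by
    rintro ⟨g, hg⟩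
    obtain ⟨k, hk⟩ := hPG g hg
    exact ⟨k, Subtype.ext hk⟩
  obtain ⟨Q, hQ⟩ := hMp.exists_le_sylow
  have hMQ : cent x = Q := by
    by_contra hne
    have hlt : cent x < Q := lt_of_le_of_ne hQ hne
    obtain ⟨g, hgQ, hgS, hgN⟩ := exists_normalizing Q.2 hlt
    exact hgS (hNM g hgN)
  have hnpc := crit p hp2 Q (by
    intro S hS1 hSQ hSinv t ht
    rw [← hMQ]
    refine normalizer_le hy hx S ?_ hS1 ?_ t ht
    · intro h hh a ha
      obtain ⟨ψ, hψ⟩ := hy.aa h
      have hψQ : ∀ b ∈ (Q : Subgroup T), ψ b ∈ (Q : Subgroup T) := by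
        intro b hb
        rw [← hMQ] at hb ⊢
        have hb' : Commute (φ h b) x := by
          have := map_commute hy.aa h (mem_cent.mp hb)
          rwa [mem_stab.mp hh] at this
        rcases hψ with hψ | hψ
        · rw [← hψ]; exact hb'
        · have h3 : ψ b = (φ h b)⁻¹ := by rw [hψ, inv_inv]
          rw [h3]
          exact hb'.inv_left
      have h4 := hSinv ψ hψQ a ha
      rcases hψ with hψ | hψ
      · rw [hψ]; exact h4
      · rw [hψ]; exact inv_mem h4
    · intro h
      rw [h] at hSQ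
      exact hM2 (hMQ.trans (top_le_iff.mp hSQ))) (by
    intro t ht
    rw [← hMQ]
    have hxm : x ∈ ((Q : Subgroup T) ⊓ centralizer ((Q : Subgroup T) : Set T) : Subgroup T) := by
      refine Subgroup.mem_inf.mpr ⟨?_, ?_⟩
      · rw [← hMQ]; exact Commute.refl x
      · rw [Subgroup.mem_centralizer_iff]
        intro m hm
        rw [← hMQ] at hm
        exact (mem_cent.mp hm).eq
    have := Subgroup.mem_centralizer_iff.mp ht x hxm
    exact (show Commute x t from this).symm)
  obtain ⟨P', K, hK, hc⟩ := hnpc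
  have hcard := hc.card_mul_card
  rcases hK.eq_bot_or_eq_top with h | h
  · rw [h, Subgroup.card_bot, one_mul] at hcard
    have htop : (P' : Subgroup T) = ⊤ := (Subgroup.card_eq_iff_eq_top _).mp hcard
    apply hnotp p
    intro g
    obtain ⟨k, hk⟩ := P'.2 ⟨g, by rw [htop]; trivial⟩
    exact ⟨k, by simpa using congrArg Subtype.val hk⟩
  · rw [h, Subgroup.card_top] at hcard
    have h1 : Nat.card (P' : Subgroup T) = 1 := by
      have hpos : 0 < Nat.card T := Nat.card_pos
      exact Nat.eq_of_mul_eq_mul_left hpos (by rw [hcard, mul_one])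
    exact P'.ne_bot_of_dvd_card hpT (Subgroup.eq_bot_of_card_eq _ h1)

end core

end Cfsg.Agent.Lib.Helper58.EPCore
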