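import Mathlib
import Cfsg.Agent.Lib.Helper58.EPCore

/-!
# Extremely primitive groups: permutation-group reductions (helper58)
-/

set_option autoImplicit false
set_option linter.unusedSectionVars false
set_option linter.style.haveILetI false

namespace Cfsg.Agent.Lib.Helper58.EPRed

open MulAction Subgroup
open Cfsg.Agent.Lib.Helper58.EPCore

section general

variable {G : Type*} [Group G] [Finite G]

theorem conj_mem_iff (K : Subgroup G) (g : G) (h : ∀ k ∈ K, g * k * g⁻¹ ∈ K) (a : G) :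
    a ∈ K ↔ g * a * g⁻¹ ∈ K := by
  refine ⟨h a, fun ha => ?_⟩
  have hinj : Function.Injective (fun k : K => (⟨g * k * g⁻¹, h k k.2⟩ : K)) := by
    intro k k' hkk
    have := congrArg Subtype.val hkk
    simp only at this
    exact Subtype.ext (by simpa using this)
  obtain ⟨k, hk⟩ := Finite.surjective_of_injective hinj ⟨g * a * g⁻¹, ha⟩
  have := congrArg Subtype.val hk
  simp only at this
  have hka : (k : G) = a := by simpa using this
  rw [← hka]
  exact k.2

theorem mem_normalizer_of_conj (K : Subgroup G) (g : G) (h : ∀ k ∈ K, g * k * g⁻¹ ∈ K) :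
    g ∈ normalizer (K : Set G) :=
  Subgroup.mem_normalizer_iff.mpr (conj_mem_iff K g h)

theorem mem_sup_of_normalizes (A B : Subgroup G) (h : ∀ b ∈ B, ∀ a ∈ A, b * a * b⁻¹ ∈ A)
    {g : G} (hg : g ∈ A ⊔ B) : ∃ a ∈ A, ∃ b ∈ B, g = a * b := by
  have hle : B ≤ normalizer (A : Set G) := fun b hb => mem_normalizer_of_conj A b (h b hb)
  have h1 := Subgroup.coe_mul_of_right_le_normalizer_left A B hle
  have hg' : g ∈ ((A ⊔ B : Subgroup G) : Set G) := hg
  rw [h1] at hg'
  obtain ⟨a, ha, b, hb, rfl⟩ := Set.mem_mul.mp hg'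
  exact ⟨a, ha, b, hb, rfl⟩

end general

section U

variable {G : Type*} [Group G] [Finite G] {Ω : Type*} [MulAction G Ω]

theorem lemmaU (α : Ω) (T C : Subgroup G)
    (hmax : ∀ ω : Ω, ω ≠ α → ∀ L : Subgroup G, stabilizer G α ⊓ stabilizer G ω ≤ L →
      L ≤ stabilizer G α → L = stabilizer G α ⊓ stabilizer G ω ∨ L = stabilizer G α)
    (hne : ∀ ω : Ω, ω ≠ α → ¬ stabilizer G α ≤ stabilizer G ω)
    (hTs : ∀ K : Subgroup G, K ≤ T → (∀ t ∈ T, ∀ k ∈ K, t * k * t⁻¹ ∈ K) → K = ⊥ ∨ K = T)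
    (hTna : ∃ a ∈ T, ∃ b ∈ T, a * b ≠ b * a)
    (hTtr : ∀ ω : Ω, ∃ t ∈ T, t • α = ω) (hTreg : ∀ t ∈ T, t • α = α → t = 1)
    (hCT : ∀ c ∈ C, ∀ t ∈ T, c * t = t * c) (hCtr : ∀ ω : Ω, ∃ c ∈ C, c • α = ω)
    (hconj : ∀ h ∈ stabilizer G α, (∀ t ∈ T, h * t * h⁻¹ ∈ T) ∨ (∀ t ∈ T, h * t * h⁻¹ ∈ C))
    (crit : ∀ (p : ℕ) [Fact p.Prime], p ≠ 2 → ∀ P : Sylow p T,
      (∀ S : Subgroup T, S ≠ ⊥ → S ≤ P →
        (∀ ψ : T ≃* T, (∀ a ∈ (P : Subgroup T), ψ a ∈ (P : Subgroup T)) → ∀ a ∈ S, ψ a ∈ S) →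
        normalizer (S : Set T) ≤ P) →
      centralizer (((P : Subgroup T) ⊓ centralizer ((P : Subgroup T) : Set T) : Subgroup T) : Set T)
        ≤ P →
      Cfsg.HasNormalPComplement p T) : False := by
  classical
  have hinj : Function.Injective (fun t : T => (t : G) • α) := by
    intro a b hab
    simp only at hab
    have h1 : ((b : G)⁻¹ * (a : G)) • α = α := by
      rw [mul_smul, hab, inv_smul_smul]
    have := hTreg _ (T.mul_mem (T.inv_mem b.2) a.2) h1
    exact Subtype.ext (inv_mul_eq_one.mp this).symm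
  have hsurj : Function.Surjective (fun t : T => (t : G) • α) := fun ω => by
    obtain ⟨t, ht, h⟩ := hTtr ω
    exact ⟨⟨t, ht⟩, h⟩
  obtain ⟨e, he⟩ : ∃ e : T ≃ Ω, ∀ t : T, e t = (t : G) • α :=
    ⟨Equiv.ofBijective _ ⟨hinj, hsurj⟩, fun t => rfl⟩
  obtain ⟨φ, hφ⟩ : ∃ φ : stabilizer G α →* Equiv.Perm T,
      ∀ (h : stabilizer G α) (t : T), ((φ h t : T) : G) • α = (h : G) • ((t : G) • α) := by
    refine ⟨(e.symm.permCongrHom).toMonoidHom.comp
      ((MulAction.toPermHom G Ω).comp (stabilizer G α).subtype), fun h t => ?_⟩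
    rw [← he, ← he]
    simp
  have hα : ∀ h : stabilizer G α, (h : G)⁻¹ • α = α := fun h => by
    rw [inv_smul_eq_iff]
    exact h.2.symm
  haveI : Nontrivial T := by
    obtain ⟨a, ha, b, hb, hab⟩ := hTna
    refine ⟨⟨⟨a, ha⟩, 1, ?_⟩⟩
    intro h
    apply hab
    have h1 : a = 1 := congrArg Subtype.val h
    rw [h1, one_mul, mul_one]
  haveI : IsSimpleGroup T := by
    refine ⟨fun K hK => ?_⟩
    have := hTs (K.map T.subtype) (Subgroup.map_subtype_le K) (by
      rintro t ht _ ⟨k, hk, rfl⟩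
      exact ⟨⟨t, ht⟩ * k * ⟨t, ht⟩⁻¹, hK.conj_mem k hk ⟨t, ht⟩, rfl⟩)
    rcases this with h | h
    · left
      exact (Subgroup.map_eq_bot_iff_of_injective K T.subtype_injective).mp h
    · right
      rw [eq_top_iff]
      intro k _
      have hk : (k : G) ∈ K.map T.subtype := by rw [h]; exact k.2
      obtain ⟨k', hk', hkk⟩ := hk
      have : k' = k := Subtype.ext hkk
      rwa [← this]
  have haa : AA φ := by
    apply aa_of_mul_or_anti
    intro h
    rcases hconj h h.2 with hT | hC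
    · left
      have key : ∀ a : T, φ h a = ⟨(h : G) * a * (h : G)⁻¹, hT a a.2⟩ := by
        intro a
        apply hinj
        show ((φ h a : T) : G) • α = ((h : G) * a * (h : G)⁻¹) • α
        rw [hφ, mul_smul, mul_smul, hα]
      intro a b
      rw [key, key, key]
      apply Subtype.ext
      simp [mul_assoc]
    · right
      intro a b
      apply hinj
      show ((φ h (a * b) : T) : G) • α = ((φ h b * φ h a : T) : G) • α
      have h1 : (h : G) • ((a : G) • α) = ((h : G) * a * (h : G)⁻¹) • α := by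
        rw [mul_smul, mul_smul, hα]
      have hL : ((φ h (a * b) : T) : G) • α = (h : G) • ((a : G) • ((b : G) • α)) := by
        rw [hφ, Subgroup.coe_mul, mul_smul]
      have hR : ((φ h b * φ h a : T) : G) • α = (h : G) • ((a : G) • ((b : G) • α)) := by
        rw [Subgroup.coe_mul, mul_smul, hφ, h1, ← mul_smul, ← hCT _ (hC a a.2) _ (φ h b).2,
          mul_smul, hφ]
        simp [mul_smul]
      exact hL.trans hR.symm
  have hinner : ∀ t : T, ∃ h : stabilizer G α, ∀ a, φ h a = t * a * t⁻¹ := by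
    intro t
    obtain ⟨c, hc, hcα⟩ := hCtr ((t : G)⁻¹ • α)
    have hmem : (t : G) * c ∈ stabilizer G α := by
      rw [mem_stabilizer_iff, mul_smul, hcα, smul_inv_smul]
    refine ⟨⟨(t : G) * c, hmem⟩, fun a => ?_⟩
    apply hinj
    show ((φ _ a : T) : G) • α = ((t * a * t⁻¹ : T) : G) • α
    rw [hφ]
    show ((t : G) * c) • ((a : G) • α) = ((t : G) * a * (t : G)⁻¹) • α
    rw [mul_smul, ← mul_smul c, hCT c hc a a.2, mul_smul, hcα, mul_smul, mul_smul]
  have hco : ∀ x : T, x ≠ 1 → IsCoatom (stab φ x) := by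
    intro x hx
    have hxα : (x : G) • α ≠ α := fun h => hx (Subtype.ext (hTreg x x.2 h))
    have hmem : ∀ h : stabilizer G α,
        h ∈ stab φ x ↔ (h : G) • ((x : G) • α) = (x : G) • α := by
      intro h
      rw [mem_stab, ← hφ]
      constructor
      · intro h1; rw [h1]
      · intro h1; exact hinj h1
    constructor
    · intro htop
      apply hne _ hxα
      intro g hg
      have : (⟨g, hg⟩ : stabilizer G α) ∈ stab φ x := by rw [htop]; trivial
      exact (hmem _).mp this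
    · intro b hb
      rcases hmax _ hxα (b.map (stabilizer G α).subtype) (by
        rintro g ⟨hg1, hg2⟩
        exact ⟨⟨g, hg1⟩, hb.le ((hmem _).mpr (mem_stabilizer_iff.mp hg2)), rfl⟩)
        (Subgroup.map_subtype_le b) with h | h
      · exfalso
        apply not_le_of_gt hb
        intro k hk
        have h2 : (k : G) ∈ b.map (stabilizer G α).subtype := ⟨k, hk, rfl⟩
        rw [h] at h2
        exact (hmem k).mpr (mem_stabilizer_iff.mp h2.2)
      · rw [eq_top_iff]
        intro k _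
        have hk : (k : G) ∈ b.map (stabilizer G α).subtype := by rw [h]; exact k.2
        obtain ⟨k', hk', hkk⟩ := hk
        have : k' = k := Subtype.ext hkk
        rwa [← this]
  have hnab : ∃ a b : T, a * b ≠ b * a := by
    obtain ⟨a, ha, b, hb, hab⟩ := hTna
    exact ⟨⟨a, ha⟩, ⟨b, hb⟩, fun h => hab (congrArg Subtype.val h)⟩
  exact core ⟨haa, hinner, hco, hnab⟩ crit

end U

section R

variable {G : Type*} [Group G] [Finite G]

/-- The conjugate subgroup `g T g⁻¹`. -/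
def cj (g : G) (T : Subgroup G) : Subgroup G := T.map (MulAut.conj g).toMonoidHom

theorem mem_cj {g : G} {T : Subgroup G} {k : G} : k ∈ cj g T ↔ g⁻¹ * k * g ∈ T := by
  unfold cj
  rw [Subgroup.mem_map_equiv]
  simp [MulAut.conj_symm_apply]

theorem conj_mem_cj {g : G} {T : Subgroup G} {t : G} (ht : t ∈ T) : g * t * g⁻¹ ∈ cj g T := by
  rw [mem_cj]
  simpa [mul_assoc] using ht

theorem card_cj (g : G) (T : Subgroup G) : Nat.card (cj g T) = Nat.card T :=
  Subgroup.card_map_of_injective (MulAut.conj g).injective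

theorem cj_one (T : Subgroup G) : cj 1 T = T := by
  ext k
  rw [mem_cj]
  simp

/-- Nontrivial subgroup of `N` normalized by `N`. -/
def NN (N K : Subgroup G) : Prop :=
  K ≤ N ∧ (∀ n ∈ N, ∀ k ∈ K, n * k * n⁻¹ ∈ K) ∧ K ≠ ⊥

/-- `NN`-subgroup of minimal order. -/
def MinC (N T : Subgroup G) : Prop :=
  NN N T ∧ ∀ K, NN N K → Nat.card T ≤ Nat.card K

theorem MinC.eq_of_le {N T K : Subgroup G} (hT : MinC N T) (hK : NN N K) (hle : K ≤ T) :
    K = T :=
  Subgroup.eq_of_le_of_card_ge hle (hT.2 K hK)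

theorem exists_minC {N K₀ : Subgroup G} (hK₀ : NN N K₀) : ∃ T, MinC N T := by
  classical
  have hex : ∃ m, ∃ K, NN N K ∧ Nat.card K = m := ⟨_, K₀, hK₀, rfl⟩
  obtain ⟨T, hT, hTc⟩ := Nat.find_spec hex
  exact ⟨T, hT, fun K hK => by rw [hTc]; exact Nat.find_min' hex ⟨K, hK, rfl⟩⟩

theorem nn_cj {N T : Subgroup G} [N.Normal] (hT : NN N T) (g : G) : NN N (cj g T) := by
  refine ⟨?_, ?_, ?_⟩
  · intro k hk
    rw [mem_cj] at hk
    have h2 := (inferInstance : N.Normal).conj_mem _ (hT.1 hk) g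
    simpa [mul_assoc] using h2
  · intro n hn k hk
    rw [mem_cj] at hk ⊢
    have hn' : g⁻¹ * n * g ∈ N := by
      have := (inferInstance : N.Normal).conj_mem n hn g⁻¹
      simpa using this
    have := hT.2.1 _ hn' _ hk
    have e : g⁻¹ * (n * k * n⁻¹) * g = g⁻¹ * n * g * (g⁻¹ * k * g) * (g⁻¹ * n * g)⁻¹ := by
      group
    rw [e]
    exact this
  · intro h
    apply hT.2.2
    have := card_cj g T
    rw [h, Subgroup.card_bot] at this
    exact Subgroup.eq_bot_of_card_eq _ this.symm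

theorem minC_cj {N T : Subgroup G} [N.Normal] (hT : MinC N T) (g : G) : MinC N (cj g T) :=
  ⟨nn_cj hT.1 g, fun K hK => by rw [card_cj]; exact hT.2 K hK⟩

theorem minC_inf_comm {N T T' : Subgroup G} (hT : MinC N T) (hT' : MinC N T') (hne : T ≠ T') :
    ∀ t ∈ T, ∀ t' ∈ T', t * t' = t' * t := by
  have hbot : T ⊓ T' = ⊥ := by
    by_contra hb
    have hK : NN N (T ⊓ T') := ⟨inf_le_left.trans hT.1.1,
      fun n hn k hk => ⟨hT.1.2.1 n hn k hk.1, hT'.1.2.1 n hn k hk.2⟩, hb⟩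
    have h1 := hT.eq_of_le hK inf_le_left
    have h2 := hT'.eq_of_le hK inf_le_right
    exact hne (h1.symm.trans h2)
  intro t ht t' ht'
  have h1 : t * t' * t⁻¹ * t'⁻¹ ∈ T ⊓ T' := by
    refine ⟨?_, ?_⟩
    · have := hT.1.2.1 t' (hT'.1.1 ht') t⁻¹ (T.inv_mem ht)
      have h3 := T.mul_mem ht this
      simpa [mul_assoc] using h3
    · have := hT'.1.2.1 t (hT.1.1 ht) t' ht'
      exact T'.mul_mem this (T'.inv_mem ht')
  rw [hbot, Subgroup.mem_bot] at h1
  have h2 : t * t' * t⁻¹ * t'⁻¹ * t' * t = t' * t := by rw [h1, one_mul]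
  simpa [mul_assoc] using h2

theorem abelian_of_central {N H : Subgroup G} [N.Normal]
    (irr : ∀ R : Subgroup G, R ≤ N → (∀ h ∈ H, ∀ r ∈ R, h * r * h⁻¹ ∈ R) → R = ⊥ ∨ R = N)
    {z : G} (hzN : z ∈ N) (hz1 : z ≠ 1) (hz : ∀ n ∈ N, z * n = n * z) :
    ∀ a ∈ N, ∀ b ∈ N, a * b = b * a := by
  have hZ := irr (N ⊓ centralizer (N : Set G)) inf_le_left (by
    intro h hh r hr
    obtain ⟨hr1, hr2⟩ := Subgroup.mem_inf.mp hr
    refine Subgroup.mem_inf.mpr ⟨(inferInstance : N.Normal).conj_mem r hr1 h, ?_⟩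
    rw [Subgroup.mem_centralizer_iff] at hr2 ⊢
    intro n hn
    have hn' : h⁻¹ * n * h ∈ N := by
      simpa using (inferInstance : N.Normal).conj_mem n hn h⁻¹
    have := hr2 _ hn'
    calc n * (h * r * h⁻¹) = h * ((h⁻¹ * n * h) * r) * h⁻¹ := by group
      _ = h * (r * (h⁻¹ * n * h)) * h⁻¹ := by rw [this]
      _ = h * r * h⁻¹ * n := by group)
  rcases hZ with h | h
  · exfalso
    have : z ∈ N ⊓ centralizer (N : Set G) :=
      Subgroup.mem_inf.mpr
        ⟨hzN, by rw [Subgroup.mem_centralizer_iff]; intro n hn; exact (hz n hn).symm⟩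
    rw [h, Subgroup.mem_bot] at this
    exact hz1 this
  · intro a ha b hb
    have : a ∈ N ⊓ centralizer (N : Set G) := by rw [h]; exact ha
    exact (Subgroup.mem_centralizer_iff.mp (Subgroup.mem_inf.mp this).2 b hb).symm

theorem iSup_cj_eq {N H : Subgroup G} [N.Normal]
    (irr : ∀ R : Subgroup G, R ≤ N → (∀ h ∈ H, ∀ r ∈ R, h * r * h⁻¹ ∈ R) → R = ⊥ ∨ R = N)
    {T : Subgroup G} (hT : NN N T) : (⨆ h : H, cj (h : G) T) = N := by
  rcases irr _ (iSup_le fun h => (nn_cj hT _).1) (by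
    intro g hg r hr
    refine Subgroup.iSup_induction (fun h : H => cj (h : G) T)
      (C := fun r => g * r * g⁻¹ ∈ ⨆ h : H, cj (h : G) T) hr ?_ ?_ ?_
    · intro h x hx
      have : g * x * g⁻¹ ∈ cj (g * (h : G)) T := by
        rw [mem_cj] at hx ⊢
        have e : (g * (h : G))⁻¹ * (g * x * g⁻¹) * (g * (h : G)) = (h : G)⁻¹ * x * (h : G) := by
          group
        rw [e]
        exact hx
      exact Subgroup.mem_iSup_of_mem (⟨g * (h : G), H.mul_mem hg h.2⟩ : H) this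
    · rw [mul_one, mul_inv_cancel]
      exact Subgroup.one_mem _
    · intro x y hx hy
      have e : g * (x * y) * g⁻¹ = (g * x * g⁻¹) * (g * y * g⁻¹) := by group
      rw [e]
      exact Subgroup.mul_mem _ hx hy) with h | h
  · exfalso
    apply hT.2.2
    rw [eq_bot_iff, ← h]
    have := le_iSup (fun h : H => cj (h : G) T) 1
    simpa [cj_one] using this
  · exact h

theorem minC_nonabelian {N H : Subgroup G} [N.Normal]
    (irr : ∀ R : Subgroup G, R ≤ N → (∀ h ∈ H, ∀ r ∈ R, h * r * h⁻¹ ∈ R) → R = ⊥ ∨ R = N)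
    (hnab : ∃ a ∈ N, ∃ b ∈ N, a * b ≠ b * a) {T : Subgroup G} (hT : MinC N T) :
    ∃ a ∈ T, ∃ b ∈ T, a * b ≠ b * a := by
  by_contra hab
  push Not at hab
  have hR := iSup_cj_eq irr hT.1
  obtain ⟨z, hzT, hz1⟩ : ∃ z ∈ T, z ≠ 1 := by
    by_contra hc
    push Not at hc
    exact hT.1.2.2 ((Subgroup.eq_bot_iff_forall T).mpr hc)
  have hzc : ∀ n ∈ N, z * n = n * z := by
    intro n hn
    rw [← hR] at hn
    refine Subgroup.iSup_induction (fun h : H => cj (h : G) T)
      (C := fun n => z * n = n * z) hn ?_ ?_ ?_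
    · intro h x hx
      by_cases heq : T = cj (h : G) T
      · rw [← heq] at hx
        exact hab z hzT x hx
      · exact minC_inf_comm hT (minC_cj hT _) heq z hzT x hx
    · simp
    · intro x y hx hy
      rw [← mul_assoc, hx, mul_assoc, hy, mul_assoc]
  obtain ⟨a, ha, b, hb, hne⟩ := hnab
  exact hne (abelian_of_central irr (hT.1.1 hzT) hz1 hzc a ha b hb)

open scoped Pointwise in
theorem fpf_prime_false (N H : Subgroup G) [N.Normal]
    (irr : ∀ R : Subgroup G, R ≤ N → (∀ h ∈ H, ∀ r ∈ R, h * r * h⁻¹ ∈ R) → R = ⊥ ∨ R = N)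
    (hsub : ∀ L : Subgroup G, L ≤ H → L = ⊥ ∨ L = H) (hHne : H ≠ ⊥)
    (hfpf : ∀ h ∈ H, h ≠ 1 → ∀ y ∈ N, h * y = y * h → y = 1)
    (hnab : ∃ a ∈ N, ∃ b ∈ N, a * b ≠ b * a) : False := by
  classical
  obtain ⟨h₀, hh₀, hh₀1⟩ : ∃ h ∈ H, h ≠ 1 := by
    by_contra hc
    push Not at hc
    exact hHne ((Subgroup.eq_bot_iff_forall H).mpr hc)
  obtain ⟨p, hp, hpo⟩ := Nat.exists_prime_and_dvd
    (show orderOf h₀ ≠ 1 from fun h => hh₀1 (orderOf_eq_one_iff.mp h))
  haveI : Fact p.Prime := ⟨hp⟩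
  obtain ⟨h₁, hh₁⟩ : ∃ h₁, h₁ = h₀ ^ (orderOf h₀ / p) := ⟨_, rfl⟩
  have ho₁ : orderOf h₁ = p := by
    rw [hh₁]
    exact orderOf_pow_orderOf_div (orderOf_pos h₀).ne' hpo
  have hh₁H : h₁ ∈ H := by rw [hh₁]; exact H.pow_mem hh₀ _
  have hh₁1 : h₁ ≠ 1 := by
    intro h
    rw [h, orderOf_one] at ho₁
    exact hp.one_lt.ne ho₁
  have hz : Subgroup.zpowers h₁ = H := by
    rcases hsub (Subgroup.zpowers h₁) (by rw [Subgroup.zpowers_le]; exact hh₁H) with h | h
    · exfalso
      apply hh₁1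
      have : h₁ ∈ Subgroup.zpowers h₁ := Subgroup.mem_zpowers h₁
      rw [h, Subgroup.mem_bot] at this
      exact this
    · exact h
  have hcardH : Nat.card H = p := by rw [← hz, Nat.card_zpowers, ho₁]
  have hHp : IsPGroup p H := IsPGroup.of_card (n := 1) (by rw [hcardH, pow_one])
  letI : MulDistribMulAction H N :=
    MulDistribMulAction.compHom N ((MulAut.conjNormal (H := N)).comp H.subtype)
  have hsm : ∀ (h : H) (n : N), ((h • n : N) : G) = (h : G) * n * (h : G)⁻¹ := fun h n => rfl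
  have hfix : ∀ n : N, n ∈ fixedPoints H N → n = 1 := by
    intro n hn
    have h1 := hn ⟨h₁, hh₁H⟩
    have h2 : h₁ * (n : G) * h₁⁻¹ = n := by
      have := hsm ⟨h₁, hh₁H⟩ n
      rw [h1] at this
      exact this.symm
    have h3 : h₁ * (n : G) = n * h₁ := mul_inv_eq_iff_eq_mul.mp h2
    exact Subtype.ext (hfpf h₁ hh₁H hh₁1 n n.2 h3)
  have hcardfix : Nat.card (fixedPoints H N) = 1 := by
    rw [Nat.card_eq_one_iff_unique]
    exact ⟨⟨fun a b => Subtype.ext ((hfix a a.2).trans (hfix b b.2).symm)⟩,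
      ⟨⟨1, fun h => smul_one h⟩⟩⟩
  have hmod := hHp.card_modEq_card_fixedPoints N
  rw [hcardfix] at hmod
  have hpN : ¬ p ∣ Nat.card N := by
    intro hdvd
    have h0 : Nat.card N ≡ 0 [MOD p] := (Nat.modEq_zero_iff_dvd).mpr hdvd
    have h1 : 1 ≡ 0 [MOD p] := hmod.symm.trans h0
    have := (Nat.modEq_zero_iff_dvd).mp h1
    exact hp.one_lt.ne' (Nat.dvd_one.mp this)
  haveI : Nontrivial N := by
    obtain ⟨a, ha, b, hb, hab⟩ := hnab
    refine ⟨⟨⟨a, ha⟩, 1, fun h => hab ?_⟩⟩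
    have h1 : a = 1 := congrArg Subtype.val h
    rw [h1, one_mul, mul_one]
  obtain ⟨r, hr, hrN⟩ := Nat.exists_prime_and_dvd (show Nat.card N ≠ 1 from fun h => by
    have := Finite.one_lt_card (α := N)
    omega)
  haveI : Fact r.Prime := ⟨hr⟩
  have hSyl : ¬ p ∣ Nat.card (Sylow r N) := by
    intro hdvd
    obtain ⟨P⟩ := (inferInstance : Nonempty (Sylow r N))
    exact hpN (hdvd.trans ((P.card_dvd_index).trans (Subgroup.index_dvd_card _)))
  obtain ⟨R, hR⟩ := hHp.nonempty_fixed_point_of_prime_not_dvd_card (Sylow r N) hSyl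
  have hRinv : ∀ h ∈ H, ∀ x ∈ (R : Subgroup N).map N.subtype,
      h * x * h⁻¹ ∈ (R : Subgroup N).map N.subtype := by
    rintro h hh _ ⟨y, hy, rfl⟩
    have h1 : (⟨h, hh⟩ : H) • y ∈ ((⟨h, hh⟩ : H) • (R : Subgroup N)) :=
      Subgroup.smul_mem_pointwise_smul y _ _ hy
    rw [← Sylow.pointwise_smul_def, hR ⟨h, hh⟩] at h1
    exact ⟨_, h1, rfl⟩
  rcases irr _ (Subgroup.map_subtype_le _) hRinv with h | h
  · exact R.ne_bot_of_dvd_card hrN
      ((Subgroup.map_eq_bot_iff_of_injective _ N.subtype_injective).mp h)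
  · have hRtop : ∀ n : N, n ∈ (R : Subgroup N) := by
      intro n
      have hn : (n : G) ∈ (R : Subgroup N).map N.subtype := by rw [h]; exact n.2
      obtain ⟨n', hn', hnn⟩ := hn
      have : n' = n := Subtype.ext hnn
      rwa [← this]
    have hNr : IsPGroup r N := by
      intro n
      obtain ⟨k, hk⟩ := R.2 ⟨n, hRtop n⟩
      exact ⟨k, by simpa using congrArg Subtype.val hk⟩
    have hcn := hNr.center_nontrivial
    obtain ⟨⟨z, hz⟩, hz1⟩ := exists_ne (1 : Subgroup.center N)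
    obtain ⟨a, ha, b, hb, hab⟩ := hnab
    apply hab
    refine abelian_of_central irr z.2 (fun h => hz1 (Subtype.ext (Subtype.ext h))) ?_ a ha b hb
    intro n hn
    have := Subgroup.mem_center_iff.mp hz ⟨n, hn⟩
    exact (congrArg Subtype.val this).symm

/-- **Lemma R**: a regular-type normal subgroup in an extremely primitive situation is simple. -/
theorem lemmaR (N H : Subgroup G) [N.Normal]
    (irr : ∀ R : Subgroup G, R ≤ N → (∀ h ∈ H, ∀ r ∈ R, h * r * h⁻¹ ∈ R) → R = ⊥ ∨ R = N)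
    (cmax : ∀ x ∈ N, x ≠ 1 → ∀ L : Subgroup G, H ⊓ cent x ≤ L → L ≤ H →
      L = H ⊓ cent x ∨ L = H)
    (cne : ∀ x ∈ N, x ≠ 1 → ¬ H ≤ cent x)
    (hfaith : ∀ h ∈ H, (∀ n ∈ N, h * n = n * h) → h = 1)
    (hnab : ∃ a ∈ N, ∃ b ∈ N, a * b ≠ b * a) :
    ∀ K : Subgroup G, K ≤ N → (∀ n ∈ N, ∀ k ∈ K, n * k * n⁻¹ ∈ K) → K = ⊥ ∨ K = N := by
  intro K₀ hK₀N hK₀n
  by_contra hcon
  push Not at hcon
  obtain ⟨hK₀1, hK₀2⟩ := hcon
  obtain ⟨T₁, hT₁⟩ := exists_minC (N := N) (K₀ := K₀) ⟨hK₀N, hK₀n, hK₀1⟩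
  have hneN : ∀ T : Subgroup G, MinC N T → T ≠ N := by
    intro T hT h
    have := hT.2 K₀ ⟨hK₀N, hK₀n, hK₀1⟩
    rw [h] at this
    exact hK₀2 (Subgroup.eq_of_le_of_card_ge hK₀N this)
  -- Step 2
  have step2 : ∀ T : Subgroup G, MinC N T → ∀ x ∈ T, x ≠ 1 →
      H ⊓ normalizer (T : Set G) = H ⊓ cent x := by
    intro T hT x hx hx1
    have hxN : x ∈ N := hT.1.1 hx
    have hle : H ⊓ cent x ≤ H ⊓ normalizer (T : Set G) := by
      intro h hh'
      obtain ⟨hh, hhx⟩ := Subgroup.mem_inf.mp hh'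
      refine Subgroup.mem_inf.mpr ⟨hh, mem_normalizer_of_conj T h ?_⟩
      have hK : NN N (T ⊓ cj h⁻¹ T) := by
        refine ⟨inf_le_left.trans hT.1.1, ?_, ?_⟩
        · intro n hn k hk
          obtain ⟨hk1, hk2⟩ := Subgroup.mem_inf.mp hk
          exact Subgroup.mem_inf.mpr ⟨hT.1.2.1 n hn k hk1, (nn_cj hT.1 h⁻¹).2.1 n hn k hk2⟩
        · intro hb
          apply hx1
          have : x ∈ T ⊓ cj h⁻¹ T := by
            refine Subgroup.mem_inf.mpr ⟨hx, ?_⟩
            rw [mem_cj, inv_inv]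
            have e : h * x * h⁻¹ = x := mul_inv_eq_iff_eq_mul.mpr (mem_cent.mp hhx).eq
            rw [e]
            exact hx
          rw [hb, Subgroup.mem_bot] at this
          exact this
      have hKT := hT.eq_of_le hK inf_le_left
      intro t ht
      have h1 : t ∈ T ⊓ cj h⁻¹ T := by rw [hKT]; exact ht
      have h2 := mem_cj.mp (Subgroup.mem_inf.mp h1).2
      rwa [inv_inv] at h2
    rcases cmax x hxN hx1 (H ⊓ normalizer (T : Set G)) hle inf_le_left with h | h
    · exact h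
    · exfalso
      have hHn : ∀ g ∈ H, ∀ r ∈ T, g * r * g⁻¹ ∈ T := by
        intro g hg r hr
        have h1 : g ∈ H ⊓ normalizer (T : Set G) := by rw [h]; exact hg
        exact (Subgroup.mem_normalizer_iff.mp (Subgroup.mem_inf.mp h1).2 r).mp hr
      rcases irr T hT.1.1 hHn with h' | h'
      · exact hT.1.2.2 h'
      · exact hneN T hT h'
  -- Step 3
  have step3 : ∀ T : Subgroup G, MinC N T → ∀ (p : ℕ) [Fact p.Prime], ¬ IsPGroup p T := by
    intro T hT p _ hp
    haveI : Nontrivial T := (Subgroup.nontrivial_iff_ne_bot T).mpr hT.1.2.2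
    have hcn := hp.center_nontrivial
    obtain ⟨⟨z, hz⟩, hz1⟩ := exists_ne (1 : Subgroup.center T)
    obtain ⟨a, ha, b, hb, hab⟩ := minC_nonabelian irr hnab hT
    have hzc : ∀ t ∈ T, (z : G) * t = t * z := by
      intro t ht
      have := Subgroup.mem_center_iff.mp hz ⟨t, ht⟩
      exact (congrArg Subtype.val this).symm
    -- the center of T (inside G) is NN
    have hK : NN N (T ⊓ centralizer (T : Set G)) := by
      refine ⟨inf_le_left.trans hT.1.1, ?_, ?_⟩
      · intro n hn k hk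
        obtain ⟨hk1, hk2⟩ := Subgroup.mem_inf.mp hk
        refine Subgroup.mem_inf.mpr ⟨hT.1.2.1 n hn k hk1, ?_⟩
        rw [Subgroup.mem_centralizer_iff] at hk2 ⊢
        intro t ht
        have ht' : n⁻¹ * t * n ∈ T := by
          have := hT.1.2.1 n⁻¹ (N.inv_mem hn) t ht
          simpa using this
        have := hk2 _ ht'
        calc t * (n * k * n⁻¹) = n * ((n⁻¹ * t * n) * k) * n⁻¹ := by group
          _ = n * (k * (n⁻¹ * t * n)) * n⁻¹ := by rw [this]
          _ = n * k * n⁻¹ * t := by group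
      · intro hb'
        have : (z : G) ∈ T ⊓ centralizer (T : Set G) := by
          refine Subgroup.mem_inf.mpr ⟨z.2, ?_⟩
          rw [Subgroup.mem_centralizer_iff]
          intro t ht
          exact (hzc t ht).symm
        rw [hb', Subgroup.mem_bot] at this
        exact hz1 (Subtype.ext (Subtype.ext this))
    have hKT := hT.eq_of_le hK inf_le_left
    apply hab
    have h1 : a ∈ T ⊓ centralizer (T : Set G) := by rw [hKT]; exact ha
    exact (Subgroup.mem_centralizer_iff.mp (Subgroup.mem_inf.mp h1).2 b hb).symm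
  -- Step 4
  have step4 : ∀ T T' : Subgroup G, MinC N T → MinC N T' → T ≠ T' →
      H ⊓ normalizer (T : Set G) = H ⊓ normalizer (T' : Set G) := by
    intro T T' hT hT' hne
    have hcomm := minC_inf_comm hT hT' hne
    have hT'1 : Nat.card T' ≠ 1 := fun h => hT'.1.2.2 (Subgroup.eq_bot_of_card_eq _ h)
    obtain ⟨p, hp, hpT'⟩ := Nat.exists_prime_and_dvd hT'1
    haveI : Fact p.Prime := ⟨hp⟩
    have hq : ∃ q : ℕ, q.Prime ∧ q ≠ p ∧ q ∣ Nat.card T := by
      by_contra hc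
      push Not at hc
      have h := Nat.eq_prime_pow_of_unique_prime_dvd (n := Nat.card T) (p := p)
        Nat.card_pos.ne' (fun {d} hd hdvd => by
          by_contra h'
          exact hc d hd h' hdvd)
      exact step3 T hT p (IsPGroup.of_card h)
    obtain ⟨q, hq, hqp, hqT⟩ := hq
    haveI : Fact q.Prime := ⟨hq⟩
    obtain ⟨x₁', hx₁'⟩ := exists_prime_orderOf_dvd_card' q hqT
    obtain ⟨x₂', hx₂'⟩ := exists_prime_orderOf_dvd_card' p hpT'
    obtain ⟨x₁, hx₁e⟩ : ∃ x₁ : G, x₁ = x₁' := ⟨_, rfl⟩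
    obtain ⟨x₂, hx₂e⟩ : ∃ x₂ : G, x₂ = x₂' := ⟨_, rfl⟩
    have hx₁T : x₁ ∈ T := by rw [hx₁e]; exact x₁'.2
    have hx₂T : x₂ ∈ T' := by rw [hx₂e]; exact x₂'.2
    have ho1 : orderOf x₁ = q := by rw [hx₁e, Subgroup.orderOf_coe]; exact hx₁'
    have ho2 : orderOf x₂ = p := by rw [hx₂e, Subgroup.orderOf_coe]; exact hx₂'
    have hc : Commute x₁ x₂ := hcomm x₁ hx₁T x₂ hx₂T
    have hxp : (x₁ * x₂) ^ p = x₁ ^ p := by
      rw [hc.mul_pow, ← ho2, pow_orderOf_eq_one, mul_one]
    have hxq : (x₁ * x₂) ^ q = x₂ ^ q := by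
      rw [hc.mul_pow, ← ho1, pow_orderOf_eq_one, one_mul]
    have h1p : x₁ ^ p ≠ 1 := by
      intro h
      have := orderOf_dvd_of_pow_eq_one h
      rw [ho1] at this
      exact hqp ((Nat.prime_dvd_prime_iff_eq hq hp).mp this)
    have h2q : x₂ ^ q ≠ 1 := by
      intro h
      have := orderOf_dvd_of_pow_eq_one h
      rw [ho2] at this
      exact hqp ((Nat.prime_dvd_prime_iff_eq hp hq).mp this).symm
    have hx1 : x₁ * x₂ ≠ 1 := by
      intro h
      rw [h, one_pow] at hxp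
      exact h1p hxp.symm
    have hxN : x₁ * x₂ ∈ N := N.mul_mem (hT.1.1 hx₁T) (hT'.1.1 hx₂T)
    have e1 := step2 T hT (x₁ ^ p) (T.pow_mem hx₁T p) h1p
    have e2 := step2 T' hT' (x₂ ^ q) (T'.pow_mem hx₂T q) h2q
    have l1 : H ⊓ cent (x₁ * x₂) ≤ H ⊓ normalizer (T : Set G) := by
      rw [e1]
      intro g hg
      obtain ⟨hg1, hg2⟩ := Subgroup.mem_inf.mp hg
      refine Subgroup.mem_inf.mpr ⟨hg1, ?_⟩
      rw [mem_cent] at hg2 ⊢
      rw [← hxp]
      exact hg2.pow_right p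
    have l2 : H ⊓ cent (x₁ * x₂) ≤ H ⊓ normalizer (T' : Set G) := by
      rw [e2]
      intro g hg
      obtain ⟨hg1, hg2⟩ := Subgroup.mem_inf.mp hg
      refine Subgroup.mem_inf.mpr ⟨hg1, ?_⟩
      rw [mem_cent] at hg2 ⊢
      rw [← hxq]
      exact hg2.pow_right q
    have n1 : H ⊓ normalizer (T : Set G) ≠ H := by
      rw [e1]
      intro h
      exact cne (x₁ ^ p) (hT.1.1 (T.pow_mem hx₁T p)) h1p (by rw [← h]; exact inf_le_right)
    have n2 : H ⊓ normalizer (T' : Set G) ≠ H := by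
      rw [e2]
      intro h
      exact cne (x₂ ^ q) (hT'.1.1 (T'.pow_mem hx₂T q)) h2q (by rw [← h]; exact inf_le_right)
    have r1 := (cmax _ hxN hx1 _ l1 inf_le_left).resolve_right n1
    have r2 := (cmax _ hxN hx1 _ l2 inf_le_left).resolve_right n2
    exact r1.trans r2.symm
  -- Step 5
  have hH1 : ∀ g ∈ H ⊓ normalizer (T₁ : Set G), g = 1 := by
    intro g hg
    apply hfaith g (Subgroup.mem_inf.mp hg).1
    have hR := iSup_cj_eq irr hT₁.1
    intro n hn
    rw [← hR] at hn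
    refine Subgroup.iSup_induction (fun h : H => cj (h : G) T₁)
      (C := fun n => g * n = n * g) hn ?_ ?_ ?_
    · intro h x hx
      have hm : MinC N (cj (h : G) T₁) := minC_cj hT₁ _
      have hg' : g ∈ H ⊓ normalizer ((cj (h : G) T₁ : Subgroup G) : Set G) := by
        by_cases heq : cj (h : G) T₁ = T₁
        · rw [heq]; exact hg
        · rw [step4 _ _ hm hT₁ heq]; exact hg
      by_cases hx1 : x = 1
      · rw [hx1, mul_one, one_mul]
      · rw [step2 _ hm x hx hx1] at hg'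
        exact (mem_cent.mp (Subgroup.mem_inf.mp hg').2).eq
    · rw [mul_one, one_mul]
    · intro a b ha hb
      rw [← mul_assoc, ha, mul_assoc, hb, mul_assoc]
  obtain ⟨x, hxT, hx1⟩ : ∃ x ∈ T₁, x ≠ 1 := by
    by_contra hc
    push Not at hc
    exact hT₁.1.2.2 ((Subgroup.eq_bot_iff_forall T₁).mpr hc)
  have hxN : x ∈ N := hT₁.1.1 hxT
  have hcx : H ⊓ cent x = ⊥ := by
    rw [← step2 T₁ hT₁ x hxT hx1]
    exact (Subgroup.eq_bot_iff_forall _).mpr hH1
  have hsub : ∀ L : Subgroup G, L ≤ H → L = ⊥ ∨ L = H := by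
    intro L hL
    have := cmax x hxN hx1 L (by rw [hcx]; exact bot_le) hL
    rwa [hcx] at this
  have hHne : H ≠ ⊥ := by
    intro h
    apply cne x hxN hx1
    rw [h]
    exact bot_le
  have hfpf : ∀ h ∈ H, h ≠ 1 → ∀ y ∈ N, h * y = y * h → y = 1 := by
    intro h hh hh1 y hy hhy
    by_contra hy1
    rcases hsub (H ⊓ cent y) inf_le_left with h' | h'
    · have : h ∈ H ⊓ cent y := Subgroup.mem_inf.mpr ⟨hh, hhy⟩
      rw [h', Subgroup.mem_bot] at this
      exact hh1 this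
    · exact cne y hy hy1 (by rw [← h']; exact inf_le_right)
  exact fpf_prime_false N H irr hsub hHne hfpf hnab

end R

section top

variable {G : Type*} [Group G] [Finite G] {Ω : Type*} [MulAction G Ω]

/-- The hypotheses on an extremely primitive group, in subgroup form, at the point `α`. -/
structure EP (G : Type*) [Group G] (Ω : Type*) [MulAction G Ω] (α : Ω) : Prop where
  faith : ∀ g : G, (∀ ω : Ω, g • ω = ω) → g = 1
  trans : ∀ ω : Ω, ∃ g : G, g • α = ω
  coatom : IsCoatom (stabilizer G α)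
  max : ∀ ω : Ω, ω ≠ α → ∀ L : Subgroup G, stabilizer G α ⊓ stabilizer G ω ≤ L →
    L ≤ stabilizer G α → L = stabilizer G α ⊓ stabilizer G ω ∨ L = stabilizer G α
  ne : ∀ ω : Ω, ω ≠ α → ¬ stabilizer G α ≤ stabilizer G ω

theorem trans_of_normal {α : Ω} (hE : EP G Ω α) (K : Subgroup G) [K.Normal] (hK : K ≠ ⊥) :
    ∀ ω : Ω, ∃ k ∈ K, k • α = ω := by
  have hle : stabilizer G α ≤ K ⊔ stabilizer G α := le_sup_right
  rcases hE.coatom.le_iff.mp hle with h | h
  · intro ω
    obtain ⟨g, hg⟩ := hE.trans ω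
    have hgm : g ∈ K ⊔ stabilizer G α := by rw [h]; trivial
    obtain ⟨k, hk, s, hs, rfl⟩ := mem_sup_of_normalizes K (stabilizer G α)
      (fun b _ a ha => (inferInstance : K.Normal).conj_mem a ha b) hgm
    refine ⟨k, hk, ?_⟩
    rw [← hg, mul_smul, mem_stabilizer_iff.mp hs]
  · exfalso
    apply hK
    rw [Subgroup.eq_bot_iff_forall]
    intro k hk
    apply hE.faith
    intro ω
    obtain ⟨g, hg⟩ := hE.trans ω
    have h1 : g⁻¹ * k * g ∈ K := by
      simpa using (inferInstance : K.Normal).conj_mem k hk g⁻¹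
    have h2 : g⁻¹ * k * g ∈ stabilizer G α := by
      rw [← h]
      exact Subgroup.mem_sup_left h1
    rw [mem_stabilizer_iff] at h2
    rw [← hg]
    calc k • g • α = g • (g⁻¹ * k * g) • α := by simp [mul_smul]
      _ = g • α := by rw [h2]

theorem eq_one_of_commute_trans (hfaith : ∀ g : G, (∀ ω : Ω, g • ω = ω) → g = 1) (α : Ω)
    (C : Subgroup G) (hC : ∀ ω : Ω, ∃ c ∈ C, c • α = ω) (n : G)
    (hn : ∀ c ∈ C, n * c = c * n) (ω₀ : Ω) (h0 : n • ω₀ = ω₀) : n = 1 := by
  apply hfaith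
  intro ω
  obtain ⟨c₀, hc₀, h₀⟩ := hC ω₀
  obtain ⟨c, hc, h⟩ := hC ω
  have e : ω = (c * c₀⁻¹) • ω₀ := by rw [mul_smul, ← h₀, inv_smul_smul, h]
  rw [e, ← mul_smul, hn _ (C.mul_mem hc (C.inv_mem hc₀)), mul_smul, h0]

/-- **Lemma S**: the non-regular, non-simple case is impossible. -/
theorem lemmaS {α : Ω} (hE : EP G Ω α) (N : Subgroup G) [N.Normal]
    (hmin : ∀ K : Subgroup G, K ≤ N → K.Normal → K = ⊥ ∨ K = N)
    (hnab : ∃ a ∈ N, ∃ b ∈ N, a * b ≠ b * a)
    (hNH : N ⊓ stabilizer G α ≠ ⊥)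
    (hnons : ¬ ∀ K : Subgroup G, K ≤ N → (∀ n ∈ N, ∀ k ∈ K, n * k * n⁻¹ ∈ K) → K = ⊥ ∨ K = N)
    (crit : ∀ (T : Subgroup G) (p : ℕ) [Fact p.Prime], p ≠ 2 → ∀ P : Sylow p T,
      (∀ S : Subgroup T, S ≠ ⊥ → S ≤ P →
        (∀ ψ : T ≃* T, (∀ a ∈ (P : Subgroup T), ψ a ∈ (P : Subgroup T)) → ∀ a ∈ S, ψ a ∈ S) →
        normalizer (S : Set T) ≤ P) →
      centralizer (((P : Subgroup T) ⊓ centralizer ((P : Subgroup T) : Set T) : Subgroup T) : Set T)
        ≤ P →
      Cfsg.HasNormalPComplement p T) : False := by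
  have hN1 : N ≠ ⊥ := by
    intro h
    apply hNH
    rw [h]
    exact bot_inf_eq _
  have hNtr := trans_of_normal hE N hN1
  have hNn : ∀ (g : G), ∀ n ∈ N, g * n * g⁻¹ ∈ N :=
    fun g n hn => (inferInstance : N.Normal).conj_mem n hn g
  -- (b0)
  have b0 : ∀ ω : Ω, ∀ h ∈ stabilizer G α, ∃ k ∈ N ⊓ stabilizer G α, k • ω = h • ω := by
    intro ω h hh
    by_cases hω : ω = α
    · refine ⟨1, Subgroup.one_mem _, ?_⟩
      rw [hω, one_smul, mem_stabilizer_iff.mp hh]
    · have hnorm : ∀ b ∈ stabilizer G α ⊓ stabilizer G ω, ∀ a ∈ N ⊓ stabilizer G α,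
          b * a * b⁻¹ ∈ N ⊓ stabilizer G α := by
        intro b hb a ha
        obtain ⟨ha1, ha2⟩ := Subgroup.mem_inf.mp ha
        obtain ⟨hb1, hb2⟩ := Subgroup.mem_inf.mp hb
        exact Subgroup.mem_inf.mpr ⟨hNn b a ha1,
          Subgroup.mul_mem _ (Subgroup.mul_mem _ hb1 ha2) (Subgroup.inv_mem _ hb1)⟩
      rcases hE.max ω hω ((N ⊓ stabilizer G α) ⊔ (stabilizer G α ⊓ stabilizer G ω))
        le_sup_right (sup_le inf_le_right inf_le_left) with hL | hL
      · exfalso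
        have hfix : ∀ k ∈ N ⊓ stabilizer G α, k • ω = ω := by
          intro k hk
          have : k ∈ stabilizer G α ⊓ stabilizer G ω := by
            rw [← hL]
            exact Subgroup.mem_sup_left hk
          exact mem_stabilizer_iff.mp (Subgroup.mem_inf.mp this).2
        obtain ⟨g, hg⟩ := hE.trans ω
        have hgn : g⁻¹ ∈ normalizer ((N ⊓ stabilizer G α : Subgroup G) : Set G) := by
          apply mem_normalizer_of_conj
          intro k hk
          obtain ⟨hk1, hk2⟩ := Subgroup.mem_inf.mp hk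
          refine Subgroup.mem_inf.mpr ⟨hNn g⁻¹ k hk1, ?_⟩
          rw [mem_stabilizer_iff, inv_inv, mul_smul, mul_smul, hg, hfix k hk, ← hg,
            inv_smul_smul]
        have hHle : stabilizer G α ≤ normalizer ((N ⊓ stabilizer G α : Subgroup G) : Set G) := by
          intro b hb
          apply mem_normalizer_of_conj
          intro k hk
          obtain ⟨hk1, hk2⟩ := Subgroup.mem_inf.mp hk
          exact Subgroup.mem_inf.mpr ⟨hNn b k hk1,
            Subgroup.mul_mem _ (Subgroup.mul_mem _ hb hk2) (Subgroup.inv_mem _ hb)⟩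
        rcases hE.coatom.le_iff.mp hHle with hY | hY
        · apply hNH
          rw [Subgroup.eq_bot_iff_forall]
          intro k hk
          apply hE.faith
          intro ω'
          obtain ⟨g', hg'⟩ := hE.trans ω'
          have h1 : g'⁻¹ ∈ normalizer ((N ⊓ stabilizer G α : Subgroup G) : Set G) := by
            rw [hY]; trivial
          have h2 := (Subgroup.mem_normalizer_iff.mp h1 k).mp hk
          rw [inv_inv] at h2
          have h3 := mem_stabilizer_iff.mp (Subgroup.mem_inf.mp h2).2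
          rw [← hg']
          calc k • g' • α = g' • (g'⁻¹ * k * g') • α := by simp [mul_smul]
            _ = g' • α := by rw [h3]
        · have h1 : g⁻¹ ∈ stabilizer G α := by rw [← hY]; exact hgn
          have h2 : g ∈ stabilizer G α := by simpa using Subgroup.inv_mem _ h1
          apply hω
          rw [← hg]
          exact mem_stabilizer_iff.mp h2
      · have hh' : h ∈ (N ⊓ stabilizer G α) ⊔ (stabilizer G α ⊓ stabilizer G ω) := by
          rw [hL]; exact hh
        obtain ⟨k, hk, s, hs, rfl⟩ := mem_sup_of_normalizes _ _ hnorm hh'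
        refine ⟨k, hk, ?_⟩
        rw [mul_smul, mem_stabilizer_iff.mp (Subgroup.mem_inf.mp hs).2]
  -- (b)
  have hb : ∀ L : Subgroup G, N ⊓ stabilizer G α ≤ L → L ≤ N →
      L = N ⊓ stabilizer G α ∨ L = N := by
    intro L hL1 hL2
    have hLn : ∀ h ∈ stabilizer G α, ∀ l ∈ L, h * l * h⁻¹ ∈ L := by
      intro h hh l hl
      obtain ⟨k, hk, hkω⟩ := b0 (l • α) h hh
      have hm : (k * l)⁻¹ * (h * l * h⁻¹) ∈ N ⊓ stabilizer G α := by
        refine Subgroup.mem_inf.mpr ⟨?_, ?_⟩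
        · exact N.mul_mem (N.inv_mem (N.mul_mem (Subgroup.mem_inf.mp hk).1 (hL2 hl)))
            (hNn h l (hL2 hl))
        · rw [mem_stabilizer_iff, mul_smul, mul_smul, mul_smul,
            inv_smul_eq_iff.mpr (mem_stabilizer_iff.mp hh).symm, ← hkω, ← mul_smul k,
            inv_smul_smul]
      have e : h * l * h⁻¹ = k * l * ((k * l)⁻¹ * (h * l * h⁻¹)) := by group
      rw [e]
      exact L.mul_mem (L.mul_mem (hL1 hk) hl) (hL1 hm)
    have hle : stabilizer G α ≤ L ⊔ stabilizer G α := le_sup_right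
    rcases hE.coatom.le_iff.mp hle with h | h
    · right
      apply le_antisymm hL2
      intro n hn
      have hnm : n ∈ L ⊔ stabilizer G α := by rw [h]; trivial
      obtain ⟨l, hl, s, hs, rfl⟩ := mem_sup_of_normalizes L (stabilizer G α) hLn hnm
      have hsN : s ∈ N := by
        have := N.mul_mem (N.inv_mem (hL2 hl)) hn
        simpa using this
      exact L.mul_mem hl (hL1 (Subgroup.mem_inf.mpr ⟨hsN, hs⟩))
    · left
      apply le_antisymm _ hL1
      intro l hl
      exact Subgroup.mem_inf.mpr ⟨hL2 hl, by rw [← h]; exact Subgroup.mem_sup_left hl⟩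
  -- minimal N-normalized subgroup
  push Not at hnons
  obtain ⟨K₀, hK₀N, hK₀n, hK₀1, hK₀2⟩ := hnons
  obtain ⟨T₁, hT₁⟩ := exists_minC (N := N) (K₀ := K₀) ⟨hK₀N, hK₀n, hK₀1⟩
  have hT₁N : T₁ ≠ N := by
    intro h
    have := hT₁.2 K₀ ⟨hK₀N, hK₀n, hK₀1⟩
    rw [h] at this
    exact hK₀2 (Subgroup.eq_of_le_of_card_ge hK₀N this)
  have irrG : ∀ R : Subgroup G, R ≤ N → (∀ h ∈ (⊤ : Subgroup G), ∀ r ∈ R, h * r * h⁻¹ ∈ R) →
      R = ⊥ ∨ R = N := by
    intro R hR hRn
    exact hmin R hR ⟨fun r hr g => hRn g (Subgroup.mem_top g) r hr⟩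
  have hT₁na := minC_nonabelian irrG hnab hT₁
  -- T₁ is transitive
  have hT₁tr : ∀ ω : Ω, ∃ t ∈ T₁, t • α = ω := by
    rcases hb (T₁ ⊔ (N ⊓ stabilizer G α)) le_sup_right (sup_le hT₁.1.1 inf_le_left) with h | h
    · exfalso
      apply hT₁.1.2.2
      rw [Subgroup.eq_bot_iff_forall]
      intro t ht
      apply hE.faith
      intro ω
      obtain ⟨n, hn, hnω⟩ := hNtr ω
      have h1 : n⁻¹ * t * n ∈ T₁ := by
        simpa using hT₁.1.2.1 n⁻¹ (N.inv_mem hn) t ht
      have h2 : n⁻¹ * t * n ∈ N ⊓ stabilizer G α := by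
        rw [← h]
        exact Subgroup.mem_sup_left h1
      have h3 := mem_stabilizer_iff.mp (Subgroup.mem_inf.mp h2).2
      rw [← hnω]
      calc t • n • α = n • (n⁻¹ * t * n) • α := by simp [mul_smul]
        _ = n • α := by rw [h3]
    · intro ω
      obtain ⟨n, hn, hnω⟩ := hNtr ω
      have hnm : n ∈ T₁ ⊔ (N ⊓ stabilizer G α) := by rw [h]; exact hn
      obtain ⟨t, ht, k, hk, rfl⟩ := mem_sup_of_normalizes T₁ (N ⊓ stabilizer G α)
        (fun b hb' a ha => hT₁.1.2.1 b (Subgroup.mem_inf.mp hb').1 a ha) hnm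
      refine ⟨t, ht, ?_⟩
      rw [← hnω, mul_smul, mem_stabilizer_iff.mp (Subgroup.mem_inf.mp hk).2]
  -- T₁ is not normal
  obtain ⟨g, hg⟩ : ∃ g : G, cj g T₁ ≠ T₁ := by
    by_contra hc
    push Not at hc
    have hnorm : T₁.Normal := ⟨fun t ht g => by
      have := conj_mem_cj (g := g) ht
      rwa [hc g] at this⟩
    rcases hmin T₁ hT₁.1.1 hnorm with h | h
    · exact hT₁.1.2.2 h
    · exact hT₁N h
  have hT₂ := minC_cj hT₁ g
  have hcomm := minC_inf_comm hT₁ hT₂ (Ne.symm hg)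
  have hT₂tr : ∀ ω : Ω, ∃ t ∈ cj g T₁, t • α = ω := by
    intro ω
    obtain ⟨ta, hta, ha⟩ := hT₁tr (g⁻¹ • α)
    obtain ⟨tb, htb, hb'⟩ := hT₁tr (g⁻¹ • ω)
    refine ⟨g * (tb * ta⁻¹) * g⁻¹, conj_mem_cj (T₁.mul_mem htb (T₁.inv_mem hta)), ?_⟩
    rw [mul_smul, mul_smul, mul_smul, ← ha, inv_smul_smul, hb', smul_inv_smul]
  have hT₁reg : ∀ t ∈ T₁, t • α = α → t = 1 := by
    intro t ht htα
    exact eq_one_of_commute_trans hE.faith α (cj g T₁) hT₂tr t
      (fun c hc => hcomm t ht c hc) α htα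
  have hCT : ∀ c ∈ centralizer (T₁ : Set G), ∀ t ∈ T₁, c * t = t * c := by
    intro c hc t ht
    exact (Subgroup.mem_centralizer_iff.mp hc t ht).symm
  have hCtr : ∀ ω : Ω, ∃ c ∈ centralizer (T₁ : Set G), c • α = ω := by
    intro ω
    obtain ⟨t, ht, h⟩ := hT₂tr ω
    refine ⟨t, ?_, h⟩
    rw [Subgroup.mem_centralizer_iff]
    intro x hx
    exact hcomm x hx t ht
  have hconj : ∀ h ∈ stabilizer G α, (∀ t ∈ T₁, h * t * h⁻¹ ∈ T₁) ∨
      (∀ t ∈ T₁, h * t * h⁻¹ ∈ centralizer (T₁ : Set G)) := by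
    intro h _
    by_cases heq : cj h T₁ = T₁
    · left
      intro t ht
      have := conj_mem_cj (g := h) ht
      rwa [heq] at this
    · right
      intro t ht
      rw [Subgroup.mem_centralizer_iff]
      intro x hx
      exact minC_inf_comm hT₁ (minC_cj hT₁ h) (Ne.symm heq) x hx _ (conj_mem_cj ht)
  have hsimple : ∀ K : Subgroup G, K ≤ T₁ → (∀ t ∈ T₁, ∀ k ∈ K, t * k * t⁻¹ ∈ K) →
      K = ⊥ ∨ K = T₁ := by
    intro K hK hKn
    by_cases hK1 : K = ⊥
    · exact Or.inl hK1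
    · right
      have hR := iSup_cj_eq irrG hT₁.1
      have hKN : ∀ n ∈ N, ∀ k ∈ K, n * k * n⁻¹ ∈ K := by
        intro n hn
        rw [← hR] at hn
        refine Subgroup.iSup_induction (fun h : (⊤ : Subgroup G) => cj (h : G) T₁)
          (C := fun n => ∀ k ∈ K, n * k * n⁻¹ ∈ K) hn ?_ ?_ ?_
        · intro h x hx k hk
          by_cases heq : cj (h : G) T₁ = T₁
          · rw [heq] at hx
            exact hKn x hx k hk
          · have := minC_inf_comm hT₁ (minC_cj hT₁ (h : G)) (Ne.symm heq) k (hK hk) x hx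
            rw [← this, mul_inv_cancel_right]
            exact hk
        · intro k hk
          rw [one_mul, inv_one, mul_one]
          exact hk
        · intro x y hx hy k hk
          have e : x * y * k * (x * y)⁻¹ = x * (y * k * y⁻¹) * x⁻¹ := by group
          rw [e]
          exact hx _ (hy k hk)
      exact hT₁.eq_of_le ⟨hK.trans hT₁.1.1, hKN, hK1⟩ hK
  exact lemmaU α T₁ (centralizer (T₁ : Set G)) hE.max hE.ne hsimple hT₁na hT₁tr hT₁reg hCT hCtr
    hconj (crit T₁)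

/-- **Main theorem** (subgroup form): an extremely primitive group is affine or almost simple,
modulo a Thompson-type normal `p`-complement criterion `crit`. -/
theorem main {α : Ω} (hE : EP G Ω α)
    (crit : ∀ (T : Subgroup G) (p : ℕ) [Fact p.Prime], p ≠ 2 → ∀ P : Sylow p T,
      (∀ S : Subgroup T, S ≠ ⊥ → S ≤ P →
        (∀ ψ : T ≃* T, (∀ a ∈ (P : Subgroup T), ψ a ∈ (P : Subgroup T)) → ∀ a ∈ S, ψ a ∈ S) →
        normalizer (S : Set T) ≤ P) →
      centralizer (((P : Subgroup T) ⊓ centralizer ((P : Subgroup T) : Set T) : Subgroup T) : Set T)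
        ≤ P →
      Cfsg.HasNormalPComplement p T) :
    (∃ N : Subgroup G, N.Normal ∧ N ≠ ⊥ ∧ (∀ a ∈ N, ∀ b ∈ N, a * b = b * a) ∧
        ∀ n ∈ N, ∀ ω : Ω, n • ω = ω → n = 1) ∨
    (∃ T : Subgroup G, T.Normal ∧
        (∀ K : Subgroup G, K ≤ T → (∀ t ∈ T, ∀ k ∈ K, t * k * t⁻¹ ∈ K) → K = ⊥ ∨ K = T) ∧
        (∃ a ∈ T, ∃ b ∈ T, a * b ≠ b * a) ∧ centralizer (T : Set G) = ⊥) := by
  classical
  have htop : (⊤ : Subgroup G) ≠ ⊥ := by
    intro h
    apply hE.coatom.1
    rw [eq_top_iff, h]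
    exact bot_le
  have hex : ∃ m, ∃ N : Subgroup G, (N.Normal ∧ N ≠ ⊥) ∧ Nat.card N = m :=
    ⟨_, ⊤, ⟨inferInstance, htop⟩, rfl⟩
  obtain ⟨N, ⟨hNn, hN1⟩, hNc⟩ := Nat.find_spec hex
  have hNmin : ∀ K : Subgroup G, K.Normal → K ≠ ⊥ → Nat.card N ≤ Nat.card K :=
    fun K hK hK1 => by rw [hNc]; exact Nat.find_min' hex ⟨K, ⟨hK, hK1⟩, rfl⟩
  haveI := hNn
  have hmin : ∀ K : Subgroup G, K ≤ N → K.Normal → K = ⊥ ∨ K = N := by
    intro K hK hKn
    by_cases hK1 : K = ⊥
    · exact Or.inl hK1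
    · exact Or.inr (Subgroup.eq_of_le_of_card_ge hK (hNmin K hKn hK1))
  have hNtr := trans_of_normal hE N hN1
  by_cases hab : ∀ a ∈ N, ∀ b ∈ N, a * b = b * a
  · left
    refine ⟨N, hNn, hN1, hab, ?_⟩
    intro n hn ω hω
    exact eq_one_of_commute_trans hE.faith α N hNtr n (fun c hc => hab n hn c hc) ω hω
  · right
    push Not at hab
    have hnab : ∃ a ∈ N, ∃ b ∈ N, a * b ≠ b * a := hab
    haveI hCn : (centralizer (N : Set G)).Normal := by
      constructor
      intro c hc g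
      rw [Subgroup.mem_centralizer_iff] at hc ⊢
      intro n hn
      have hn' : g⁻¹ * n * g ∈ N := by simpa using hNn.conj_mem n hn g⁻¹
      have := hc _ hn'
      calc n * (g * c * g⁻¹) = g * ((g⁻¹ * n * g) * c) * g⁻¹ := by group
        _ = g * (c * (g⁻¹ * n * g)) * g⁻¹ := by rw [this]
        _ = g * c * g⁻¹ * n := by group
    by_cases hreg : N ⊓ stabilizer G α = ⊥
    · have hreg' : ∀ n ∈ N, n • α = α → n = 1 := by
        intro n hn hnα
        have : n ∈ N ⊓ stabilizer G α := Subgroup.mem_inf.mpr ⟨hn, hnα⟩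
        rw [hreg, Subgroup.mem_bot] at this
        exact this
      have irr : ∀ R : Subgroup G, R ≤ N →
          (∀ h ∈ stabilizer G α, ∀ r ∈ R, h * r * h⁻¹ ∈ R) → R = ⊥ ∨ R = N := by
        intro R hR hRn
        have hle : stabilizer G α ≤ R ⊔ stabilizer G α := le_sup_right
        rcases hE.coatom.le_iff.mp hle with h | h
        · right
          apply le_antisymm hR
          intro n hn
          have hnm : n ∈ R ⊔ stabilizer G α := by rw [h]; trivial
          obtain ⟨r, hr, s, hs, rfl⟩ := mem_sup_of_normalizes R (stabilizer G α) hRn hnm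
          have hsN : s ∈ N := by
            have := N.mul_mem (N.inv_mem (hR hr)) hn
            simpa using this
          have := hreg' s hsN (mem_stabilizer_iff.mp hs)
          rw [this, mul_one]
          exact hr
        · left
          rw [Subgroup.eq_bot_iff_forall]
          intro r hr
          have : r ∈ stabilizer G α := by rw [← h]; exact Subgroup.mem_sup_left hr
          exact hreg' r (hR hr) (mem_stabilizer_iff.mp this)
      have hA : ∀ x ∈ N, stabilizer G α ⊓ cent x = stabilizer G α ⊓ stabilizer G (x • α) := by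
        intro x hx
        ext g
        rw [Subgroup.mem_inf, Subgroup.mem_inf, mem_cent, mem_stabilizer_iff,
          mem_stabilizer_iff]
        constructor
        · rintro ⟨hg, hgx⟩
          refine ⟨hg, ?_⟩
          rw [← mul_smul, hgx.eq, mul_smul, hg]
        · rintro ⟨hg, hgx⟩
          refine ⟨hg, ?_⟩
          have h1 : (x⁻¹ * (g * x * g⁻¹)) • α = α := by
            rw [mul_smul, mul_smul, mul_smul, inv_smul_eq_iff.mpr hg.symm, hgx, inv_smul_smul]
          have h2 := hreg' _ (N.mul_mem (N.inv_mem hx) (hNn.conj_mem x hx g)) h1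
          have h3 : g * x * g⁻¹ = x := (inv_mul_eq_one.mp h2).symm
          exact mul_inv_eq_iff_eq_mul.mp h3
      have hxα : ∀ x ∈ N, x ≠ 1 → x • α ≠ α := fun x hx hx1 h => hx1 (hreg' x hx h)
      have cmax : ∀ x ∈ N, x ≠ 1 → ∀ L : Subgroup G, stabilizer G α ⊓ cent x ≤ L →
          L ≤ stabilizer G α → L = stabilizer G α ⊓ cent x ∨ L = stabilizer G α := by
        intro x hx hx1 L hL1 hL2
        rw [hA x hx] at hL1 ⊢
        exact hE.max _ (hxα x hx hx1) L hL1 hL2
      have cne : ∀ x ∈ N, x ≠ 1 → ¬ stabilizer G α ≤ cent x := by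
        intro x hx hx1 hle
        apply hE.ne _ (hxα x hx hx1)
        intro g hg
        have : g ∈ stabilizer G α ⊓ cent x := Subgroup.mem_inf.mpr ⟨hg, hle hg⟩
        rw [hA x hx] at this
        exact (Subgroup.mem_inf.mp this).2
      have hfaith : ∀ h ∈ stabilizer G α, (∀ n ∈ N, h * n = n * h) → h = 1 := by
        intro h hh hc
        apply hE.faith
        intro ω
        obtain ⟨n, hn, hnω⟩ := hNtr ω
        rw [← hnω, ← mul_smul, hc n hn, mul_smul, mem_stabilizer_iff.mp hh]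
      have hsimple := lemmaR N (stabilizer G α) irr cmax cne hfaith hnab
      by_cases hC : centralizer (N : Set G) = ⊥
      · exact ⟨N, hNn, hsimple, hnab, hC⟩
      · exfalso
        have hCtr := trans_of_normal hE (centralizer (N : Set G)) hC
        exact lemmaU α N (centralizer (N : Set G)) hE.max hE.ne hsimple hnab hNtr hreg'
          (fun c hc t ht => (Subgroup.mem_centralizer_iff.mp hc t ht).symm) hCtr
          (fun h _ => Or.inl (fun t ht => hNn.conj_mem t ht h)) (crit N)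
    · have hC : centralizer (N : Set G) = ⊥ := by
        by_contra hC
        have hCtr := trans_of_normal hE (centralizer (N : Set G)) hC
        apply hreg
        rw [Subgroup.eq_bot_iff_forall]
        intro n hn
        obtain ⟨hn1, hn2⟩ := Subgroup.mem_inf.mp hn
        exact eq_one_of_commute_trans hE.faith α _ hCtr n
          (fun c hc => (Subgroup.mem_centralizer_iff.mp hc n hn1)) α (mem_stabilizer_iff.mp hn2)
      by_cases hs : ∀ K : Subgroup G, K ≤ N → (∀ n ∈ N, ∀ k ∈ K, n * k * n⁻¹ ∈ K) →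
          K = ⊥ ∨ K = N
      · exact ⟨N, hNn, hs, hnab, hC⟩
      · exact (lemmaS hE N hmin hnab hreg hs crit).elim

end top

end Cfsg.Agent.Lib.Helper58.EPRed
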