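import Mathlib
import Cfsg.Agent.Lib.Helper58.EPRed

/-!
# Extremely primitive groups are affine or almost simple (helper58)

`ep_main`: the statement of S3493 modulo a Thompson-type normal `p`-complement criterion.
-/

set_option autoImplicit false
set_option linter.unusedSectionVars false
set_option linter.style.haveILetI false

namespace Cfsg.Agent.Lib.Helper58.EPFinal

open MulAction Subgroup
open Cfsg.Agent.Lib.Helper58.EPRed

theorem isSimpleGroup_of_internal {G : Type*} [Group G] (T : Subgroup G)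
    (hTs : ∀ K : Subgroup G, K ≤ T → (∀ t ∈ T, ∀ k ∈ K, t * k * t⁻¹ ∈ K) → K = ⊥ ∨ K = T)
    (hTna : ∃ a ∈ T, ∃ b ∈ T, a * b ≠ b * a) : IsSimpleGroup T := by
  haveI : Nontrivial T := by
    obtain ⟨a, ha, b, hb, hab⟩ := hTna
    refine ⟨⟨⟨a, ha⟩, 1, ?_⟩⟩
    intro h
    apply hab
    have h1 : a = 1 := congrArg Subtype.val h
    rw [h1, one_mul, mul_one]
  refine ⟨fun K hK => ?_⟩
  have := hTs (K.map T.subtype) (Subgroup.map_subtype_le K) (by
    rintro t ht _ ⟨k, hk, rfl⟩
    exact ⟨⟨t, ht⟩ * k * ⟨t, ht⟩⁻¹, hK.conj_mem k hk ⟨t, ht⟩, rfl⟩)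
  rcases this with h | h
  · left
    exact (Subgroup.map_eq_bot_iff_of_injective K T.subtype_injective).mp h
  · right
    rw [eq_top_iff]
    intro k _
    have hk : (k : G) ∈ K.map T.subtype := by rw [h]; exact k.2
    obtain ⟨k', hk', hkk⟩ := hk
    have : k' = k := Subtype.ext hkk
    rwa [← this]

section

variable {G : Type*} [Group G] [Finite G] {Ω : Type*} [Fintype Ω] [MulAction G Ω]
  [FaithfulSMul G Ω]

theorem fix_all_of_normal (hprim : IsPreprimitive G Ω) (α : Ω)
    (hn : (stabilizer G α).Normal) : stabilizer G α = ⊥ := by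
  haveI := hprim.toIsPretransitive
  rw [Subgroup.eq_bot_iff_forall]
  intro k hk
  apply FaithfulSMul.eq_of_smul_eq_smul (α := Ω)
  intro ω
  obtain ⟨g, hg⟩ := MulAction.exists_smul_eq G α ω
  have h1 : g⁻¹ * k * g ∈ stabilizer G α := by simpa using hn.conj_mem k hk g⁻¹
  rw [mem_stabilizer_iff] at h1
  rw [one_smul, ← hg]
  calc k • g • α = g • (g⁻¹ * k * g) • α := by simp [mul_smul]
    _ = g • α := by rw [h1]

theorem ep_of_hyp (hΩ : 2 ≤ Fintype.card Ω) (hprim : IsPreprimitive G Ω)
    (hep : ∀ (α : Ω) (ω : Ω), IsPreprimitive (stabilizer G α) (orbit (stabilizer G α) ω))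
    (α : Ω) (hH : stabilizer G α ≠ ⊥) : EP G Ω α := by
  haveI : Nontrivial Ω := Fintype.one_lt_card_iff_nontrivial.mp (by omega)
  haveI := hprim
  haveI := hprim.toIsPretransitive
  have hco : ∀ β : Ω, IsCoatom (stabilizer G β) :=
    fun β => IsPreprimitive.isCoatom_stabilizer_of_isPreprimitive G β
  have hne : ∀ ω : Ω, ω ≠ α → ¬ stabilizer G α ≤ stabilizer G ω := by
    intro ω hω hle
    have heq : stabilizer G ω = stabilizer G α := by
      rcases (hco α).le_iff.mp hle with h | h
      · exact absurd h (hco ω).1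
      · exact h
    obtain ⟨g, hg⟩ := MulAction.exists_smul_eq G α ω
    have hgn : g ∈ normalizer ((stabilizer G α : Subgroup G) : Set G) := by
      apply mem_normalizer_of_conj
      intro k hk
      rw [← heq, mem_stabilizer_iff, ← hg, mul_smul, mul_smul, inv_smul_smul,
        mem_stabilizer_iff.mp hk]
    rcases (hco α).le_iff.mp (Subgroup.le_normalizer) with h | h
    · apply hH
      apply fix_all_of_normal hprim α
      exact Subgroup.normalizer_eq_top_iff.mp h
    · rw [h] at hgn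
      exact hω (by rw [← hg]; exact mem_stabilizer_iff.mp hgn)
  refine ⟨?_, fun ω => MulAction.exists_smul_eq G α ω, hco α, ?_, hne⟩
  · intro g hg
    apply FaithfulSMul.eq_of_smul_eq_smul (α := Ω)
    intro ω
    rw [hg, one_smul]
  · intro ω hω L hL1 hL2
    haveI := hep α ω
    obtain ⟨h, hh, hhω⟩ : ∃ h ∈ stabilizer G α, h • ω ≠ ω := by
      by_contra hc
      push Not at hc
      exact hne ω hω (fun h hh => mem_stabilizer_iff.mpr (hc h hh))
    haveI : Nontrivial (orbit (stabilizer G α) ω) :=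
      ⟨⟨⟨ω, mem_orbit_self ω⟩, ⟨(⟨h, hh⟩ : stabilizer G α) • ω, mem_orbit _ _⟩,
        fun heq => hhω (congrArg Subtype.val heq).symm⟩⟩
    have hc := IsPreprimitive.isCoatom_stabilizer_of_isPreprimitive
      (G := stabilizer G α) (X := orbit (stabilizer G α) ω) ⟨ω, mem_orbit_self ω⟩
    have hmem : ∀ k : stabilizer G α,
        k ∈ stabilizer (stabilizer G α) (⟨ω, mem_orbit_self ω⟩ : orbit (stabilizer G α) ω) ↔
          (k : G) • ω = ω := by
      intro k
      rw [mem_stabilizer_iff, Subtype.ext_iff]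
      rfl
    have hle : stabilizer (stabilizer G α) (⟨ω, mem_orbit_self ω⟩ : orbit (stabilizer G α) ω) ≤
        L.subgroupOf (stabilizer G α) := by
      intro k hk
      rw [Subgroup.mem_subgroupOf]
      exact hL1 (Subgroup.mem_inf.mpr ⟨k.2, mem_stabilizer_iff.mpr ((hmem k).mp hk)⟩)
    rcases hc.le_iff.mp hle with h' | h'
    · right
      apply le_antisymm hL2
      intro g hg
      have : (⟨g, hg⟩ : stabilizer G α) ∈ L.subgroupOf (stabilizer G α) := by
        rw [h']; trivial
      exact Subgroup.mem_subgroupOf.mp this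
    · left
      apply le_antisymm _ hL1
      intro l hl
      refine Subgroup.mem_inf.mpr ⟨hL2 hl, ?_⟩
      have : (⟨l, hL2 hl⟩ : stabilizer G α) ∈ L.subgroupOf (stabilizer G α) :=
        Subgroup.mem_subgroupOf.mpr hl
      rw [h'] at this
      exact mem_stabilizer_iff.mpr ((hmem _).mp this)

/-- S3493 modulo the normal `p`-complement criterion `crit`. -/
theorem ep_main (hΩ : 2 ≤ Fintype.card Ω) (hprim : IsPreprimitive G Ω)
    (hep : ∀ (α : Ω) (ω : Ω), IsPreprimitive (stabilizer G α) (orbit (stabilizer G α) ω))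
    (crit : ∀ (T : Subgroup G) (p : ℕ) [Fact p.Prime], p ≠ 2 → ∀ P : Sylow p T,
      (∀ S : Subgroup T, S ≠ ⊥ → S ≤ P →
        (∀ ψ : T ≃* T, (∀ a ∈ (P : Subgroup T), ψ a ∈ (P : Subgroup T)) → ∀ a ∈ S, ψ a ∈ S) →
        normalizer (S : Set T) ≤ P) →
      centralizer (((P : Subgroup T) ⊓ centralizer ((P : Subgroup T) : Set T) : Subgroup T) : Set T)
        ≤ P →
      Cfsg.HasNormalPComplement p T) :
    (∃ N : Subgroup G, N.Normal ∧ N ≠ ⊥ ∧ IsMulCommutative N ∧
        ∀ ω : Ω, MulAction.stabilizer N ω = ⊥) ∨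
    (∃ T : Subgroup G, T.Normal ∧ IsSimpleGroup T ∧ ¬ IsMulCommutative T ∧
        Subgroup.centralizer (T : Set G) = ⊥) := by
  haveI : Nontrivial Ω := Fintype.one_lt_card_iff_nontrivial.mp (by omega)
  haveI := hprim
  haveI := hprim.toIsPretransitive
  obtain ⟨α⟩ := (inferInstance : Nonempty Ω)
  by_cases hH : stabilizer G α = ⊥
  · left
    have hco : IsCoatom (stabilizer G α) :=
      IsPreprimitive.isCoatom_stabilizer_of_isPreprimitive G α
    rw [hH] at hco
    have htop : (⊤ : Subgroup G) ≠ ⊥ := fun h => hco.1 h.symm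
    obtain ⟨g, hg1⟩ : ∃ g : G, g ≠ 1 := by
      by_contra hc
      push Not at hc
      exact htop ((Subgroup.eq_bot_iff_forall _).mpr (fun x _ => hc x))
    have hz : Subgroup.zpowers g = ⊤ := by
      rcases hco.le_iff.mp (bot_le : ⊥ ≤ Subgroup.zpowers g) with h | h
      · exact h
      · exfalso
        apply hg1
        have : g ∈ Subgroup.zpowers g := Subgroup.mem_zpowers g
        rw [h, Subgroup.mem_bot] at this
        exact this
    have hcomm : ∀ a b : G, a * b = b * a := by
      intro a b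
      have ha : a ∈ Subgroup.zpowers g := by rw [hz]; trivial
      have hb : b ∈ Subgroup.zpowers g := by rw [hz]; trivial
      obtain ⟨i, rfl⟩ := Subgroup.mem_zpowers_iff.mp ha
      obtain ⟨j, rfl⟩ := Subgroup.mem_zpowers_iff.mp hb
      exact zpow_mul_comm g i j
    refine ⟨⊤, inferInstance, htop, ⟨⟨fun a b => Subtype.ext (hcomm a b)⟩⟩, fun ω => ?_⟩
    rw [Subgroup.eq_bot_iff_forall]
    intro n hn
    obtain ⟨x, hx⟩ := MulAction.exists_smul_eq G α ω
    have h1 : (n : G) • ω = ω := mem_stabilizer_iff.mp hn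
    have h2 : x⁻¹ * (n : G) * x ∈ stabilizer G α := by
      rw [mem_stabilizer_iff, mul_smul, mul_smul, hx, h1, ← hx, inv_smul_smul]
    rw [hH, Subgroup.mem_bot] at h2
    have h3 : (n : G) = 1 := by
      have : x * (x⁻¹ * (n : G) * x) * x⁻¹ = x * 1 * x⁻¹ := by rw [h2]
      simpa [mul_assoc] using this
    exact Subtype.ext h3
  · have hE := ep_of_hyp hΩ hprim hep α hH
    rcases main hE crit with ⟨N, hNn, hN1, hab, hsr⟩ | ⟨T, hTn, hTs, hTna, hTc⟩
    · left
      refine ⟨N, hNn, hN1, ⟨⟨fun a b => Subtype.ext (hab a a.2 b b.2)⟩⟩, fun ω => ?_⟩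
      rw [Subgroup.eq_bot_iff_forall]
      intro n hn
      have h1 : (n : G) • ω = ω := mem_stabilizer_iff.mp hn
      exact Subtype.ext (hsr n n.2 ω h1)
    · right
      refine ⟨T, hTn, isSimpleGroup_of_internal T hTs hTna, ?_, hTc⟩
      intro hc
      obtain ⟨a, ha, b, hb, hab⟩ := hTna
      apply hab
      have := hc.is_comm.comm (⟨a, ha⟩ : T) ⟨b, hb⟩
      exact congrArg Subtype.val this

end

end Cfsg.Agent.Lib.Helper58.EPFinal
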