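import Mathlib
import Cfsg.Agent.Lib.Helper60.HJStmt

/-!
# S3313 / CARD: `|C(z)| = 32 * 60`, `|C(t)| = 4 * 60`.
-/

set_option autoImplicit false

namespace Cfsg.Agent.Lib.Helper58.HJCARD

universe u

theorem card_alt5 : Nat.card (alternatingGroup (Fin 5)) = 60 := by
  have h := two_mul_card_alternatingGroup (α := Fin 5)
  rw [Fintype.card_perm, Fintype.card_fin] at h
  rw [Nat.card_eq_fintype_card]
  have : (5 : ℕ).factorial = 120 := by decide
  omega

/-- A product decomposition `C = A B` with `A ∩ B = 1` gives `|C| = |A| |B|`. -/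
theorem card_of_prod {G : Type u} [Group G] (z : G) (A B : Subgroup G)
    (hA : ∀ q ∈ A, q * z = z * q) (hB : ∀ k ∈ B, k * z = z * k)
    (hAB : ∀ c : G, c * z = z * c → ∃ q ∈ A, ∃ k ∈ B, c = q * k)
    (hinf : ∀ x ∈ A, x ∈ B → x = 1) :
    Nat.card (Subgroup.centralizer ({z} : Set G)) = Nat.card A * Nat.card B := by
  rw [← Nat.card_prod]
  symm
  refine Nat.card_congr (Equiv.ofBijective
    (fun p : A × B => (⟨(p.1 : G) * (p.2 : G), ?_⟩ : Subgroup.centralizer ({z} : Set G))) ⟨?_, ?_⟩)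
  · rw [Subgroup.mem_centralizer_singleton_iff]
    have h1 := hA p.1 p.1.2
    have h2 := hB p.2 p.2.2
    calc (p.1 : G) * (p.2 : G) * z = (p.1 : G) * ((p.2 : G) * z) := by rw [mul_assoc]
      _ = (p.1 : G) * (z * (p.2 : G)) := by rw [h2]
      _ = ((p.1 : G) * z) * (p.2 : G) := by rw [mul_assoc]
      _ = z * (p.1 : G) * (p.2 : G) := by rw [h1]
      _ = z * ((p.1 : G) * (p.2 : G)) := by rw [mul_assoc]
  · rintro ⟨⟨a, ha⟩, ⟨b, hb⟩⟩ ⟨⟨a', ha'⟩, ⟨b', hb'⟩⟩ h
    have h' : a * b = a' * b' := congrArg Subtype.val h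
    have e : a'⁻¹ * a = b' * b⁻¹ := by
      calc a'⁻¹ * a = a'⁻¹ * (a * b) * b⁻¹ := by group
        _ = a'⁻¹ * (a' * b') * b⁻¹ := by rw [h']
        _ = b' * b⁻¹ := by group
    have m1 : a'⁻¹ * a ∈ A := A.mul_mem (A.inv_mem ha') ha
    have m2 : a'⁻¹ * a ∈ B := by rw [e]; exact B.mul_mem hb' (B.inv_mem hb)
    have h1 : a'⁻¹ * a = 1 := hinf _ m1 m2
    have ea : a = a' := by
      have := congrArg (fun x => a' * x) h1
      simpa using this
    have eb : b = b' := by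
      subst ea
      exact mul_left_cancel h'
    subst ea; subst eb; rfl
  · rintro ⟨c, hc⟩
    rw [Subgroup.mem_centralizer_singleton_iff] at hc
    obtain ⟨q, hq, k, hk, e⟩ := hAB c hc
    exact ⟨(⟨q, hq⟩, ⟨k, hk⟩), Subtype.ext e.symm⟩

theorem main : Cfsg.Agent.Lib.Helper60.HJStmt.Card.{u} := by
  intro G _ _ z t Q K V B h
  obtain ⟨eK⟩ := h.hK
  obtain ⟨eB⟩ := h.hB
  have cK : Nat.card K = 60 := by rw [Nat.card_congr eK.toEquiv]; exact card_alt5
  have cB : Nat.card B = 60 := by rw [Nat.card_congr eB.toEquiv]; exact card_alt5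
  constructor
  · rw [card_of_prod z Q K h.Q_le h.K_le h.QK h.QK_inf, h.Q_card, cK]
  · rw [card_of_prod t V B h.V_le h.B_le h.VB h.VB_inf, h.V_card, cB]

end Cfsg.Agent.Lib.Helper58.HJCARD
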