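import Mathlib

/-!
An endomorphism `c` of finite order of a finite vector space `A` over `ZMod p` that leaves no
proper nonzero subspace invariant: the algebra `F_p[c]` is a field with `|A|` elements.
Consequences (`irred_cyclic`):
* if `c ^ q = 1` and `|A| = p ^ d` then `q` divides no `p ^ i - 1` with `0 < i < d`;
* if an invertible endomorphism conjugates `c` to `c ^ k` then `c ^ k = c ^ (p ^ j)` for some `j`.
-/

set_option autoImplicit false

namespace Cfsg.Agent.Lib.Helper58.IrredCyclic

open Polynomial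

variable {p : ℕ} [Fact p.Prime] {A : Type*} [AddCommGroup A] [Module (ZMod p) A]

/-- Conjugation by an invertible endomorphism, as an algebra homomorphism. -/
def conjAlg (u u' : Module.End (ZMod p) A) (huu' : u * u' = 1) (hu'u : u' * u = 1) :
    Module.End (ZMod p) A →ₐ[ZMod p] Module.End (ZMod p) A where
  toFun s := u * s * u'
  map_one' := by rw [mul_one, huu']
  map_mul' s s' := by
    calc u * (s * s') * u' = u * s * 1 * s' * u' := by noncomm_ring
      _ = u * s * (u' * u) * s' * u' := by rw [hu'u]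
      _ = u * s * u' * (u * s' * u') := by noncomm_ring
  map_zero' := by simp
  map_add' s s' := by noncomm_ring
  commutes' a := by
    rw [← Algebra.commutes, mul_assoc, huu', mul_one]

theorem conjAlg_apply (u u' : Module.End (ZMod p) A) (huu' : u * u' = 1) (hu'u : u' * u = 1)
    (s : Module.End (ZMod p) A) : conjAlg u u' huu' hu'u s = u * s * u' := rfl

theorem irred_cyclic [Finite A] (c : Module.End (ZMod p) A) (d q : ℕ) (hA : Nat.card A = p ^ d)
    (hd : 0 < d) (hcq : c ^ q = 1)
    (hirr : ∀ W : Submodule (ZMod p) A, (∀ w ∈ W, c w ∈ W) → W = ⊥ ∨ W = ⊤) :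
    (∀ i, 0 < i → i < d → ¬ q ∣ p ^ i - 1) ∧
    (∀ (u u' : Module.End (ZMod p) A) (k : ℕ), u * u' = 1 → u' * u = 1 → u * c * u' = c ^ k →
      ∃ j : ℕ, c ^ k = c ^ (p ^ j)) := by
  classical
  have hp : p.Prime := Fact.out
  have hnt : Nontrivial A := by
    rw [← Finite.one_lt_card_iff_nontrivial, hA]
    exact Nat.one_lt_pow hd.ne' hp.one_lt
  let φ : (ZMod p)[X] →ₐ[ZMod p] Module.End (ZMod p) A := aeval c
  have hφX : φ X = c := aeval_X c
  have hcomm : ∀ f, φ f * c = c * φ f := by
    intro f
    rw [← hφX, ← map_mul, ← map_mul, mul_comm]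
  have hker : ∀ f, φ f = 0 ∨ Function.Injective (φ f) := by
    intro f
    rcases hirr (LinearMap.ker (φ f)) (by
      intro w hw
      rw [LinearMap.mem_ker] at hw ⊢
      have := congrArg (fun s : Module.End (ZMod p) A => s w) (hcomm f)
      simp only [Module.End.mul_apply] at this
      rw [this, hw, map_zero]) with h | h
    · right; exact LinearMap.ker_eq_bot.mp h
    · left; exact LinearMap.ker_eq_top.mp h
  have hprime : (RingHom.ker φ).IsPrime := by
    constructor
    · intro htop
      have h1 : (1 : (ZMod p)[X]) ∈ RingHom.ker φ := by rw [htop]; trivial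
      rw [RingHom.mem_ker, map_one] at h1
      obtain ⟨v, hv⟩ := exists_ne (0 : A)
      have := congrArg (fun s : Module.End (ZMod p) A => s v) h1
      simp at this
      exact hv this
    · intro f g hfg
      rw [RingHom.mem_ker, map_mul] at hfg
      rcases hker f with h | h
      · left; exact h
      · right
        rw [RingHom.mem_ker]
        ext w
        apply h
        have := congrArg (fun s : Module.End (ZMod p) A => s w) hfg
        simpa using this
  have hι : Function.Injective (Ideal.kerLiftAlg φ) := Ideal.kerLiftAlg_injective φ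
  have hfinEnd : Finite (Module.End (ZMod p) A) :=
    Finite.of_injective (fun f : Module.End (ZMod p) A => (f : A → A)) DFunLike.coe_injective
  have hfinK : Finite ((ZMod p)[X] ⧸ RingHom.ker φ) := Finite.of_injective _ hι
  have hmax : (RingHom.ker φ).IsMaximal :=
    Ideal.Quotient.maximal_of_isField _ (Finite.isField_of_domain _)
  let _ : Field ((ZMod p)[X] ⧸ RingHom.ker φ) := Ideal.Quotient.field _
  -- the generator
  have hιx : Ideal.kerLiftAlg φ (Ideal.Quotient.mk (RingHom.ker φ) X) = c := by
    rw [Ideal.kerLiftAlg_mk, hφX]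
  -- |K| = p ^ d
  obtain ⟨v, hv⟩ := exists_ne (0 : A)
  have hbij : Function.Bijective
      (fun y : (ZMod p)[X] ⧸ RingHom.ker φ => Ideal.kerLiftAlg φ y v) := by
    constructor
    · intro y y' h
      by_contra hne
      have h0 : Ideal.kerLiftAlg φ (y - y') v = 0 := by
        rw [map_sub, LinearMap.sub_apply, sub_eq_zero]; exact h
      have hinv : (y - y')⁻¹ * (y - y') = 1 := inv_mul_cancel₀ (sub_ne_zero.mpr hne)
      have h1 := congrArg (fun s => Ideal.kerLiftAlg φ s v) hinv
      simp only [map_mul, map_one, Module.End.mul_apply, Module.End.one_apply] at h1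
      rw [h0, map_zero] at h1
      exact hv h1.symm
    · let W : Submodule (ZMod p) A :=
        { carrier := Set.range (fun y : (ZMod p)[X] ⧸ RingHom.ker φ => Ideal.kerLiftAlg φ y v)
          add_mem' := by
            rintro _ _ ⟨y, rfl⟩ ⟨y', rfl⟩
            exact ⟨y + y', by simp⟩
          zero_mem' := ⟨0, by simp⟩
          smul_mem' := by
            rintro a _ ⟨y, rfl⟩
            exact ⟨a • y, by simp⟩ }
      have hW : ∀ w ∈ W, c w ∈ W := by
        rintro _ ⟨y, rfl⟩
        refine ⟨Ideal.Quotient.mk (RingHom.ker φ) X * y, ?_⟩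
        simp only [map_mul, Module.End.mul_apply]
        rw [hιx]
      rcases hirr W hW with h | h
      · exfalso
        have hvW : v ∈ W := ⟨1, by simp⟩
        rw [h, Submodule.mem_bot] at hvW
        exact hv hvW
      · intro a
        have : a ∈ W := by rw [h]; trivial
        exact this
  have hcardK : Nat.card ((ZMod p)[X] ⧸ RingHom.ker φ) = p ^ d :=
    (Nat.card_congr (Equiv.ofBijective _ hbij)).trans hA
  have hfr : Module.finrank (ZMod p) ((ZMod p)[X] ⧸ RingHom.ker φ) = d := by
    have h1 := Module.natCard_eq_pow_finrank (K := ZMod p)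
      (V := (ZMod p)[X] ⧸ RingHom.ker φ)
    rw [hcardK, Nat.card_zmod] at h1
    exact (Nat.pow_right_injective hp.two_le h1).symm
  -- Frobenius
  have hFr : ∀ (n : ℕ) (y : (ZMod p)[X] ⧸ RingHom.ker φ),
      (FiniteField.frobeniusAlgHom (ZMod p) ((ZMod p)[X] ⧸ RingHom.ker φ) ^ n) y = y ^ (p ^ n) := by
    intro n y
    rw [AlgHom.coe_pow, FiniteField.coe_frobeniusAlgHom, pow_iterate, ZMod.card]
  have hxq : (Ideal.Quotient.mk (RingHom.ker φ) X) ^ q = 1 := by
    apply hι
    rw [map_pow, hιx, hcq, map_one]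
  constructor
  · intro i hi hid hdvd
    obtain ⟨m, hm⟩ := hdvd
    have hpi : p ^ i = 1 + q * m := by
      have : 1 ≤ p ^ i := Nat.one_le_pow _ _ hp.pos
      omega
    have hx : (FiniteField.frobeniusAlgHom (ZMod p) ((ZMod p)[X] ⧸ RingHom.ker φ) ^ i)
        (Ideal.Quotient.mk (RingHom.ker φ) X) = Ideal.Quotient.mk (RingHom.ker φ) X := by
      rw [hFr, hpi, pow_add, pow_one, pow_mul, hxq, one_pow, mul_one]
    have hone : FiniteField.frobeniusAlgHom (ZMod p) ((ZMod p)[X] ⧸ RingHom.ker φ) ^ i = 1 := by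
      apply Ideal.Quotient.algHom_ext
      apply Polynomial.algHom_ext
      simp only [AlgHom.comp_apply, Ideal.Quotient.mkₐ_eq_mk]
      rw [hx]
      rfl
    have h1 := orderOf_dvd_of_pow_eq_one hone
    rw [FiniteField.orderOf_frobeniusAlgHom, hfr] at h1
    exact absurd (Nat.le_of_dvd hi h1) (by omega)
  · intro u u' k huu' hu'u hconj
    have hI : ∀ f : (ZMod p)[X], f ∈ RingHom.ker φ →
        aeval ((Ideal.Quotient.mk (RingHom.ker φ) X) ^ k) f = 0 := by
      intro f hf
      apply hι
      rw [map_zero, ← Polynomial.aeval_algHom_apply, map_pow, hιx, ← hconj,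
        ← conjAlg_apply u u' huu' hu'u, Polynomial.aeval_algHom_apply]
      rw [RingHom.mem_ker] at hf
      have : aeval c f = 0 := hf
      rw [this, map_zero]
    let θ : ((ZMod p)[X] ⧸ RingHom.ker φ) →ₐ[ZMod p] ((ZMod p)[X] ⧸ RingHom.ker φ) :=
      Ideal.Quotient.liftₐ (RingHom.ker φ) (aeval ((Ideal.Quotient.mk (RingHom.ker φ) X) ^ k)) hI
    have hθ : θ (Ideal.Quotient.mk (RingHom.ker φ) X) = (Ideal.Quotient.mk (RingHom.ker φ) X) ^ k := by
      have h0 : θ (Ideal.Quotient.mk (RingHom.ker φ) X) =
          aeval ((Ideal.Quotient.mk (RingHom.ker φ) X) ^ k) (X : (ZMod p)[X]) := rfl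
      rw [h0, aeval_X]
    obtain ⟨n, hn⟩ := (FiniteField.bijective_frobeniusAlgHom_pow (ZMod p)
      ((ZMod p)[X] ⧸ RingHom.ker φ)).2 θ
    refine ⟨n.1, ?_⟩
    have h2 := congrArg (fun g : ((ZMod p)[X] ⧸ RingHom.ker φ) →ₐ[ZMod p]
      ((ZMod p)[X] ⧸ RingHom.ker φ) => g (Ideal.Quotient.mk (RingHom.ker φ) X)) hn
    simp only at h2
    rw [hFr, hθ] at h2
    have h3 := congrArg (Ideal.kerLiftAlg φ) h2
    rw [map_pow, map_pow, hιx] at h3
    exact h3.symm

end Cfsg.Agent.Lib.Helper58.IrredCyclic
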