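import Mathlib
import Cfsg.Agent.Lib.Helper87.PCStmt

/-!
Piece AUTD of S5243: `Aut_D(S)` consists of the elements of `Aut_F(S)` restricting to an element
of `K`.
-/

set_option autoImplicit false
set_option linter.style.haveILetI false

namespace Cfsg.Agent.Lib.Helper58.PCAUTD

open Cfsg Cfsg.FusionSystem Cfsg.Agent.H85 Cfsg.Agent.Lib.Helper87.PCStmt

universe u

/-- A map of a fusion system over a finite `S` with source `S` is onto `S`. -/
theorem range_eq_self {Ω : Type*} [Group Ω] {S : Subgroup Ω} [Finite S] (F : FusionSystem S)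
    {φ : S →* Ω} (hφ : φ ∈ F.Hom S) : φ.range = S := by
  have hle : φ.range ≤ S := by
    rintro _ ⟨x, rfl⟩
    exact (F.le_of_mem hφ).2 x
  apply Subgroup.eq_of_le_of_card_ge hle
  exact (Nat.card_congr (MonoidHom.ofInjective (F.injective_of_mem hφ)).toEquiv).le

/-- `S` is centric in any fusion system over the finite `S`. -/
theorem isCentric_self' {Ω : Type*} [Group Ω] {S : Subgroup Ω} [Finite S] (F : FusionSystem S) :
    F.IsCentric S := by
  refine ⟨le_rfl, ?_⟩
  rintro Q ⟨φ, hφ, rfl⟩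
  rw [range_eq_self F hφ]
  exact inf_le_left

theorem main : AutD.{u} := by
  intro Ω _ S T _ p _ F E K c α
  have hTS : T ≤ S := c.hTS
  haveI : Finite T := Finite.of_injective (Subgroup.inclusion hTS) (Subgroup.inclusion_injective hTS)
  constructor
  · intro hα
    have hαD := (mem_autGroup_iff c.D le_rfl α).mp hα
    have hαB := c.D_le_B S hαD
    have hαF : S.subtype.comp α.toMonoidHom ∈ F.Hom S := c.B_le_F S hαB
    refine ⟨(mem_autGroup_iff F le_rfl α).mpr hαF, ?_⟩
    have hgood := ((c.mem_B_iff _).mp hαB).2 T hTS le_rfl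
    obtain ⟨κ, hκ, φ₀, hφ₀, hφκ⟩ := hgood
    have hr : φ₀.range = T := range_eq_self E hφ₀
    have he : isoOf E hφ₀ hr ∈ E.autGroup T :=
      (mem_autGroup_iff E le_rfl _).mpr (isIso_isoOf E hφ₀ hr)
    refine ⟨κ * isoOf E hφ₀ hr, K.mul_mem hκ (c.hEK he), fun t => ?_⟩
    have hT := (E.le_of_mem hφ₀).2
    have h1 := hφκ t (hT t)
    rw [MulAut.mul_apply]
    have e1 : (isoOf E hφ₀ hr t : T) = ⟨φ₀ t, hT t⟩ := Subtype.ext rfl
    rw [e1, ← h1]
    rfl
  · rintro ⟨hα, κ, hκ, hκα⟩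
    have hαF := (mem_autGroup_iff F le_rfl α).mp hα
    rw [mem_autGroup_iff c.D le_rfl α]
    have hS : S ∈ famH F E := by
      refine ⟨isCentric_self' F, ?_⟩
      have : S ⊓ T = T := inf_eq_right.mpr hTS
      rw [this]
      exact isCentric_self' E
    apply c.mem_D_of_mem_B hS
    rw [c.mem_B_iff]
    refine ⟨hαF, fun R hRS hRT => ?_⟩
    refine ⟨κ, hκ, R.subtype, subtype_mem E hRT, fun x hx => ?_⟩
    exact (hκα ⟨x, hRT x.2⟩).symm

end Cfsg.Agent.Lib.Helper58.PCAUTD
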