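import Mathlib
import Cfsg.Agent.Lib.Helper87.PCStmt

/-!
Piece CLOSEDD of S5243: an element of `Aut_F(S)` whose restriction to a member of `famH F E` is a
map of `D` lies in `Aut_D(S)`.
-/

set_option autoImplicit false
set_option linter.style.haveILetI false

namespace Cfsg.Agent.Lib.Helper58.PCCLOSEDD

open Cfsg Cfsg.FusionSystem Cfsg.Agent.H85 Cfsg.Agent.Lib.Helper87.PCStmt

universe u

theorem main : ClosedD.{u} := by
  intro Ω _ S T _ p _ F E K c hW hAutD α hα P hP hPS hres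
  have hTS : T ≤ S := c.hTS
  obtain ⟨γ, hγ, hγα⟩ := exists_resT F c.hT hα
  have hresB := c.D_le_B P hres
  have hgood := ((c.mem_B_iff _).mp hresB).2 (P ⊓ T) inf_le_left inf_le_right
  have hQ : E.IsCentric (P ⊓ T) := hP.2
  have hγK : γ ∈ K := by
    refine hW γ hγ (P ⊓ T) hQ ?_
    rw [c.mem_KS_iff]
    refine hgood.congr (fun x => ?_)
    rw [Cfsg.Agent.Lib.Helper88.PResStmt.resAut_apply]
    exact hγα ⟨x, hQ.1 x.2⟩
  exact (hAutD α).mpr ⟨hα, γ, hγK, hγα⟩

end Cfsg.Agent.Lib.Helper58.PCCLOSEDD
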