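import Mathlib
import Cfsg.Agent.Lib.Helper1.PDStmt

/-! S4020 piece EVENCORE. -/

set_option autoImplicit false
universe u

namespace Cfsg.Agent.Lib.Helper58.PDEVENCORE

open Cfsg.Agent.Lib.Helper1.PDStmt
open scoped Pointwise

theorem main (hS : SylB.{u}) (hC : CommZ.{u}) (hN : NonCent.{u}) (hW : Word.{u}) :
    EvenCore.{u} := by
  intro X _ _ p _ hp2 P hcard hexp z hz hz1 hzc b hb hnc hk
  obtain ⟨x₀, hx₀, hx₀b⟩ := hnc
  have hoz : orderOf z = p := orderOf_eq_prime (hexp z hz) hz1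
  have hb1 : b ≠ 1 := by
    intro h
    apply hx₀b
    rw [h, mul_one, one_mul]
  have hob : orderOf b = p := orderOf_eq_prime (hexp b hb) hb1
  have hbz : b ∉ Subgroup.zpowers z := by
    intro h
    obtain ⟨i, hi⟩ := Subgroup.mem_zpowers_iff.1 h
    apply hx₀b
    have hcm : Commute x₀ z := hzc x₀ hx₀
    rw [← hi]
    exact (hcm.zpow_right i).eq
  obtain ⟨a, ha⟩ := hC X p (P : Subgroup X) hcard z hz hoz hzc x₀ hx₀ b hb
  have hpa : ¬ p ∣ a := by
    rintro ⟨k, rfl⟩
    apply hx₀b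
    rw [pow_mul, hexp z hz, one_pow, mul_one] at ha
    calc x₀ * b = x₀ * b * x₀⁻¹ * x₀ := by group
      _ = b * x₀ := by rw [ha]
  obtain ⟨P', hzP', hbP', hbc⟩ := hS X p P z hz hzc b hb hk
  have hcard' : Nat.card ↥(P' : Subgroup X) = p ^ 3 := by
    rw [P'.card_eq_multiplicity, ← P.card_eq_multiplicity, hcard]
  have hzb : z ∉ Subgroup.zpowers b := by
    intro h
    apply hbz
    have hle : Subgroup.zpowers z ≤ Subgroup.zpowers b := by
      rw [Subgroup.zpowers_le]
      exact h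
    have heq : Subgroup.zpowers z = Subgroup.zpowers b := by
      apply Subgroup.eq_of_le_of_card_ge hle
      rw [Nat.card_zpowers, Nat.card_zpowers, hoz, hob]
    rw [heq]
    exact Subgroup.mem_zpowers b
  have hy : ∃ y ∈ (P' : Subgroup X), y * z ≠ z * y := by
    by_contra hcon
    push Not at hcon
    have hab := hN X p (P' : Subgroup X) hcard' b hbP' hob hbc z hzP' hzb hcon
    obtain ⟨g, hg⟩ := MulAction.exists_smul_eq X P' P
    have hP : (P : Subgroup X) = MulAut.conj g • (P' : Subgroup X) := by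
      rw [← hg]
      rfl
    have hmem : ∀ x ∈ (P : Subgroup X), g⁻¹ * x * g ∈ (P' : Subgroup X) := by
      intro x hx
      rw [hP, Subgroup.mem_pointwise_smul_iff_inv_smul_mem, MulAut.smul_def,
        MulAut.conj_inv_apply] at hx
      exact hx
    apply hx₀b
    have h1 := hab _ (hmem x₀ hx₀) _ (hmem b hb)
    have h2 : g⁻¹ * (x₀ * b) * g = g⁻¹ * (b * x₀) * g := by
      calc g⁻¹ * (x₀ * b) * g = (g⁻¹ * x₀ * g) * (g⁻¹ * b * g) := by group
        _ = (g⁻¹ * b * g) * (g⁻¹ * x₀ * g) := h1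
        _ = g⁻¹ * (b * x₀) * g := by group
    exact mul_left_cancel (mul_right_cancel h2)
  obtain ⟨y, hyP', hyz⟩ := hy
  obtain ⟨c, hc⟩ := hC X p (P' : Subgroup X) hcard' b hbP' hob hbc y hyP' z hzP'
  have hpc : ¬ p ∣ c := by
    rintro ⟨k, rfl⟩
    apply hyz
    rw [pow_mul, hexp b hb, one_pow, mul_one] at hc
    calc y * z = y * z * y⁻¹ * y := by group
      _ = z * y := by rw [hc]
  exact hW X p hp2 z b x₀ y a c hz1 (hexp z hz) (hexp b hb) (hzc b hb).symm (hzc x₀ hx₀) ha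
    (hbc y hyP') hc hpa hpc

end Cfsg.Agent.Lib.Helper58.PDEVENCORE
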