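import Cfsg.Agent.Lib.Helper53.RUStmt

/-!
# S2522 / COV : a vector space over a field with at least `k` elements is not a union of `k`
proper subspaces.
-/

set_option autoImplicit false

namespace Cfsg.Agent.Lib.Helper58.RUCOV

universe u v

open Cfsg.Agent.Lib.Helper53.RUStmt

theorem exists_not_mem_finset {K : Type u} (T : Finset K)
    (h : (T.card : Cardinal.{u}) < Cardinal.mk K) : ∃ t, t ∉ T := by
  by_contra hcon
  push Not at hcon
  have h1 : Cardinal.mk K ≤ Cardinal.mk T :=
    Cardinal.mk_le_of_surjective (f := fun x : T => (x : K)) (fun t => ⟨⟨t, hcon t⟩, rfl⟩)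
  rw [Cardinal.mk_coe_finset] at h1
  exact absurd h (not_lt.mpr h1)

theorem cov_finset {K : Type u} [Field K] {V : Type v} [AddCommGroup V] [Module K V]
    (s : Finset (Submodule K V)) :
    (∀ U ∈ s, U ≠ ⊤) → (s.card : Cardinal.{u}) ≤ Cardinal.mk K → ∃ x : V, ∀ U ∈ s, x ∉ U := by
  classical
  induction s using Finset.induction_on with
  | empty => intro _ _; exact ⟨0, by simp⟩
  | insert U s hU ih =>
    intro hs hK
    rw [Finset.card_insert_of_notMem hU] at hK
    have hlt : (s.card : Cardinal.{u}) < Cardinal.mk K :=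
      lt_of_lt_of_le (by exact_mod_cast Nat.lt_succ_self _) hK
    obtain ⟨u, hu⟩ := ih (fun U' hU' => hs U' (Finset.mem_insert_of_mem hU')) hlt.le
    by_cases huU : u ∈ U
    · have hUtop : U ≠ ⊤ := hs U (Finset.mem_insert_self _ _)
      obtain ⟨w, hw⟩ : ∃ w, w ∉ U := by
        by_contra hcon
        push Not at hcon
        exact hUtop (eq_top_iff.mpr fun x _ => hcon x)
      let badt : Submodule K V → K :=
        fun U' => if h : ∃ t : K, w + t • u ∈ U' then h.choose else 0
      obtain ⟨t, ht⟩ := exists_not_mem_finset (s.image badt)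
        (lt_of_le_of_lt (by exact_mod_cast Finset.card_image_le) hlt)
      refine ⟨w + t • u, ?_⟩
      intro U' hU'
      rw [Finset.mem_insert] at hU'
      rcases hU' with rfl | hU'
      · intro hmem
        exact hw (by simpa using U'.sub_mem hmem (U'.smul_mem t huU))
      · intro hmem
        have hex : ∃ t : K, w + t • u ∈ U' := ⟨t, hmem⟩
        have hbt : badt U' = hex.choose := dif_pos hex
        have hspec := hex.choose_spec
        have hne : t ≠ hex.choose := by
          intro heq
          apply ht
          rw [Finset.mem_image]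
          exact ⟨U', hU', by rw [hbt, ← heq]⟩
        have hd : (t - hex.choose) • u ∈ U' := by
          have h2 := U'.sub_mem hmem hspec
          rwa [add_sub_add_left_eq_sub, ← sub_smul] at h2
        have h3 : u ∈ U' := by
          have h4 := U'.smul_mem (t - hex.choose)⁻¹ hd
          rwa [smul_smul, inv_mul_cancel₀ (sub_ne_zero.mpr hne), one_smul] at h4
        exact hu U' hU' h3
    · refine ⟨u, fun U' hU' => ?_⟩
      rw [Finset.mem_insert] at hU'
      rcases hU' with rfl | hU'
      · exact huU
      · exact hu U' hU'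

theorem main : Cfsg.Agent.Lib.Helper53.RUStmt.Cov4Stmt.{u, v} := by
  classical
  intro K _ V _ _ hK U₁ U₂ U₃ U₄ h1 h2 h3 h4
  have hcard : ((({U₁, U₂, U₃, U₄} : Finset (Submodule K V)).card : ℕ) : Cardinal.{u}) ≤
      Cardinal.mk K := by
    refine le_trans ?_ hK
    exact_mod_cast Finset.card_le_four
  obtain ⟨x, hx⟩ := cov_finset ({U₁, U₂, U₃, U₄} : Finset (Submodule K V)) (by
    intro U hU
    simp only [Finset.mem_insert, Finset.mem_singleton] at hU
    rcases hU with rfl | rfl | rfl | rfl <;> assumption) hcard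
  exact ⟨x, hx U₁ (by simp), hx U₂ (by simp), hx U₃ (by simp), hx U₄ (by simp)⟩

end Cfsg.Agent.Lib.Helper58.RUCOV
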