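import Cfsg.Agent.Lib.Helper53.RUStmt

/-!
# S2522 / CU : two distinct "bad" scalars force `V = E_c ⊕ E_c'`.
-/

set_option autoImplicit false

namespace Cfsg.Agent.Lib.Helper58.RUCU

universe u v

open Cfsg.Agent.Lib.Helper53.RUStmt

theorem sq_eq_one_neg {K : Type u} [Field K] (c : K) (hc : c ≠ 1) (h2 : c ^ 2 = 1) : c = -1 := by
  have h : (c - 1) * (c + 1) = 0 := by linear_combination h2
  rcases mul_eq_zero.mp h with h | h
  · exact absurd (sub_eq_zero.mp h) hc
  · exact eq_neg_of_add_eq_zero_left h

theorem main : Cfsg.Agent.Lib.Helper53.RUStmt.CUStmt.{u, v} := by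
  intro K _ V _ _ _ hn g c c' hc1 hc1' hcc hcn hcn' hE hE'
  have memE : ∀ v, v ∈ LinearMap.ker (g - c • (1 : Module.End K V)) ↔ g v = c • v := by
    intro v
    rw [LinearMap.mem_ker]
    simp [sub_eq_zero]
  have memE' : ∀ v, v ∈ LinearMap.ker (g - c' • (1 : Module.End K V)) ↔ g v = c' • v := by
    intro v
    rw [LinearMap.mem_ker]
    simp [sub_eq_zero]
  have hinf : LinearMap.ker (g - c • (1 : Module.End K V)) ⊓
      LinearMap.ker (g - c' • (1 : Module.End K V)) = ⊥ := by
    rw [eq_bot_iff]
    intro v hv
    rw [Submodule.mem_inf, memE, memE'] at hv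
    have h0 : (c - c') • v = 0 := by rw [sub_smul, ← hv.1, ← hv.2, sub_self]
    rcases smul_eq_zero.mp h0 with h | h
    · exact absurd (sub_eq_zero.mp h) hcc
    · simpa using h
  have hsum := Submodule.finrank_sup_add_finrank_inf_eq
    (LinearMap.ker (g - c • (1 : Module.End K V))) (LinearMap.ker (g - c' • (1 : Module.End K V)))
  rw [hinf, finrank_bot, add_zero] at hsum
  have hle : Module.finrank K ↥(LinearMap.ker (g - c • (1 : Module.End K V)) ⊔
      LinearMap.ker (g - c' • (1 : Module.End K V))) ≤ Module.finrank K V := Submodule.finrank_le _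
  have hn4 : Module.finrank K V = 3 ∨ Module.finrank K V = 4 := by omega
  rcases hn4 with h3 | h4
  · exfalso
    rw [h3] at hcn hcn'
    exact hcc ((sq_eq_one_neg c hc1 hcn).trans (sq_eq_one_neg c' hc1' hcn').symm)
  · have htop : LinearMap.ker (g - c • (1 : Module.End K V)) ⊔
        LinearMap.ker (g - c' • (1 : Module.End K V)) = ⊤ :=
      Submodule.eq_top_of_finrank_eq (by omega)
    have hdec : ∀ v : V, ∃ a b : V, g a = c • a ∧ g b = c' • b ∧ a + b = v := by
      intro v
      have hv : v ∈ LinearMap.ker (g - c • (1 : Module.End K V)) ⊔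
          LinearMap.ker (g - c' • (1 : Module.End K V)) := by rw [htop]; exact Submodule.mem_top
      obtain ⟨a, ha, b, hb, hab⟩ := Submodule.mem_sup.mp hv
      exact ⟨a, b, (memE a).mp ha, (memE' b).mp hb, hab⟩
    constructor
    · rw [eq_bot_iff]
      intro v hv
      rw [LinearMap.mem_ker] at hv
      have hgv : g v = v := by simpa [sub_eq_zero] using hv
      obtain ⟨a, b, ha, hb, rfl⟩ := hdec v
      rw [map_add, ha, hb] at hgv
      have hx : (c - 1) • a = (1 - c') • b := by
        rw [sub_smul, sub_smul, one_smul, one_smul, sub_eq_sub_iff_add_eq_add]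
        exact hgv.trans (add_comm a b)
      have hmem : (c - 1) • a ∈ LinearMap.ker (g - c • (1 : Module.End K V)) ⊓
          LinearMap.ker (g - c' • (1 : Module.End K V)) := by
        refine Submodule.mem_inf.mpr ⟨Submodule.smul_mem _ _ ((memE a).mpr ha), ?_⟩
        rw [hx]
        exact Submodule.smul_mem _ _ ((memE' b).mpr hb)
      rw [hinf, Submodule.mem_bot] at hmem
      have ha0 : a = 0 := by
        rcases smul_eq_zero.mp hmem with h | h
        · exact absurd (sub_eq_zero.mp h) hc1
        · exact h
      have hb0 : b = 0 := by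
        rw [hmem] at hx
        rcases smul_eq_zero.mp hx.symm with h | h
        · exact absurd (sub_eq_zero.mp h).symm hc1'
        · exact h
      rw [Submodule.mem_bot, ha0, hb0, add_zero]
    · rintro _ ⟨v, rfl⟩
      obtain ⟨a, b, ha, hb, rfl⟩ := hdec v
      rw [memE]
      have h1 : (g - c' • (1 : Module.End K V)) (a + b) = (c - c') • a := by
        simp only [LinearMap.sub_apply, LinearMap.smul_apply, Module.End.one_apply, map_add, ha,
          hb, sub_smul]
        abel
      rw [h1, map_smul, ha, smul_smul, smul_smul, mul_comm]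

end Cfsg.Agent.Lib.Helper58.RUCU
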