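import Cfsg.Agent.Lib.Helper53.RUStmt

/-!
# S2522 / D2V : in dimension 2 a vector avoiding four lines.
-/

set_option autoImplicit false

namespace Cfsg.Agent.Lib.Helper58.RUD2V

universe u v

open Cfsg.Agent.Lib.Helper53.RUStmt

theorem main : Cfsg.Agent.Lib.Helper53.RUStmt.D2VPiece.{u, v} := by
  classical
  intro hcov K _ V _ _ _ hK hn g hG f ξ hf hξ
  obtain ⟨-, hns, hrk⟩ := hG
  have hR1 : LinearMap.ker ξ ≠ ⊤ := by
    intro htop
    exact hξ (LinearMap.ker_eq_top.mp htop)
  have hR2 : Submodule.comap (g - 1) (K ∙ f) ≠ ⊤ := by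
    intro htop
    have hle : LinearMap.range (g - 1) ≤ K ∙ f := by
      rintro _ ⟨x, rfl⟩
      have h : x ∈ Submodule.comap (g - 1) (K ∙ f) := by rw [htop]; exact Submodule.mem_top
      exact h
    have h1 := Submodule.finrank_mono hle
    rw [finrank_span_singleton hf] at h1
    omega
  by_cases hex : ∃ c₁ : K, LinearMap.ker (g - c₁ • (1 : Module.End K V)) ≠ ⊥
  · obtain ⟨c₁, hc₁⟩ := hex
    have hR3 : LinearMap.ker (g - c₁ • (1 : Module.End K V)) ≠ ⊤ := by
      intro htop
      apply hns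
      exact ⟨c₁, sub_eq_zero.mp (LinearMap.ker_eq_top.mp htop)⟩
    have hR4 : LinearMap.range (g - c₁ • (1 : Module.End K V)) ≠ ⊤ := by
      intro htop
      apply hc₁
      rw [LinearMap.ker_eq_bot, LinearMap.injective_iff_surjective, ← LinearMap.range_eq_top]
      exact htop
    obtain ⟨v, h1, h2, h3, h4⟩ := hcov K V hK _ _ _ _ hR1 hR2 hR3 hR4
    refine ⟨v, ?_, ?_, ?_⟩
    · exact fun h0 => h1 (LinearMap.mem_ker.mpr h0)
    · intro t ht
      apply h2
      rw [Submodule.mem_comap, Submodule.mem_span_singleton]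
      exact ⟨t, ht.symm⟩
    · intro t ht
      by_cases htc : t = c₁
      · apply h3
        rw [LinearMap.mem_ker]
        simp [ht, htc]
      · apply h4
        refine ⟨(t - c₁)⁻¹ • v, ?_⟩
        simp only [map_smul, LinearMap.sub_apply, LinearMap.smul_apply, Module.End.one_apply, ht]
        rw [← sub_smul, smul_smul, inv_mul_cancel₀ (sub_ne_zero.mpr htc), one_smul]
  · push Not at hex
    obtain ⟨v, h1, h2, -, -⟩ := hcov K V hK _ _ _ _ hR1 hR2 hR1 hR1
    refine ⟨v, ?_, ?_, ?_⟩
    · exact fun h0 => h1 (LinearMap.mem_ker.mpr h0)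
    · intro t ht
      apply h2
      rw [Submodule.mem_comap, Submodule.mem_span_singleton]
      exact ⟨t, ht.symm⟩
    · intro t ht
      have hv0 : v ≠ 0 := by
        rintro rfl
        exact h1 (Submodule.zero_mem _)
      have h : v ∈ LinearMap.ker (g - t • (1 : Module.End K V)) := by
        rw [LinearMap.mem_ker]
        simp [ht]
      rw [hex t, Submodule.mem_bot] at h
      exact hv0 h

end Cfsg.Agent.Lib.Helper58.RUD2V
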