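import Cfsg.Agent.Lib.Helper53.RUStmt

/-!
# S2522 / ECORE : a vector of `ker (φ ∘ (g - 1))` avoiding four proper subspaces.
-/

set_option autoImplicit false

namespace Cfsg.Agent.Lib.Helper58.RUECORE

universe u v

open Cfsg.Agent.Lib.Helper53.RUStmt

/-- a functional vanishing on the kernel of another one is a multiple of it -/
theorem exists_smul_of_ker_le {K : Type u} [Field K] {V : Type v} [AddCommGroup V] [Module K V]
    (ψ χ : Module.Dual K V) (h : LinearMap.ker ψ ≤ LinearMap.ker χ) : ∃ t : K, χ = t • ψ := by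
  by_cases hψ : ψ = 0
  · refine ⟨0, ?_⟩
    rw [zero_smul]
    apply LinearMap.ker_eq_top.mp
    rw [eq_top_iff]
    refine le_trans ?_ h
    rw [hψ, LinearMap.ker_zero]
  · obtain ⟨x₀, hx₀⟩ : ∃ x₀, ψ x₀ ≠ 0 := by
      by_contra hcon
      push Not at hcon
      exact hψ (LinearMap.ext hcon)
    refine ⟨χ x₀ / ψ x₀, ?_⟩
    ext v
    have hmem : v - (ψ v / ψ x₀) • x₀ ∈ LinearMap.ker ψ := by
      rw [LinearMap.mem_ker, map_sub, map_smul, smul_eq_mul, div_mul_cancel₀ _ hx₀, sub_self]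
    have h2 := h hmem
    rw [LinearMap.mem_ker, map_sub, map_smul, smul_eq_mul, sub_eq_zero] at h2
    rw [LinearMap.smul_apply, smul_eq_mul, h2]
    field_simp

theorem main : Cfsg.Agent.Lib.Helper53.RUStmt.ECorePiece.{u, v} := by
  intro hcov K _ V _ _ _ hK g f ξ φ hξ hgood U₁ U₂ hx1 hx2
  obtain ⟨hφf, hc2, hc3, -, -⟩ := hgood
  have memL : ∀ x, x ∈ LinearMap.ker (φ ∘ₗ (g - 1)) ↔ φ ((g - 1) x) = 0 := fun x => by
    rw [LinearMap.mem_ker]; rfl
  have hφ0 : φ ≠ 0 := by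
    rintro rfl
    exact hφf rfl
  have hQ1 : Submodule.comap (LinearMap.ker (φ ∘ₗ (g - 1))).subtype (LinearMap.ker φ) ≠ ⊤ := by
    intro htop
    have hle : LinearMap.ker (φ ∘ₗ (g - 1)) ≤ LinearMap.ker φ := by
      intro x hx
      have h : (⟨x, hx⟩ : LinearMap.ker (φ ∘ₗ (g - 1))) ∈
          Submodule.comap (LinearMap.ker (φ ∘ₗ (g - 1))).subtype (LinearMap.ker φ) := by
        rw [htop]; exact Submodule.mem_top
      exact h
    obtain ⟨t, ht⟩ := exists_smul_of_ker_le (φ ∘ₗ (g - 1)) φ hle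
    have ht0 : t ≠ 0 := by
      rintro rfl
      rw [zero_smul] at ht
      exact hφ0 ht
    apply hc3 t⁻¹
    conv_rhs => rw [ht]
    rw [smul_smul, inv_mul_cancel₀ ht0, one_smul]
  have hQ2 : Submodule.comap (LinearMap.ker (φ ∘ₗ (g - 1))).subtype (LinearMap.ker ξ) ≠ ⊤ := by
    intro htop
    have hle : LinearMap.ker (φ ∘ₗ (g - 1)) ≤ LinearMap.ker ξ := by
      intro x hx
      have h : (⟨x, hx⟩ : LinearMap.ker (φ ∘ₗ (g - 1))) ∈
          Submodule.comap (LinearMap.ker (φ ∘ₗ (g - 1))).subtype (LinearMap.ker ξ) := by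
        rw [htop]; exact Submodule.mem_top
      exact h
    obtain ⟨t, ht⟩ := exists_smul_of_ker_le (φ ∘ₗ (g - 1)) ξ hle
    have ht0 : t ≠ 0 := by
      rintro rfl
      rw [zero_smul] at ht
      exact hξ ht
    apply hc2 t⁻¹
    conv_rhs => rw [ht]
    rw [smul_smul, inv_mul_cancel₀ ht0, one_smul]
  have hQ3 : Submodule.comap (LinearMap.ker (φ ∘ₗ (g - 1))).subtype U₁ ≠ ⊤ := by
    obtain ⟨x, hxL, hxU⟩ := hx1
    intro htop
    have h : (⟨x, (memL x).mpr hxL⟩ : LinearMap.ker (φ ∘ₗ (g - 1))) ∈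
        Submodule.comap (LinearMap.ker (φ ∘ₗ (g - 1))).subtype U₁ := by
      rw [htop]; exact Submodule.mem_top
    exact hxU h
  have hQ4 : Submodule.comap (LinearMap.ker (φ ∘ₗ (g - 1))).subtype U₂ ≠ ⊤ := by
    obtain ⟨x, hxL, hxU⟩ := hx2
    intro htop
    have h : (⟨x, (memL x).mpr hxL⟩ : LinearMap.ker (φ ∘ₗ (g - 1))) ∈
        Submodule.comap (LinearMap.ker (φ ∘ₗ (g - 1))).subtype U₂ := by
      rw [htop]; exact Submodule.mem_top
    exact hxU h
  obtain ⟨e, h1, h2, h3, h4⟩ :=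
    hcov K (LinearMap.ker (φ ∘ₗ (g - 1))) hK _ _ _ _ hQ1 hQ2 hQ3 hQ4
  refine ⟨(e : V), (memL _).mp e.2, ?_, ?_, ?_, ?_⟩
  · intro h0
    exact h1 (by rw [Submodule.mem_comap, LinearMap.mem_ker]; exact h0)
  · intro h0
    exact h2 (by rw [Submodule.mem_comap, LinearMap.mem_ker]; exact h0)
  · intro h0
    exact h3 (by rw [Submodule.mem_comap]; exact h0)
  · intro h0
    exact h4 (by rw [Submodule.mem_comap]; exact h0)

end Cfsg.Agent.Lib.Helper58.RUECORE
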