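import Cfsg.Agent.Lib.Helper53.RUStmt

/-!
# S2522 / FIXX : a functional with two prescribed inequalities (needs `|K| ≥ 3`).
-/

set_option autoImplicit false

namespace Cfsg.Agent.Lib.Helper58.RUFIXX

universe u v

open Cfsg.Agent.Lib.Helper53.RUStmt

theorem exists_not_mem_finset' {K : Type u} (T : Finset K)
    (h : (T.card : Cardinal.{u}) < Cardinal.mk K) : ∃ t, t ∉ T := by
  by_contra hcon
  push Not at hcon
  have h1 : Cardinal.mk K ≤ Cardinal.mk T :=
    Cardinal.mk_le_of_surjective (f := fun x : T => (x : K)) (fun t => ⟨⟨t, hcon t⟩, rfl⟩)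
  rw [Cardinal.mk_coe_finset] at h1
  exact absurd h (not_lt.mpr h1)

theorem main : Cfsg.Agent.Lib.Helper53.RUStmt.FixXStmt.{u, v} := by
  classical
  intro K _ W _ _ _ hK k₁ k₂ a hk1 hk2
  obtain ⟨X₁, hX1⟩ : ∃ X : Module.Dual K W, X k₁ ≠ 0 := by
    by_contra hcon
    push Not at hcon
    exact hk1 ((Module.forall_dual_apply_eq_zero_iff K k₁).mp hcon)
  obtain ⟨X₂, hX2⟩ : ∃ X : Module.Dual K W, X k₂ ≠ 0 := by
    by_contra hcon
    push Not at hcon
    exact hk2 ((Module.forall_dual_apply_eq_zero_iff K k₂).mp hcon)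
  have hlt : ((({-(X₁ k₁) / X₂ k₁, (a - X₁ k₂) / X₂ k₂} : Finset K).card : ℕ) : Cardinal.{u}) <
      Cardinal.mk K := by
    refine lt_of_lt_of_le ?_ hK
    have h2 : ({-(X₁ k₁) / X₂ k₁, (a - X₁ k₂) / X₂ k₂} : Finset K).card ≤ 2 :=
      Finset.card_le_two
    have h3 : ({-(X₁ k₁) / X₂ k₁, (a - X₁ k₂) / X₂ k₂} : Finset K).card < 3 := by omega
    exact_mod_cast h3
  obtain ⟨t, ht⟩ := exists_not_mem_finset' _ hlt
  simp only [Finset.mem_insert, Finset.mem_singleton, not_or] at ht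
  refine ⟨X₁ + t • X₂, ?_, ?_⟩
  · simp only [LinearMap.add_apply, LinearMap.smul_apply, smul_eq_mul]
    intro h0
    by_cases hz : X₂ k₁ = 0
    · rw [hz, mul_zero, add_zero] at h0
      exact hX1 h0
    · apply ht.1
      field_simp
      linear_combination h0
  · simp only [LinearMap.add_apply, LinearMap.smul_apply, smul_eq_mul]
    intro h0
    apply ht.2
    field_simp
    linear_combination h0

end Cfsg.Agent.Lib.Helper58.RUFIXX
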