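import Cfsg.Agent.Lib.Helper53.RUStmt

/-!
# S2522 / PCORE : a functional avoiding four proper subspaces of the dual.
-/

set_option autoImplicit false

namespace Cfsg.Agent.Lib.Helper58.RUPCORE

universe u v

open Cfsg.Agent.Lib.Helper53.RUStmt

theorem main : Cfsg.Agent.Lib.Helper53.RUStmt.PCorePiece.{u, v} := by
  intro hcov K _ V _ _ _ hK g f ξ hf hrank U₁ U₂ hU1 hU2
  have hP1 : LinearMap.ker (Module.Dual.eval K V f) ≠ ⊤ := by
    intro htop
    apply hf
    rw [← Module.forall_dual_apply_eq_zero_iff K f]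
    intro φ
    have h : φ ∈ LinearMap.ker (Module.Dual.eval K V f) := by rw [htop]; exact Submodule.mem_top
    simpa using h
  have hP2 : Submodule.comap (g - 1 : Module.End K V).dualMap (K ∙ ξ) ≠ ⊤ := by
    intro htop
    have hle : LinearMap.range (g - 1 : Module.End K V).dualMap ≤ K ∙ ξ := by
      rintro _ ⟨φ, rfl⟩
      have h : φ ∈ Submodule.comap (g - 1 : Module.End K V).dualMap (K ∙ ξ) := by
        rw [htop]; exact Submodule.mem_top
      exact h
    have h1 := Submodule.finrank_mono hle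
    rw [LinearMap.finrank_range_dualMap_eq_finrank_range] at h1
    have h2 : Module.finrank K (K ∙ ξ) ≤ 1 := by
      by_cases hξ : ξ = 0
      · rw [hξ, Submodule.span_zero_singleton, finrank_bot]; exact Nat.zero_le 1
      · rw [finrank_span_singleton hξ]
    omega
  have hP3 : U₁.dualAnnihilator ≠ ⊤ := by rwa [Ne, Submodule.dualAnnihilator_eq_top_iff]
  have hP4 : U₂.dualAnnihilator ≠ ⊤ := by rwa [Ne, Submodule.dualAnnihilator_eq_top_iff]
  obtain ⟨φ, h1, h2, h3, h4⟩ := hcov K (Module.Dual K V) hK _ _ _ _ hP1 hP2 hP3 hP4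
  refine ⟨φ, ?_, ?_, ?_, ?_⟩
  · intro h0
    apply h1
    rw [LinearMap.mem_ker]
    simpa using h0
  · intro t ht
    apply h2
    rw [Submodule.mem_comap, Submodule.mem_span_singleton]
    exact ⟨t, ht.symm⟩
  · rw [Submodule.mem_dualAnnihilator] at h3
    push Not at h3
    exact h3
  · rw [Submodule.mem_dualAnnihilator] at h4
    push Not at h4
    exact h4

end Cfsg.Agent.Lib.Helper58.RUPCORE
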