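import Mathlib
import Cfsg.Agent.Lib.Helper96.SylAltBasic

/-!
# S2221 / DSET: a central transposition `τ₀`, an invariant set `U` moved by a transposition and
fixed pointwise by `τ₀` and by another transposition.
-/

set_option autoImplicit false
set_option linter.style.haveILetI false

namespace Cfsg.Agent.Lib.Helper58.SADSET

open Equiv Cfsg.Agent.Lib.Lead.SylTwoSym Cfsg.Agent.Lib.Helper96.SylAltStmt
  Cfsg.Agent.Lib.Helper96.SylAltBasic

theorem main : Cfsg.Agent.Lib.Helper96.SylAltStmt.DSET' := by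
  intro hCARD hOSC Ω _ _ S hS h4 hodd hpow
  classical
  obtain ⟨τ₀, hτ₀, hcen⟩ := hOSC Ω S hS hodd
  have hc := (hCARD Ω S hS).1
  have hn : (swapsIn S).ncard = Fintype.card Ω / 2 := by
    rw [← hc]; exact (_root_.Nat.card_coe_set_eq (swapsIn S)).symm
  have h2 : 2 ≤ Fintype.card Ω / 2 := by omega
  obtain ⟨τ₁, hτ₁, hne⟩ : ∃ τ₁ ∈ swapsIn S, τ₁ ≠ τ₀ :=
    Set.exists_ne_of_one_lt_ncard (by omega) τ₀
  -- conjugates of `τ₁` differ from `τ₀`
  have hconj_ne : ∀ s ∈ S, s * τ₁ * s⁻¹ ≠ τ₀ := by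
    intro s hs h
    apply hne
    have h1 : τ₀ * s = s * τ₀ := hcen s hs
    calc τ₁ = s⁻¹ * (s * τ₁ * s⁻¹) * s := by group
      _ = s⁻¹ * τ₀ * s := by rw [h]
      _ = s⁻¹ * (τ₀ * s) := by group
      _ = s⁻¹ * (s * τ₀) := by rw [h1]
      _ = τ₀ := by group
  refine ⟨τ₀, hτ₀, hcen, {a | ∃ s ∈ S, (s * τ₁ * s⁻¹) a ≠ a}, ?_, ?_, ?_, ?_⟩
  · -- invariance
    rintro s' hs' a ⟨s, hs, hm⟩
    refine ⟨s' * s, S.mul_mem hs' hs, ?_⟩
    intro h
    apply hm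
    have e : s' * s * τ₁ * (s' * s)⁻¹ = s' * (s * τ₁ * s⁻¹) * s'⁻¹ := by group
    rw [e] at h
    have h' : s' ((s * τ₁ * s⁻¹) (s'⁻¹ (s' a))) = s' a := h
    rw [show s'⁻¹ (s' a) = a from by simp] at h'
    exact s'.injective h'
  · -- `τ₀` fixes `U`
    rintro a ⟨s, hs, hm⟩
    have hd := disjoint_of_ne hS.1 (conj_mem_swapsIn hτ₁ hs) hτ₀ (hconj_ne s hs)
    rcases hd a with h | h
    · exact absurd h hm
    · exact h
  · -- `τ₁` moves a point of `U`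
    obtain ⟨x, y, hxy, e⟩ := hτ₁.2
    refine ⟨τ₁, hτ₁, x, ⟨1, S.one_mem, ?_⟩, ?_⟩
    · simp only [one_mul, inv_one, mul_one]
      rw [e, Equiv.swap_apply_left]
      exact fun h => hxy h.symm
    · rw [e, Equiv.swap_apply_left]
      exact fun h => hxy h.symm
  · -- a transposition not conjugate to `τ₁`
    by_contra hcon
    push Not at hcon
    -- every element of `T \ {τ₀}` is conjugate to `τ₁`
    have hall : ∀ τ₂ ∈ swapsIn S, τ₂ ≠ τ₀ → ∃ s ∈ S, s * τ₁ * s⁻¹ = τ₂ := by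
      intro τ₂ hτ₂ hne2
      by_contra hno
      push Not at hno
      apply hcon τ₂ hτ₂ hne2
      rintro a ⟨s, hs, hm⟩
      have hd := disjoint_of_ne hS.1 (conj_mem_swapsIn hτ₁ hs) hτ₂ (hno s hs)
      rcases hd a with h | h
      · exact absurd h hm
      · exact h
    letI : MulAction ↥S (Perm Ω) :=
      MulAction.compHom (Perm Ω) ((MulAut.conj : Perm Ω →* MulAut (Perm Ω)).comp S.subtype)
    have hsmul : ∀ (s : ↥S) (τ : Perm Ω), s • τ = (s : Perm Ω) * τ * (s : Perm Ω)⁻¹ :=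
      fun s τ => rfl
    have horb : MulAction.orbit ↥S τ₁ = swapsIn S \ {τ₀} := by
      ext τ
      constructor
      · rintro ⟨s, rfl⟩
        change (s • τ₁) ∈ _
        rw [hsmul]
        exact ⟨conj_mem_swapsIn hτ₁ s.2, hconj_ne s s.2⟩
      · rintro ⟨hτ, hτne⟩
        obtain ⟨s, hs, e⟩ := hall τ hτ hτne
        exact ⟨⟨s, hs⟩, (hsmul ⟨s, hs⟩ τ₁).trans e⟩
    have hSp : IsPGroup 2 ↥S := hS.1
    obtain ⟨r, hr⟩ := hSp.card_orbit (τ₁ : Perm Ω)
    rw [_root_.Nat.card_coe_set_eq, horb, Set.ncard_sdiff_singleton_of_mem hτ₀, hn] at hr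
    exact hpow r hr

end Cfsg.Agent.Lib.Helper58.SADSET
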