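import Mathlib
import Cfsg.Agent.Lib.Helper96.SylAltBasic

/-!
# S2221 / SMALL: for `n = 4, 5` the even part of a maximal 2-subgroup of `Perm (Fin n)` is a
nontrivial direct product (a four-group).
-/

set_option autoImplicit false
set_option linter.style.haveILetI false

namespace Cfsg.Agent.Lib.Helper58.SASMALL

open Equiv Cfsg.Agent.Lib.Lead.SylTwoSym Cfsg.Agent.Lib.Helper96.SylAltStmt
  Cfsg.Agent.Lib.Helper96.SylAltBasic

set_option maxRecDepth 100000 in
theorem dec5 : ∀ x : Perm (Fin 5), Perm.sign x = 1 → x ^ 8 = 1 → x * x = 1 := by decide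

set_option maxRecDepth 100000 in
theorem dec4 : ∀ x : Perm (Fin 4), Perm.sign x = 1 → x ^ 8 = 1 → x * x = 1 := by decide

theorem mem_zpowers_of_sq {G : Type*} [Group G] {z a : G} (hz : z * z = 1)
    (ha : a ∈ Subgroup.zpowers z) : a = 1 ∨ a = z := by
  obtain ⟨k, rfl⟩ := Subgroup.mem_zpowers_iff.mp ha
  have h2 : z ^ (2 : ℤ) = 1 := by rw [zpow_two]; exact hz
  rcases Int.even_or_odd k with ⟨m, rfl⟩ | ⟨m, rfl⟩
  · left
    rw [← two_mul, zpow_mul, h2, one_zpow]
  · right
    rw [zpow_add_one, zpow_mul, h2, one_zpow, one_mul]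

/-- a group of order 4 and exponent 2 inside a group is a nontrivial internal direct product -/
theorem dec_of_four {G : Type*} [Group G] (H : Subgroup G) (h4 : Nat.card H = 4)
    (hsq : ∀ x ∈ H, x * x = 1) : Dec H := by
  classical
  haveI : Finite H := Nat.finite_of_card_ne_zero (by omega)
  have hHfin : (H : Set G).Finite := Set.toFinite _
  have hinv : ∀ x ∈ H, x⁻¹ = x := fun x hx => inv_eq_of_mul_eq_one_left (hsq x hx)
  have hcomm : ∀ x ∈ H, ∀ y ∈ H, x * y = y * x := by
    intro x hx y hy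
    have h1 := hinv (x * y) (H.mul_mem hx hy)
    rw [mul_inv_rev, hinv x hx, hinv y hy] at h1
    exact h1.symm
  have hn4 : (H : Set G).ncard = 4 := by
    rw [← h4]; exact (_root_.Nat.card_coe_set_eq (H : Set G)).symm
  obtain ⟨z, hzH, hz1⟩ : ∃ z ∈ (H : Set G), z ≠ 1 :=
    Set.exists_ne_of_one_lt_ncard (by omega) 1
  obtain ⟨e, heH, heN⟩ : ∃ e, e ∈ (H : Set G) ∧ e ∉ ({1, z} : Set G) := by
    apply Set.exists_mem_notMem_of_ncard_lt_ncard _ (Set.toFinite _)
    have := Set.ncard_insert_le (1 : G) ({z} : Set G)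
    rw [Set.ncard_singleton] at this
    omega
  have he1 : e ≠ 1 := fun h => heN (by simp [h])
  have hez : e ≠ z := fun h => heN (by simp [h])
  have hzz := hsq z hzH
  have hee := hsq e heH
  have hA : Subgroup.zpowers z ≤ H := (Subgroup.zpowers_le).2 hzH
  have hB : Subgroup.zpowers e ≤ H := (Subgroup.zpowers_le).2 heH
  refine ⟨Subgroup.zpowers z, Subgroup.zpowers e, Subgroup.zpowers_ne_bot.2 hz1,
    Subgroup.zpowers_ne_bot.2 he1, hA, hB, fun a ha b hb => hcomm a (hA ha) b (hB hb), ?_, ?_⟩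
  · rw [eq_bot_iff]
    intro x hx
    rw [Subgroup.mem_bot]
    rcases mem_zpowers_of_sq hzz hx.1 with h | h
    · exact h
    · rcases mem_zpowers_of_sq hee hx.2 with h' | h'
      · exact h'
      · exact absurd (h'.symm.trans h) hez
  · have hle : Subgroup.zpowers z ⊔ Subgroup.zpowers e ≤ H := sup_le hA hB
    apply Subgroup.eq_of_le_of_card_ge hle
    have hcA : Nat.card (Subgroup.zpowers z) = 2 := by
      rw [Nat.card_zpowers]
      exact orderOf_eq_prime (by rw [pow_two]; exact hzz) hz1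
    have hd1 : Nat.card (Subgroup.zpowers z) ∣
        Nat.card (Subgroup.zpowers z ⊔ Subgroup.zpowers e : Subgroup G) :=
      Subgroup.card_dvd_of_le le_sup_left
    have hd2 : Nat.card (Subgroup.zpowers z ⊔ Subgroup.zpowers e : Subgroup G) ∣ Nat.card H :=
      Subgroup.card_dvd_of_le hle
    have hlt : Nat.card (Subgroup.zpowers z) <
        Nat.card (Subgroup.zpowers z ⊔ Subgroup.zpowers e : Subgroup G) := by
      have hfin : ((Subgroup.zpowers z ⊔ Subgroup.zpowers e : Subgroup G) : Set G).Finite :=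
        hHfin.subset hle
      have hss : ((Subgroup.zpowers z : Subgroup G) : Set G) ⊂
          ((Subgroup.zpowers z ⊔ Subgroup.zpowers e : Subgroup G) : Set G) := by
        refine ⟨(le_sup_left : Subgroup.zpowers z ≤ _), fun h => ?_⟩
        have hemem : e ∈ Subgroup.zpowers z :=
          h ((le_sup_right : Subgroup.zpowers e ≤ _) (Subgroup.mem_zpowers e))
        rcases mem_zpowers_of_sq hzz hemem with h' | h'
        · exact he1 h'
        · exact hez h'
      have := Set.ncard_lt_ncard hss hfin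
      rwa [← _root_.Nat.card_coe_set_eq, ← _root_.Nat.card_coe_set_eq] at this
    rw [hcA] at hd1 hlt
    rw [h4] at hd2 ⊢
    have hle4 := Nat.le_of_dvd (by norm_num) hd2
    generalize Nat.card (Subgroup.zpowers z ⊔ Subgroup.zpowers e : Subgroup G) = c at *
    interval_cases c <;> omega

theorem core (n m : ℕ) (hcard : Nat.card (Perm (Fin n)) = 8 * m) (hm : ¬ 2 ∣ m)
    (hdec : ∀ x : Perm (Fin n), Perm.sign x = 1 → x ^ 8 = 1 → x * x = 1)
    (hCARD : CARD) (hn2 : 1 ≤ n / 2) (S : Subgroup (Perm (Fin n))) (hS : Max2 S) :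
    Dec (ev S) := by
  classical
  haveI : Fact (Nat.Prime 2) := ⟨Nat.prime_two⟩
  let P : Sylow 2 (Perm (Fin n)) :=
    { toSubgroup := S, isPGroup' := hS.1, is_maximal' := fun {Q} hQ hle => hS.2 Q hQ hle }
  have hnd : ¬ 2 ∣ S.index := P.not_dvd_index
  obtain ⟨k, hk⟩ := IsPGroup.iff_card.mp hS.1
  have hmul := S.card_mul_index
  rw [hcard, hk] at hmul
  have hS8 : Nat.card S = 8 := by
    rw [hk]
    rcases lt_trichotomy k 3 with h | h | h
    · exfalso
      interval_cases k
      · norm_num at hmul; omega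
      · norm_num at hmul; omega
      · norm_num at hmul; omega
    · rw [h]; norm_num
    · exfalso
      obtain ⟨j, rfl⟩ : ∃ j, k = j + 4 := ⟨k - 4, by omega⟩
      have e1 : 2 ^ (j + 4) * S.index = 16 * (2 ^ j * S.index) := by ring
      rw [e1] at hmul
      generalize 2 ^ j * S.index = t at hmul
      omega
  -- a transposition in `S`
  have hc := (hCARD (Fin n) S hS).1
  rw [Fintype.card_fin] at hc
  have hne : Nat.card ↥(swapsIn S) ≠ 0 := by omega
  obtain ⟨⟨⟨τ, hτ⟩⟩, -⟩ := Nat.card_ne_zero.mp hne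
  have hτs : Perm.sign τ = -1 := sign_of_mem_swapsIn hτ
  have h2 : (alternatingGroup (Fin n)).relIndex S = 2 := by
    rw [Subgroup.relIndex_eq_two_iff]
    refine ⟨τ, hτ.1, fun b _ => ?_⟩
    rw [Equiv.Perm.mem_alternatingGroup, Equiv.Perm.mem_alternatingGroup, Perm.sign_mul, hτs]
    rcases Int.units_eq_one_or (Perm.sign b) with h | h
    · rw [h]; right; exact ⟨rfl, by decide⟩
    · rw [h]; left; exact ⟨by decide, by decide⟩
  have h4 : Nat.card (ev S) = 4 := by
    have h3 := Subgroup.relIndex_mul_relIndex (H := (⊥ : Subgroup (Perm (Fin n))))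
      (K := ev S) (L := S) bot_le inf_le_left
    rw [Subgroup.relIndex_bot_left, Subgroup.relIndex_bot_left] at h3
    have h5 : (ev S).relIndex S = 2 := by
      unfold ev
      rw [Subgroup.inf_relIndex_left]
      exact h2
    rw [h5, hS8] at h3
    omega
  apply dec_of_four (ev S) h4
  intro x hx
  rw [mem_ev] at hx
  apply hdec x hx.2
  have h6 : (⟨x, hx.1⟩ : S) ^ Nat.card S = 1 := pow_card_eq_one'
  rw [hS8] at h6
  exact congrArg Subtype.val h6

theorem main : Cfsg.Agent.Lib.Helper96.SylAltStmt.SMALL' := by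
  intro hCARD _ _ _ n hn S hS
  rcases hn with rfl | rfl
  · exact core 4 3 (by rw [Nat.card_perm, Nat.card_eq_fintype_card, Fintype.card_fin]; decide)
      (by decide) dec4 hCARD (by norm_num) S hS
  · exact core 5 15 (by rw [Nat.card_perm, Nat.card_eq_fintype_card, Fintype.card_fin]; decide)
      (by decide) dec5 hCARD (by norm_num) S hS

end Cfsg.Agent.Lib.Helper58.SASMALL
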